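import Mathlib
import Cfsg.Agent.Lib.Classical.Ore.Siegel

/-!
# Existence of `θ` with `NoInv θ`

If `q ^ m ≥ 5` or `m = 1`, `q ≥ 4`, a primitive element of `𝔽_{q^m}` acts on `F^m` with no invariant
bilinear form. For `T = -1` we also get `D` with `-D` conjugate to `D` and `NoInv D`.
-/

set_option autoImplicit false

namespace Cfsg.Agent.Lib.Classical.Ore.Primitive

open Matrix Cfsg.Agent.Lib.Classical.Ore.Siegel

/-- A biadditive form on a finite field with at least `5` elements, invariant under scaling both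
arguments by `β ≠ 0`, vanishes. -/
theorem biadd_vanish {K A : Type*} [Field K] [Fintype K] [AddCommGroup A] (hK : 5 ≤ Fintype.card K)
    (f : K → K → A) (h1 : ∀ x y z, f (x + y) z = f x z + f y z)
    (h2 : ∀ x y z, f x (y + z) = f x y + f x z)
    (h3 : ∀ β : K, β ≠ 0 → ∀ x y, f (β * x) (β * y) = f x y) : ∀ x y, f x y = 0 := by
  classical
  -- find `x₀`
  have hex : ∃ x₀ : K, x₀ ≠ 0 ∧ x₀ ≠ -1 ∧ x₀ ^ 2 + x₀ + 1 ≠ 0 := by
    by_contra hcon
    push Not at hcon
    let s : Finset K := Finset.univ \ {0, -1}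
    have hs : 2 < s.card := by
      have : s.card = Fintype.card K - ({0, -1} : Finset K).card := by
        rw [Finset.card_sdiff_of_subset (Finset.subset_univ _), Finset.card_univ]
      have h2' : ({0, -1} : Finset K).card ≤ 2 := Finset.card_le_two
      omega
    obtain ⟨a, ha, b, hb, c, hc, hab, hac, hbc⟩ := Finset.two_lt_card.mp hs
    have hmem : ∀ x ∈ s, x ^ 2 + x + 1 = 0 := by
      intro x hx
      simp only [s, Finset.mem_sdiff, Finset.mem_univ, Finset.mem_insert, Finset.mem_singleton,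
        true_and, not_or] at hx
      exact hcon x hx.1 hx.2
    have h4 := hmem a ha
    have h5 := hmem b hb
    have h6 := hmem c hc
    have h7 : (a - b) * (a + b + 1) = 0 := by linear_combination h4 - h5
    have h8 : (a - c) * (a + c + 1) = 0 := by linear_combination h4 - h6
    have h9 : a + b + 1 = 0 := (mul_eq_zero.mp h7).resolve_left (sub_ne_zero.mpr hab)
    have h10 : a + c + 1 = 0 := (mul_eq_zero.mp h8).resolve_left (sub_ne_zero.mpr hac)
    apply hbc
    linear_combination h9 - h10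
  obtain ⟨x₀, hx0, hx1, hx2⟩ := hex
  have hx1' : x₀ + 1 ≠ 0 := fun h => hx1 (eq_neg_of_add_eq_zero_left h)
  have hf0 : ∀ y, f 0 y = 0 := by
    intro y
    have := h1 0 0 y
    simpa using this
  have hf0' : ∀ x, f x 0 = 0 := by
    intro x
    have := h2 x 0 0
    simpa using this
  have hneg : ∀ x y, f x (-y) = - f x y := by
    intro x y
    have := h2 x y (-y)
    rw [add_neg_cancel, hf0'] at this
    exact (eq_neg_of_add_eq_zero_right this.symm)
  have hsub : ∀ x y z, f x (y - z) = f x y - f x z := by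
    intro x y z
    rw [sub_eq_add_neg, h2, hneg, sub_eq_add_neg]
  have hphi : ∀ x y, x ≠ 0 → f x y = f 1 (y / x) := by
    intro x y hx
    have := h3 x⁻¹ (inv_ne_zero hx) x y
    rw [inv_mul_cancel₀ hx] at this
    rw [← this, div_eq_inv_mul]
  set e : K := 1 / (x₀ + 1) - 1 / x₀ - 1 with he
  have he0 : e ≠ 0 := by
    intro h
    apply hx2
    rw [he] at h
    field_simp at h
    linear_combination -h
  have hv : ∀ y, f 1 (y * e) = 0 := by
    intro y
    have h3' := h1 x₀ 1 y
    rw [hphi _ _ hx1', hphi _ _ hx0, hphi 1 y one_ne_zero, div_one] at h3'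
    have : y * e = y / (x₀ + 1) - y / x₀ - y := by
      rw [he]; field_simp
    rw [this, hsub, hsub, h3']
    abel
  have hv' : ∀ z, f 1 z = 0 := by
    intro z
    have := hv (z / e)
    rwa [div_mul_cancel₀ _ he0] at this
  intro x y
  by_cases hx : x = 0
  · rw [hx, hf0]
  · rw [hphi x y hx, hv']

section Ext

variable {F K : Type*} [Field F] [Field K] [Algebra F K] [FiniteDimensional F K] [Fintype K]

/-- A primitive element of `K` has `NoInv`. -/
theorem exists_noInv_of_ext (hK : 5 ≤ Fintype.card K) {m : ℕ} (b : Module.Basis (Fin m) F K) :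
    ∃ θ : (Matrix (Fin m) (Fin m) F)ˣ, NoInv (θ : Matrix (Fin m) (Fin m) F) := by
  classical
  obtain ⟨α, hα⟩ := IsCyclic.exists_generator (α := Kˣ)
  let L := Algebra.leftMulMatrix b
  have hL : L (α : K) * L ((α⁻¹ : Kˣ) : K) = 1 := by
    rw [← map_mul, Units.mul_inv, map_one]
  have hL' : L ((α⁻¹ : Kˣ) : K) * L (α : K) = 1 := by
    rw [← map_mul, Units.inv_mul, map_one]
  refine ⟨⟨L α, L ((α⁻¹ : Kˣ) : K), hL, hL'⟩, ?_⟩
  apply noInv_of_left
  intro W hW
  change (L (α : K))ᵀ * W * L (α : K) = W at hW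
  let f : K → K → F := fun x y => (b.repr x) ⬝ᵥ (W *ᵥ (b.repr y))
  have hmv : ∀ a y : K, L a *ᵥ (b.repr y : Fin m → F) = b.repr (a * y) := fun a y =>
    Algebra.leftMulMatrix_mulVec_repr b a y
  have hf : ∀ x y, f (α * x) (α * y) = f x y := by
    intro x y
    simp only [f]
    rw [← hmv, ← hmv, Matrix.mulVec_mulVec]
    have h1 : ∀ (A : Matrix (Fin m) (Fin m) F) (u z : Fin m → F), (A *ᵥ u) ⬝ᵥ z = u ⬝ᵥ (Aᵀ *ᵥ z) := by
      intro A u z
      rw [Matrix.dotProduct_mulVec, Matrix.vecMul_transpose]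
    rw [h1, Matrix.mulVec_mulVec, ← Matrix.mul_assoc, hW]
  have hpow : ∀ (n : ℕ) (x y : K), f ((α : K) ^ n * x) ((α : K) ^ n * y) = f x y := by
    intro n
    induction n with
    | zero => intro x y; simp
    | succ n ih =>
      intro x y
      rw [pow_succ', mul_assoc, mul_assoc, hf, ih]
  have hbeta : ∀ β : K, β ≠ 0 → ∀ x y, f (β * x) (β * y) = f x y := by
    intro β hβ x y
    have hmem := hα (Units.mk0 β hβ)
    obtain ⟨k, hk⟩ := Subgroup.mem_zpowers_iff.mp hmem
    have hfin : IsOfFinOrder α := isOfFinOrder_of_finite α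
    obtain ⟨n, hn⟩ : ∃ n : ℕ, α ^ n = Units.mk0 β hβ := by
      rw [← hk]
      have : α ^ k ∈ Submonoid.powers α := hfin.mem_powers_iff_mem_zpowers.mpr ⟨k, rfl⟩
      obtain ⟨n, hn⟩ := this
      exact ⟨n, hn⟩
    have : β = (α : K) ^ n := by
      have := congrArg Units.val hn
      simpa using this.symm
    rw [this, hpow]
  have hvan := biadd_vanish hK f
    (fun x y z => by simp [f, add_dotProduct])
    (fun x y z => by simp [f, mulVec_add, dotProduct_add])
    hbeta
  ext i j
  have := hvan (b i) (b j)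
  simp only [f] at this
  have h2 : ∀ k, ((b.repr (b k) : Fin m →₀ F) : Fin m → F) = Pi.single k 1 := by
    intro k
    rw [Module.Basis.repr_self]
    ext l
    simp [Finsupp.single_apply, Pi.single_apply, eq_comm]
  rw [h2, h2] at this
  simpa [Matrix.mulVec_single, single_dotProduct] using this

/-- The case `m = 1`. -/
theorem exists_noInv_one {F : Type*} [Field F] [Fintype F] (hF : 4 ≤ Fintype.card F) :
    ∃ θ : (Matrix (Fin 1) (Fin 1) F)ˣ, NoInv (θ : Matrix (Fin 1) (Fin 1) F) := by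
  classical
  obtain ⟨a, ha⟩ : ∃ a : F, a ≠ 0 ∧ a ^ 2 ≠ 1 := by
    by_contra hcon
    push Not at hcon
    let s : Finset F := Finset.univ \ {0}
    have hs : 2 < s.card := by
      have : s.card = Fintype.card F - ({0} : Finset F).card := by
        rw [Finset.card_sdiff_of_subset (Finset.subset_univ _), Finset.card_univ]
      simp at this
      omega
    obtain ⟨a, ha, b, hb, c, hc, hab, hac, hbc⟩ := Finset.two_lt_card.mp hs
    simp only [s, Finset.mem_sdiff, Finset.mem_univ, Finset.mem_singleton, true_and] at ha hb hc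
    have h1 := hcon a ha
    have h2 := hcon b hb
    have h3 := hcon c hc
    have h4 : (a - b) * (a + b) = 0 := by linear_combination h1 - h2
    have h5 : (a - c) * (a + c) = 0 := by linear_combination h1 - h3
    have h6 := (mul_eq_zero.mp h4).resolve_left (sub_ne_zero.mpr hab)
    have h7 := (mul_eq_zero.mp h5).resolve_left (sub_ne_zero.mpr hac)
    apply hbc
    linear_combination h6 - h7
  have h0 : a ≠ 0 := ha.1
  refine ⟨⟨Matrix.scalar (Fin 1) a, Matrix.scalar (Fin 1) a⁻¹, ?_, ?_⟩, ?_⟩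
  · rw [← map_mul, mul_inv_cancel₀ h0, map_one]
  · rw [← map_mul, inv_mul_cancel₀ h0, map_one]
  apply noInv_of_left
  intro W hW
  ext i j
  have h1 := congrFun (congrFun hW i) j
  have h2 : (a ^ 2 - 1) * W i j = 0 := by
    have hi : i = 0 := Subsingleton.elim _ _
    have hj : j = 0 := Subsingleton.elim _ _
    subst hi hj
    simp [Matrix.mul_apply, Matrix.scalar_apply] at h1
    linear_combination h1
  exact (mul_eq_zero.mp h2).resolve_left (sub_ne_zero.mpr ha.2)

end Ext

/-- `NoInv` exists for all non-exceptional `(m, q)`. -/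
theorem exists_noInv {F : Type*} [Field F] [Fintype F] {m : ℕ} (hm : 1 ≤ m)
    (h : 5 ≤ Fintype.card F ^ m ∨ (m = 1 ∧ 4 ≤ Fintype.card F)) :
    ∃ θ : (Matrix (Fin m) (Fin m) F)ˣ, NoInv (θ : Matrix (Fin m) (Fin m) F) := by
  classical
  by_cases h5 : 5 ≤ Fintype.card F ^ m
  · obtain ⟨p, hp⟩ := CharP.exists F
    haveI : Fact p.Prime := ⟨CharP.char_is_prime F p⟩
    haveI : NeZero m := ⟨by omega⟩
    let K := FiniteField.Extension F p m
    letI : Fintype K := Fintype.ofFinite K
    have hcard : Fintype.card K = Fintype.card F ^ m := by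
      rw [← Nat.card_eq_fintype_card, FiniteField.natCard_extension, Nat.card_eq_fintype_card]
    have hfr : Module.finrank F K = m := FiniteField.finrank_extension F p m
    exact exists_noInv_of_ext (F := F) (K := K) (by rw [hcard]; exact h5)
      (Module.finBasisOfFinrankEq F K hfr)
  · obtain ⟨rfl, h4⟩ := h.resolve_left h5
    exact exists_noInv_one h4

section Neg

variable {F : Type*} [Field F] {ι κ : Type*} [Fintype ι] [DecidableEq ι] [Fintype κ] [DecidableEq κ]

/-- The block element with `D² = diag(θ, θ)`. -/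
theorem noInv_block (θ : (Matrix ι ι F)ˣ) (h : NoInv (θ : Matrix ι ι F)) :
    NoInv (fromBlocks 0 (θ : Matrix ι ι F) 1 0) := by
  apply noInv_of_left
  intro W hW
  set t : Matrix ι ι F := ↑θ
  set D : Matrix (ι ⊕ ι) (ι ⊕ ι) F := fromBlocks 0 t 1 0 with hD
  have hDD : D * D = fromBlocks t 0 0 t := by
    simp [hD, fromBlocks_multiply]
  have h2 : (D * D)ᵀ * W * (D * D) = W := by
    rw [Matrix.transpose_mul]
    calc Dᵀ * Dᵀ * W * (D * D) = Dᵀ * (Dᵀ * W * D) * D := by simp only [Matrix.mul_assoc]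
      _ = W := by rw [hW, hW]
  rw [hDD] at h2
  obtain ⟨A, B, C, E, rfl⟩ : ∃ A B C E, W = fromBlocks A B C E :=
    ⟨_, _, _, _, (fromBlocks_toBlocks W).symm⟩
  simp only [fromBlocks_transpose, fromBlocks_multiply, transpose_zero, Matrix.zero_mul,
    Matrix.mul_zero, add_zero, zero_add] at h2
  have := fromBlocks_inj.mp h2
  rw [h.1 A this.1, h.1 B this.2.1, h.1 C this.2.2.1, h.1 E this.2.2.2]
  simp

/-- `NoInv` under reindexing. -/
theorem noInv_reindex (e : ι ≃ κ) {θ : Matrix ι ι F} (h : NoInv θ) :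
    NoInv (Matrix.reindexAlgEquiv F F e θ) := by
  apply noInv_of_left
  intro W hW
  set R := Matrix.reindexAlgEquiv F F e with hR
  have hT : ∀ A : Matrix ι ι F, (R A)ᵀ = R Aᵀ := fun A => by
    ext i j; simp [hR, Matrix.coe_reindexAlgEquiv]
  obtain ⟨W', rfl⟩ := R.surjective W
  rw [hT, ← map_mul, ← map_mul] at hW
  have := h.1 W' (R.injective hW)
  rw [this, map_zero]

/-- Construction of `D` with `NoInv D` and `P D P⁻¹ = -D`. -/
theorem exists_noInv_neg {F : Type*} [Field F] [Fintype F] {n : ℕ} (hn : 1 ≤ n)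
    (h : 5 ≤ Fintype.card F ^ n ∨ (n = 1 ∧ 4 ≤ Fintype.card F)) :
    ∃ D P : (Matrix (Fin (2 * n)) (Fin (2 * n)) F)ˣ, NoInv (D : Matrix (Fin (2 * n)) (Fin (2 * n)) F) ∧
      P * D * P⁻¹ * D⁻¹ = -1 := by
  classical
  obtain ⟨θ, hθ⟩ := exists_noInv hn h
  let e : Fin n ⊕ Fin n ≃ Fin (2 * n) := finSumFinEquiv.trans (finCongr (two_mul n).symm)
  set t : Matrix (Fin n) (Fin n) F := ↑θ
  set s : Matrix (Fin n) (Fin n) F := ↑θ⁻¹
  have h1 : t * s = 1 := θ.mul_inv
  have h2 : s * t = 1 := θ.inv_mul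
  let D₀ : (Matrix (Fin n ⊕ Fin n) (Fin n ⊕ Fin n) F)ˣ :=
    ⟨fromBlocks 0 t 1 0, fromBlocks 0 1 s 0, by
      simp [fromBlocks_multiply, h1], by
      simp [fromBlocks_multiply, h2]⟩
  let P₀ : (Matrix (Fin n ⊕ Fin n) (Fin n ⊕ Fin n) F)ˣ :=
    ⟨fromBlocks 1 0 0 (-1), fromBlocks 1 0 0 (-1), by
      simp [fromBlocks_multiply], by
      simp [fromBlocks_multiply]⟩
  let R := Matrix.reindexAlgEquiv F F e
  let RM : Matrix (Fin n ⊕ Fin n) (Fin n ⊕ Fin n) F →* Matrix (Fin (2 * n)) (Fin (2 * n)) F :=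
    MonoidHomClass.toMonoidHom R
  let D₁ := Units.map RM D₀
  let P₁ := Units.map RM P₀
  refine ⟨D₁, P₁, ?_, ?_⟩
  · exact noInv_reindex e (noInv_block θ hθ)
  · have : P₀ * D₀ * P₀⁻¹ * D₀⁻¹ = -1 := by
      apply Units.ext
      simp only [Units.val_mul, Units.val_neg, Units.val_one]
      change fromBlocks 1 0 0 (-1) * fromBlocks 0 t 1 0 * fromBlocks 1 0 0 (-1) * fromBlocks 0 1 s 0 = _
      simp [fromBlocks_multiply, h1]
      ext (i | i) (j | j) <;> simp [Matrix.one_apply, Matrix.neg_apply]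
    have h3 := congrArg (Units.map RM) this
    simp only [map_mul, map_inv] at h3
    rw [h3]
    apply Units.ext
    simp only [Units.coe_map, Units.val_neg, Units.val_one]
    change R (-1) = -1
    rw [map_neg, map_one]

end Neg

end Cfsg.Agent.Lib.Classical.Ore.Primitive
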