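import Mathlib
import Cfsg.Agent.Lib.Classical.Ore.Primitive
import Cfsg.Agent.Lib.Classical.Symp.SympBasis

/-!
# Lagrangian pairs: from `(g - κ) Λ ⊆ Λ'` to commutators

An isometry `g` of a nondegenerate alternating space with complementary totally isotropic `Λ, Λ'` such
that `(g - κ) Λ ⊆ Λ'` has the block form `lo C * hat κ * up B` and so is a commutator provided
`κ = P θ P⁻¹ θ⁻¹` with `NoInv θ`.
-/

set_option autoImplicit false

namespace Cfsg.Agent.Lib.Classical.Ore.Lagr

open Matrix Cfsg Cfsg.Agent.Lib.Classical.Symp.AltForm Cfsg.Agent.Lib.Classical.Symp.Basic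
open Cfsg.Agent.Lib.Classical.Symp.SympBasis Cfsg.Agent.Lib.Classical.Ore.Siegel
open Cfsg.Agent.Lib.Classical.Ore.Primitive

universe u

variable {F : Type*} [Field F]

section MatrixLevel

variable {ι : Type*} [Fintype ι] [DecidableEq ι]

/-- A symplectic matrix with scalar upper left block is a commutator if the scalar is of the form
`P θ P⁻¹ θ⁻¹`, `NoInv θ`. -/
theorem comm_of_scalar_block (θ P : (Matrix ι ι F)ˣ) (hN : NoInv (θ : Matrix ι ι F)) {κ : F} (hκ : κ ≠ 0)
    (hT : ((P * θ * P⁻¹ * θ⁻¹ : (Matrix ι ι F)ˣ) : Matrix ι ι F) = κ • 1) (A : symplecticGroup ι F)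
    (hA : (A : MM ι F).toBlocks₁₁ = κ • 1) :
    ∃ a b : symplecticGroup ι F, A = a * b * a⁻¹ * b⁻¹ := by
  obtain ⟨a, b, c, d, hAe⟩ : ∃ a b c d, (A : MM ι F) = fromBlocks a b c d :=
    ⟨_, _, _, _, (fromBlocks_toBlocks (A : MM ι F)).symm⟩
  have ha : a = κ • 1 := by rw [← hA, hAe, toBlocks_fromBlocks₁₁]
  subst ha
  have hmem : fromBlocks (κ • (1 : Matrix ι ι F)) b c d ∈ symplecticGroup ι F := hAe ▸ A.2
  obtain ⟨h1, -, h3⟩ := SymplecticGroup.fromBlocks_mem_iff.mp hmem
  have hmem' := SymplecticGroup.transpose_mem hmem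
  rw [fromBlocks_transpose] at hmem'
  obtain ⟨h1', -, -⟩ := SymplecticGroup.fromBlocks_mem_iff.mp hmem'
  simp only [transpose_smul, transpose_one, transpose_transpose, smul_mul, Matrix.one_mul,
    Matrix.mul_smul, Matrix.mul_one] at h1 h3 h1'
  have hc : cᵀ = c := (smul_right_injective _ hκ h1).symm
  have hb : bᵀ = b := smul_right_injective _ hκ h1'
  rw [hc] at h3
  refine comm_main θ P hN (C := κ⁻¹ • c) (B := κ⁻¹ • b) (by simp [hc]) (by simp [hb]) A ?_
  set T := P * θ * P⁻¹ * θ⁻¹ with hTd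
  have hTi : ((T⁻¹ : (Matrix ι ι F)ˣ) : Matrix ι ι F) = κ⁻¹ • 1 := by
    have h5 : ((T : (Matrix ι ι F)ˣ) : Matrix ι ι F) * (κ⁻¹ • (1 : Matrix ι ι F)) = 1 := by
      rw [hT, smul_mul_smul_comm, mul_inv_cancel₀ hκ, one_smul, Matrix.one_mul]
    have h6 := Units.inv_eq_of_mul_eq_one_right (u := T) h5
    exact h6
  rw [hAe]
  simp only [lo, up, hat, hT, hTi, fromBlocks_multiply, transpose_smul, transpose_one,
    Matrix.mul_zero, Matrix.zero_mul, Matrix.one_mul, Matrix.mul_one, add_zero, zero_add,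
    smul_mul, Matrix.mul_smul, smul_smul, mul_inv_cancel₀ hκ, one_smul, inv_mul_cancel₀ hκ]
  have hd : d = κ⁻¹ • (1 + c * b) := by
    have : κ • d = 1 + c * b := by rw [← h3]; abel
    rw [← this, smul_smul, inv_mul_cancel₀ hκ, one_smul]
  congr 1
  · simp
  · rw [hd]
    simp [smul_add, add_comm]

end MatrixLevel

section Abstract

variable {V : Type*} [AddCommGroup V] [Module F V] {B : LinearMap.BilinForm F V}

/-- `g` is a commutator in the isometry group. -/
def IsComm (B : LinearMap.BilinForm F V) (g : V ≃ₗ[F] V) : Prop :=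
  ∃ a b : IsomGroup B, g = ((a * b * a⁻¹ * b⁻¹ : IsomGroup B) : V ≃ₗ[F] V)

/-- Data of a pair of isotropic subspaces spanning `V` with `(g - κ) Λ ⊆ Λ'`. -/
def IsA (B : LinearMap.BilinForm F V) (κ : F) (g : V ≃ₗ[F] V) : Prop :=
  ∃ Λ Λ' : Submodule F V, Λ ⊔ Λ' = ⊤ ∧ (∀ x ∈ Λ, ∀ y ∈ Λ, B x y = 0) ∧ (∀ x ∈ Λ', ∀ y ∈ Λ', B x y = 0) ∧
    ∀ x ∈ Λ, g x - κ • x ∈ Λ'

/-- Transfer of commutators along a group isomorphism. -/
theorem isComm_of_equiv {G : Type*} [Group G] (Ψ : G ≃* IsomGroup B) {A : G} (h : ∃ a b : G, A = a * b * a⁻¹ * b⁻¹) :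
    IsComm B ((Ψ A : IsomGroup B) : V ≃ₗ[F] V) := by
  obtain ⟨a, b, rfl⟩ := h
  refine ⟨Ψ a, Ψ b, ?_⟩
  simp only [map_mul, map_inv]

variable [FiniteDimensional F V]

/-- A family of hyperbolic pairs spanning `V` gives a symplectic equivalence. -/
theorem equiv_of_family {k : ℕ} (a b : Fin k → V) (h1 : ∀ i j, B (a i) (a j) = 0)
    (h2 : ∀ i j, B (b i) (b j) = 0) (h3 : ∀ i j, B (a i) (b j) = if i = j then 1 else 0)
    (hA : B.IsAlt) (hdim : Module.finrank F V = 2 * k) :
    ∃ e : V ≃ₗ[F] (Fin k ⊕ Fin k → F), (∀ u v, sympForm k F (e u) (e v) = B u v) ∧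
      ∀ x, e.symm x = ∑ i, (x (Sum.inr i) • a i + x (Sum.inl i) • b i) := by
  classical
  let T : (Fin k ⊕ Fin k → F) →ₗ[F] V :=
    ∑ i, ((LinearMap.proj (Sum.inr i)).smulRight (a i) + (LinearMap.proj (Sum.inl i)).smulRight (b i))
  have hT : ∀ x, T x = ∑ i, (x (Sum.inr i) • a i + x (Sum.inl i) • b i) := by
    intro x
    simp [T, LinearMap.sum_apply]
  have h4 : ∀ i j, B (b i) (a j) = - if j = i then 1 else 0 := by
    intro i j
    rw [alt_swap hA, h3]
  have hform : ∀ x y, B (T x) (T y) = sympForm k F x y := by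
    intro x y
    rw [hT, hT, sympForm_apply]
    simp only [map_sum, LinearMap.sum_apply, map_add, LinearMap.add_apply, map_smul,
      LinearMap.smul_apply, smul_eq_mul, h1, h2, h3, h4]
    apply Finset.sum_congr rfl
    intro i _
    simp only [mul_zero, add_zero, zero_add, mul_ite, mul_one, mul_neg]
    simp [Finset.sum_ite_eq, Finset.sum_ite_eq', sub_eq_add_neg, mul_comm]
    ring
  have hinj : Function.Injective T := by
    rw [injective_iff_map_eq_zero]
    intro x hx
    apply (sympBilin_nondegenerate (m := k) (F := F)).1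
    intro y
    rw [sympBilin_apply, ← hform, hx]
    simp
  have hrank : Module.finrank F (Fin k ⊕ Fin k → F) = Module.finrank F V := by
    rw [hdim]
    simp [Module.finrank_fintype_fun_eq_card]
    ring
  let e := LinearMap.linearEquivOfInjective T hinj hrank
  refine ⟨e.symm, fun u v => ?_, fun x => hT x⟩
  have := hform (e.symm u) (e.symm v)
  rw [← this]
  have h5 : ∀ z, T (e.symm z) = z := fun z => e.apply_symm_apply z
  rw [h5, h5]

/-- Coordinates adapted to a pair of complementary isotropic subspaces. -/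
theorem exists_coord (hA : B.IsAlt) (hB : B.Nondegenerate) {Λ Λ' : Submodule F V} (hsup : Λ ⊔ Λ' = ⊤)
    (h1 : ∀ x ∈ Λ, ∀ y ∈ Λ, B x y = 0) (h2 : ∀ x ∈ Λ', ∀ y ∈ Λ', B x y = 0) {m : ℕ}
    (hdim : Module.finrank F V = 2 * m) :
    ∃ e : V ≃ₗ[F] (Fin m ⊕ Fin m → F), (∀ u v, sympForm m F (e u) (e v) = B u v) ∧
      (∀ x ∈ Λ', ∀ i, e x (Sum.inl i) = 0) ∧ (∀ i, e.symm (Pi.single (Sum.inl i) 1) ∈ Λ) := by
  classical
  have hleft : ∀ y, (∀ x ∈ Λ, B x y = 0) → (∀ x ∈ Λ', B x y = 0) → y = 0 := by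
    intro y h3 h4
    apply hB.2
    intro x
    have hx : x ∈ Λ ⊔ Λ' := by rw [hsup]; trivial
    obtain ⟨p, hp, q, hq, rfl⟩ := Submodule.mem_sup.mp hx
    simp [h3 p hp, h4 q hq]
  have hdisj : Λ ⊓ Λ' = ⊥ := by
    rw [eq_bot_iff]
    intro x ⟨hx1, hx2⟩
    rw [Submodule.mem_bot]
    exact hleft x (fun y hy => h1 y hy x hx1) (fun y hy => h2 y hy x hx2)
  have hdims := Submodule.finrank_sup_add_finrank_inf_eq Λ Λ'
  rw [hsup, hdisj, finrank_top, finrank_bot, add_zero, hdim] at hdims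
  -- pairing
  let φ : Λ' →ₗ[F] Module.Dual F Λ :=
    { toFun := fun y => (B (y : V)).comp Λ.subtype
      map_add' := fun a b => by ext; simp
      map_smul' := fun c a => by ext; simp }
  let φ' : Λ →ₗ[F] Module.Dual F Λ' :=
    { toFun := fun y => (B (y : V)).comp Λ'.subtype
      map_add' := fun a b => by ext; simp
      map_smul' := fun c a => by ext; simp }
  have hφ : Function.Injective φ := by
    rw [injective_iff_map_eq_zero]
    rintro ⟨y, hy⟩ h
    apply Subtype.ext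
    apply hleft y
    · intro x hx
      rw [alt_swap hA]
      have := LinearMap.congr_fun h ⟨x, hx⟩
      simp only [φ, LinearMap.coe_mk, AddHom.coe_mk, LinearMap.comp_apply, Submodule.subtype_apply,
        LinearMap.zero_apply] at this
      simp [this]
    · intro x hx
      exact h2 x hx y hy
  have hφ' : Function.Injective φ' := by
    rw [injective_iff_map_eq_zero]
    rintro ⟨y, hy⟩ h
    apply Subtype.ext
    apply hleft y
    · intro x hx
      exact h1 x hx y hy
    · intro x hx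
      rw [alt_swap hA]
      have := LinearMap.congr_fun h ⟨x, hx⟩
      simp only [φ', LinearMap.coe_mk, AddHom.coe_mk, LinearMap.comp_apply, Submodule.subtype_apply,
        LinearMap.zero_apply] at this
      simp [this]
  have hr1 : Module.finrank F Λ' ≤ Module.finrank F Λ := by
    have := LinearMap.finrank_le_finrank_of_injective hφ
    rwa [Subspace.dual_finrank_eq] at this
  have hr2 : Module.finrank F Λ ≤ Module.finrank F Λ' := by
    have := LinearMap.finrank_le_finrank_of_injective hφ'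
    rwa [Subspace.dual_finrank_eq] at this
  have hΛ : Module.finrank F Λ = m := by omega
  have hΛ' : Module.finrank F Λ' = m := by omega
  let bΛ : Module.Basis (Fin m) F Λ := Module.finBasisOfFinrankEq F Λ hΛ
  have hφr : Module.finrank F Λ' = Module.finrank F (Module.Dual F Λ) := by
    rw [Subspace.dual_finrank_eq, hΛ, hΛ']
  let φe : Λ' ≃ₗ[F] Module.Dual F Λ := LinearMap.linearEquivOfInjective φ hφ hφr
  let c' : Module.Basis (Fin m) F Λ' := bΛ.dualBasis.map φe.symm
  have hc' : ∀ i j, B (c' i : V) (bΛ j : V) = if i = j then 1 else 0 := by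
    intro i j
    have h3 : φ (c' i) = bΛ.dualBasis i := by
      change φe (φe.symm (bΛ.dualBasis i)) = _
      exact φe.apply_symm_apply _
    have h4 := LinearMap.congr_fun h3 (bΛ j)
    simp only [φ, LinearMap.coe_mk, AddHom.coe_mk, LinearMap.comp_apply, Submodule.subtype_apply] at h4
    rw [h4, Module.Basis.dualBasis_apply_self]
    simp [eq_comm]
  obtain ⟨e, he, hsymm⟩ := equiv_of_family (k := m) (fun i => (c' i : V)) (fun i => (bΛ i : V))
    (fun i j => h2 _ (c' i).2 _ (c' j).2) (fun i j => h1 _ (bΛ i).2 _ (bΛ j).2) hc' hA hdim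
  refine ⟨e, he, ?_, ?_⟩
  · intro x hx i
    set z : Fin m ⊕ Fin m → F := Sum.elim 0 (fun j => c'.repr ⟨x, hx⟩ j) with hz
    have h5 : e.symm z = x := by
      rw [hsymm]
      have h6 : ∑ j, c'.repr ⟨x, hx⟩ j • (c' j : V) = x := by
        have := congrArg Λ'.subtype (c'.sum_repr ⟨x, hx⟩)
        simp only [map_sum, map_smul, Submodule.subtype_apply] at this
        exact this
      conv_rhs => rw [← h6]
      simp [hz]
    rw [← h5, e.apply_symm_apply]
    simp [hz]
  · intro i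
    rw [hsymm]
    apply Submodule.sum_mem
    intro j _
    have h5 : (Pi.single (Sum.inl i) 1 : Fin m ⊕ Fin m → F) (Sum.inr j) = 0 := by
      simp [Pi.single_apply]
    rw [h5, zero_smul, zero_add]
    exact Λ.smul_mem _ (bΛ j).2

/-- The main abstract result: from a Lagrangian pair to a commutator. -/
theorem comm_of_lagr (hA : B.IsAlt) (hB : B.Nondegenerate) {Λ Λ' : Submodule F V} (hsup : Λ ⊔ Λ' = ⊤)
    (h1 : ∀ x ∈ Λ, ∀ y ∈ Λ, B x y = 0) (h2 : ∀ x ∈ Λ', ∀ y ∈ Λ', B x y = 0) {m : ℕ}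
    (hdim : Module.finrank F V = 2 * m)
    (θ P : (Matrix (Fin m) (Fin m) F)ˣ) (hN : NoInv (θ : Matrix (Fin m) (Fin m) F)) {κ : F} (hκ : κ ≠ 0)
    (hT : ((P * θ * P⁻¹ * θ⁻¹ : (Matrix (Fin m) (Fin m) F)ˣ) : Matrix (Fin m) (Fin m) F) = κ • 1)
    {g : V ≃ₗ[F] V} (hg : g ∈ IsomGroup B) (hgl : ∀ x ∈ Λ, g x - κ • x ∈ Λ') : IsComm B g := by
  classical
  obtain ⟨e, he, he1, he2⟩ := exists_coord hA hB hsup h1 h2 hdim
  let Φ := isomEquiv (B := B) (B' := sympBilin m F) e (fun u v => he u v)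
  let Ψ : symplecticGroup (Fin m) F ≃* IsomGroup B := spEquivIsom.trans Φ.symm
  let A := Ψ.symm ⟨g, hg⟩
  have hAg : Ψ A = ⟨g, hg⟩ := Ψ.apply_symm_apply _
  have hAx : ∀ x, (A : MM (Fin m) F) *ᵥ x = e (g (e.symm x)) := by
    intro x
    have h3 : spEquivIsom A = Φ ⟨g, hg⟩ := by
      change spEquivIsom (spEquivIsom.symm (Φ ⟨g, hg⟩)) = _
      exact spEquivIsom.apply_symm_apply _
    have h4 := spEquivIsom_apply A x
    rw [h3] at h4
    rw [← h4]
    rfl
  have hblock : (A : MM (Fin m) F).toBlocks₁₁ = κ • 1 := by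
    ext j i
    have h3 : (A : MM (Fin m) F).toBlocks₁₁ j i = ((A : MM (Fin m) F) *ᵥ (Pi.single (Sum.inl i) 1)) (Sum.inl j) := by
      rw [Matrix.mulVec_single_one]
      rfl
    rw [h3, hAx]
    set y := e.symm (Pi.single (Sum.inl i) 1) with hy
    have h4 : g y = κ • y + (g y - κ • y) := by abel
    rw [h4, map_add, map_smul, Pi.add_apply, Pi.smul_apply, he1 _ (hgl y (he2 i)), add_zero, hy,
      e.apply_symm_apply]
    simp [Matrix.one_apply, Pi.single_apply, smul_eq_mul, eq_comm]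
  have hcomm := comm_of_scalar_block θ P hN hκ hT A hblock
  have := isComm_of_equiv Ψ hcomm
  rw [hAg] at this
  exact this

end Abstract

end Cfsg.Agent.Lib.Classical.Ore.Lagr
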