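import Mathlib
import Cfsg.Agent.Lib.Classical.Ore.Lagr

/-!
# Orthogonal products and transport for `IsComm`, `IsA`
-/

set_option autoImplicit false

namespace Cfsg.Agent.Lib.Classical.Ore.Sum

open Cfsg.Agent.Lib.Classical.Symp.AltForm Cfsg.Agent.Lib.Classical.Symp.SympBasis
open Cfsg.Agent.Lib.Classical.Ore.Lagr

variable {F : Type*} [Field F]
variable {V V' V₁ V₂ : Type*} [AddCommGroup V] [Module F V] [AddCommGroup V'] [Module F V']
  [AddCommGroup V₁] [Module F V₁] [AddCommGroup V₂] [Module F V₂]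

/-- The orthogonal product of two bilinear forms. -/
noncomputable def prodForm (B₁ : LinearMap.BilinForm F V₁) (B₂ : LinearMap.BilinForm F V₂) :
    LinearMap.BilinForm F (V₁ × V₂) :=
  LinearMap.mk₂ F (fun x y => B₁ x.1 y.1 + B₂ x.2 y.2)
    (fun a b c => by simp; abel)
    (fun r a b => by simp [mul_add])
    (fun a b c => by simp; abel)
    (fun r a b => by simp [mul_add])

@[simp] theorem prodForm_apply (B₁ : LinearMap.BilinForm F V₁) (B₂ : LinearMap.BilinForm F V₂)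
    (x y : V₁ × V₂) : prodForm B₁ B₂ x y = B₁ x.1 y.1 + B₂ x.2 y.2 := rfl

theorem prodForm_isAlt {B₁ : LinearMap.BilinForm F V₁} {B₂ : LinearMap.BilinForm F V₂}
    (h₁ : B₁.IsAlt) (h₂ : B₂.IsAlt) : (prodForm B₁ B₂).IsAlt := by
  intro x
  simp [h₁ x.1, h₂ x.2]

theorem prodForm_nondeg {B₁ : LinearMap.BilinForm F V₁} {B₂ : LinearMap.BilinForm F V₂}
    (h₁ : B₁.Nondegenerate) (h₂ : B₂.Nondegenerate) : (prodForm B₁ B₂).Nondegenerate := by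
  constructor
  · rintro ⟨x₁, x₂⟩ h
    refine Prod.ext (h₁.1 x₁ fun y => ?_) (h₂.1 x₂ fun y => ?_)
    · simpa using h (y, 0)
    · simpa using h (0, y)
  · rintro ⟨x₁, x₂⟩ h
    refine Prod.ext (h₁.2 x₁ fun y => ?_) (h₂.2 x₂ fun y => ?_)
    · simpa using h (y, 0)
    · simpa using h (0, y)

theorem prod_mem {B₁ : LinearMap.BilinForm F V₁} {B₂ : LinearMap.BilinForm F V₂}
    {g₁ : V₁ ≃ₗ[F] V₁} {g₂ : V₂ ≃ₗ[F] V₂} (h₁ : g₁ ∈ IsomGroup B₁) (h₂ : g₂ ∈ IsomGroup B₂) :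
    g₁.prodCongr g₂ ∈ IsomGroup (prodForm B₁ B₂) := by
  intro x y
  simp [h₁ x.1 y.1, h₂ x.2 y.2]

/-- Product of isometries as a group homomorphism. -/
noncomputable def prodHom (B₁ : LinearMap.BilinForm F V₁) (B₂ : LinearMap.BilinForm F V₂) :
    IsomGroup B₁ × IsomGroup B₂ →* IsomGroup (prodForm B₁ B₂) where
  toFun p := ⟨(p.1 : V₁ ≃ₗ[F] V₁).prodCongr (p.2 : V₂ ≃ₗ[F] V₂), prod_mem p.1.2 p.2.2⟩
  map_one' := by
    apply Subtype.ext
    ext x <;> rfl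
  map_mul' a b := by
    apply Subtype.ext
    ext x <;> rfl

theorem IsComm.prod {B₁ : LinearMap.BilinForm F V₁} {B₂ : LinearMap.BilinForm F V₂}
    {g₁ : V₁ ≃ₗ[F] V₁} {g₂ : V₂ ≃ₗ[F] V₂} (h₁ : IsComm B₁ g₁) (h₂ : IsComm B₂ g₂) :
    IsComm (prodForm B₁ B₂) (g₁.prodCongr g₂) := by
  obtain ⟨a₁, b₁, rfl⟩ := h₁
  obtain ⟨a₂, b₂, rfl⟩ := h₂
  refine ⟨prodHom B₁ B₂ (a₁, a₂), prodHom B₁ B₂ (b₁, b₂), ?_⟩
  rw [← map_inv, ← map_inv, ← map_mul, ← map_mul, ← map_mul]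
  rfl

theorem IsA.prod {B₁ : LinearMap.BilinForm F V₁} {B₂ : LinearMap.BilinForm F V₂} {κ : F}
    {g₁ : V₁ ≃ₗ[F] V₁} {g₂ : V₂ ≃ₗ[F] V₂} (h₁ : IsA B₁ κ g₁) (h₂ : IsA B₂ κ g₂) :
    IsA (prodForm B₁ B₂) κ (g₁.prodCongr g₂) := by
  obtain ⟨Λ₁, Λ₁', hs₁, hi₁, hi₁', hg₁⟩ := h₁
  obtain ⟨Λ₂, Λ₂', hs₂, hi₂, hi₂', hg₂⟩ := h₂
  refine ⟨Λ₁.prod Λ₂, Λ₁'.prod Λ₂', ?_, ?_, ?_, ?_⟩
  · rw [eq_top_iff]
    rintro ⟨x₁, x₂⟩ -
    have h₁ : x₁ ∈ Λ₁ ⊔ Λ₁' := by rw [hs₁]; trivial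
    have h₂ : x₂ ∈ Λ₂ ⊔ Λ₂' := by rw [hs₂]; trivial
    obtain ⟨p₁, hp₁, q₁, hq₁, rfl⟩ := Submodule.mem_sup.mp h₁
    obtain ⟨p₂, hp₂, q₂, hq₂, rfl⟩ := Submodule.mem_sup.mp h₂
    exact Submodule.mem_sup.mpr ⟨(p₁, p₂), ⟨hp₁, hp₂⟩, (q₁, q₂), ⟨hq₁, hq₂⟩, rfl⟩
  · rintro ⟨x₁, x₂⟩ ⟨h₁, h₂⟩ ⟨y₁, y₂⟩ ⟨h₃, h₄⟩
    simp [hi₁ _ h₁ _ h₃, hi₂ _ h₂ _ h₄]
  · rintro ⟨x₁, x₂⟩ ⟨h₁, h₂⟩ ⟨y₁, y₂⟩ ⟨h₃, h₄⟩
    simp [hi₁' _ h₁ _ h₃, hi₂' _ h₂ _ h₄]
  · rintro ⟨x₁, x₂⟩ ⟨h₁, h₂⟩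
    exact ⟨hg₁ _ h₁, hg₂ _ h₂⟩

/-- Transport of commutators along an isometry. -/
theorem IsComm.congr {B : LinearMap.BilinForm F V} {B' : LinearMap.BilinForm F V'} (e : V ≃ₗ[F] V')
    (he : ∀ x y, B' (e x) (e y) = B x y) {g : V ≃ₗ[F] V} {g' : V' ≃ₗ[F] V'}
    (hg : ∀ x, e (g x) = g' (e x)) (h : IsComm B' g') : IsComm B g := by
  obtain ⟨a', b', rfl⟩ := h
  let Φ := isomEquiv (B := B) (B' := B') e he
  refine ⟨Φ.symm a', Φ.symm b', ?_⟩
  ext x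
  apply e.injective
  rw [hg]
  have h1 : Φ (Φ.symm a' * Φ.symm b' * (Φ.symm a')⁻¹ * (Φ.symm b')⁻¹) = a' * b' * a'⁻¹ * b'⁻¹ := by
    simp only [map_mul, map_inv, MulEquiv.apply_symm_apply]
  rw [← h1, isomEquiv_apply, e.symm_apply_apply]

/-- Transport of Lagrangian data along an isometry. -/
theorem IsA.congr {B : LinearMap.BilinForm F V} {B' : LinearMap.BilinForm F V'} (e : V ≃ₗ[F] V') {κ : F}
    (he : ∀ x y, B' (e x) (e y) = B x y) {g : V ≃ₗ[F] V} {g' : V' ≃ₗ[F] V'}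
    (hg : ∀ x, e (g x) = g' (e x)) (h : IsA B' κ g') : IsA B κ g := by
  obtain ⟨Λ, Λ', hs, hi, hi', hgl⟩ := h
  refine ⟨Λ.comap (e : V →ₗ[F] V'), Λ'.comap (e : V →ₗ[F] V'), ?_, ?_, ?_, ?_⟩
  · rw [eq_top_iff]
    intro x _
    have h₁ : e x ∈ Λ ⊔ Λ' := by rw [hs]; trivial
    obtain ⟨p, hp, q, hq, h2⟩ := Submodule.mem_sup.mp h₁
    refine Submodule.mem_sup.mpr ⟨e.symm p, ?_, e.symm q, ?_, ?_⟩
    · simpa using hp
    · simpa using hq
    · apply e.injective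
      simpa using h2
  · intro x hx y hy
    rw [← he]
    exact hi _ hx _ hy
  · intro x hx y hy
    rw [← he]
    exact hi' _ hx _ hy
  · intro x hx
    have := hgl _ hx
    simp only [Submodule.mem_comap, LinearEquiv.coe_coe, map_sub, map_smul, hg]
    exact this

/-- `IsA` for `-1` in terms of `-g`. -/
theorem isA_neg_iff {B : LinearMap.BilinForm F V} {g : V ≃ₗ[F] V} :
    IsA B (-1) g ↔ IsA B 1 (LinearEquiv.neg F * g) := by
  constructor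
  · rintro ⟨Λ, Λ', hs, hi, hi', hgl⟩
    refine ⟨Λ, Λ', hs, hi, hi', fun x hx => ?_⟩
    have := Λ'.neg_mem (hgl x hx)
    convert this using 1
    simp
    abel
  · rintro ⟨Λ, Λ', hs, hi, hi', hgl⟩
    refine ⟨Λ, Λ', hs, hi, hi', fun x hx => ?_⟩
    have := Λ'.neg_mem (hgl x hx)
    convert this using 1
    simp
    abel

/-- The identity is a commutator. -/
theorem isComm_one {B : LinearMap.BilinForm F V} : IsComm B (1 : V ≃ₗ[F] V) :=
  ⟨1, 1, by simp⟩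

section Split

variable [FiniteDimensional F V] {B : LinearMap.BilinForm F V}

/-- Decomposition along a nondegenerate subspace. -/
theorem split_equiv (hr : B.IsRefl) {W : Submodule F V} (hc : IsCompl W (B.orthogonal W)) :
    ∃ e : V ≃ₗ[F] (W × B.orthogonal W),
      (∀ x y, prodForm (B.restrict W) (B.restrict (B.orthogonal W)) (e x) (e y) = B x y) ∧
      (∀ (g : V ≃ₗ[F] V) (h₁ : ∀ x, x ∈ W ↔ g x ∈ W) (h₂ : ∀ x, x ∈ B.orthogonal W ↔ g x ∈ B.orthogonal W)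
        (x : V), e (g x) = ((restrictEquiv g W h₁).prodCongr (restrictEquiv g _ h₂)) (e x)) := by
  let e₀ := Submodule.prodEquivOfIsCompl W (B.orthogonal W) hc
  have he₀ : ∀ p, e₀ p = (p.1 : V) + (p.2 : V) := fun p => rfl
  have horth : ∀ (a : W) (b : B.orthogonal W), B a b = 0 := fun a b =>
    (LinearMap.BilinForm.mem_orthogonal_iff.mp b.2) a a.2
  have horth' : ∀ (a : W) (b : B.orthogonal W), B b a = 0 := fun a b => hr _ _ (horth a b)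
  refine ⟨e₀.symm, ?_, ?_⟩
  · intro x y
    obtain ⟨p, rfl⟩ := e₀.surjective x
    obtain ⟨q, rfl⟩ := e₀.surjective y
    rw [e₀.symm_apply_apply, e₀.symm_apply_apply, he₀, he₀]
    simp [horth, horth']
  · intro g h₁ h₂ x
    obtain ⟨p, rfl⟩ := e₀.surjective x
    rw [e₀.symm_apply_apply, LinearEquiv.symm_apply_eq, he₀, he₀]
    simp

/-- Nondegeneracy of the parts. -/
theorem restrict_nondeg_left (hr : B.IsRefl) {W : Submodule F V} (hc : IsCompl W (B.orthogonal W)) :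
    (B.restrict W).Nondegenerate :=
  (LinearMap.BilinForm.restrict_nondegenerate_iff_isCompl_orthogonal hr).mpr hc

theorem restrict_nondeg_right (hr : B.IsRefl) (hB : B.Nondegenerate) {W : Submodule F V}
    (hc : IsCompl W (B.orthogonal W)) : (B.restrict (B.orthogonal W)).Nondegenerate := by
  apply (LinearMap.BilinForm.restrict_nondegenerate_iff_isCompl_orthogonal hr).mpr
  rw [LinearMap.BilinForm.orthogonal_orthogonal hB hr]
  exact hc.symm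

/-- The compatibility criterion. -/
theorem isCompl_of_disj (hr : B.IsRefl) {W : Submodule F V}
    (h : ∀ x ∈ W, (∀ y ∈ W, B x y = 0) → x = 0) : IsCompl W (B.orthogonal W) := by
  rw [LinearMap.BilinForm.isCompl_orthogonal_iff_disjoint hr, Submodule.disjoint_def]
  intro x hx hx'
  refine h x hx fun y hy => ?_
  exact hr _ _ ((LinearMap.BilinForm.mem_orthogonal_iff.mp hx') y hy)

/-- A forward stable subspace of a finite-dimensional space is stable. -/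
theorem stable_iff {g : V ≃ₗ[F] V} {W : Submodule F V} (h : ∀ x ∈ W, g x ∈ W) (x : V) :
    x ∈ W ↔ g x ∈ W := by
  refine ⟨h x, fun hx => ?_⟩
  let r : W →ₗ[F] W := (g : V →ₗ[F] V).restrict h
  have hinj : Function.Injective r := by
    intro a b hab
    apply Subtype.ext
    apply g.injective
    exact congrArg Subtype.val hab
  obtain ⟨y, hy⟩ := (LinearMap.injective_iff_surjective.mp hinj) ⟨g x, hx⟩
  have h1 : g y = g x := congrArg Subtype.val hy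
  rw [← g.injective h1]
  exact y.2

end Split

end Cfsg.Agent.Lib.Classical.Ore.Sum
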