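import Mathlib
import Cfsg.Agent.Lib.Classical.Ore.Sum

/-!
# Polynomials in `τ = g + g⁻¹` and cyclic blocks

For an isometry `g` of an alternating space, `τ = g + g⁻¹` is self-adjoint and `B (p(τ) x, x) = 0`.
Cyclic nondegenerate blocks carry the Lagrangian pair `F[τ] v`, `F[τ] (g - 1) v`.
-/

set_option autoImplicit false

namespace Cfsg.Agent.Lib.Classical.Ore.Cyc

open Polynomial Cfsg.Agent.Lib.Classical.Symp.AltForm Cfsg.Agent.Lib.Classical.Symp.SympBasis
open Cfsg.Agent.Lib.Classical.Ore.Lagr Cfsg.Agent.Lib.Classical.Ore.Sum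

variable {F V : Type*} [Field F] [AddCommGroup V] [Module F V] {B : LinearMap.BilinForm F V}

/-- Self-adjoint endomorphism with alternating attached form. -/
structure IsHyp (B : LinearMap.BilinForm F V) (f : Module.End F V) : Prop where
  sa : ∀ x y, B (f x) y = B x (f y)
  alt : ∀ x, B (f x) x = 0

theorem IsHyp.pow_sa {f : Module.End F V} (h : IsHyp B f) (n : ℕ) (x y : V) :
    B ((f ^ n) x) y = B x ((f ^ n) y) := by
  induction n generalizing x y with
  | zero => simp
  | succ n ih =>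
    rw [pow_succ, Module.End.mul_apply, ih, h.sa, ← Module.End.mul_apply, ← pow_succ', pow_succ]

theorem IsHyp.aeval_sa {f : Module.End F V} (h : IsHyp B f) (p : F[X]) (x y : V) :
    B (aeval f p x) y = B x (aeval f p y) := by
  induction p using Polynomial.induction_on' with
  | add p q hp hq => simp [hp, hq]
  | monomial n c =>
    simp only [aeval_monomial, Module.End.mul_apply, Module.algebraMap_end_apply, map_smul,
      LinearMap.smul_apply, h.pow_sa]

theorem IsHyp.pow_alt {f : Module.End F V} (h : IsHyp B f) (hA : B.IsAlt) (n : ℕ) (x : V) :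
    B ((f ^ n) x) x = 0 := by
  obtain ⟨j, rfl | rfl⟩ := Nat.even_or_odd' n
  · rw [two_mul, pow_add, Module.End.mul_apply, h.pow_sa]
    exact hA _
  · rw [show 2 * j + 1 = j + (1 + j) by ring, pow_add, pow_add, pow_one, Module.End.mul_apply,
      Module.End.mul_apply, h.pow_sa]
    exact h.alt _

theorem IsHyp.aeval_alt {f : Module.End F V} (h : IsHyp B f) (hA : B.IsAlt) (p : F[X]) (x : V) :
    B (aeval f p x) x = 0 := by
  induction p using Polynomial.induction_on' with
  | add p q hp hq => simp [hp, hq]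
  | monomial n c =>
    simp only [aeval_monomial, Module.End.mul_apply, Module.algebraMap_end_apply, map_smul,
      LinearMap.smul_apply, h.pow_alt hA, smul_zero]

/-- Elements of `F[f] x` pair to zero. -/
theorem IsHyp.aeval_aeval {f : Module.End F V} (h : IsHyp B f) (hA : B.IsAlt) (p q : F[X]) (x : V) :
    B (aeval f p x) (aeval f q x) = 0 := by
  rw [← h.aeval_sa, ← Module.End.mul_apply, ← map_mul]
  exact h.aeval_alt hA _ _

/-- A polynomial in a commuting element commutes. -/
theorem commute_aeval {a f : Module.End F V} (h : Commute a f) (p : F[X]) : Commute a (aeval f p) := by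
  induction p using Polynomial.induction_on' with
  | add p q hp hq => rw [map_add]; exact hp.add_right hq
  | monomial n c =>
    rw [aeval_monomial]
    exact (Algebra.commute_algebraMap_left c a).symm.mul_right (h.pow_right n)

/-- `g + g⁻¹`. -/
noncomputable def tau (g : V ≃ₗ[F] V) : Module.End F V := (g : V →ₗ[F] V) + (g.symm : V →ₗ[F] V)

@[simp] theorem tau_apply (g : V ≃ₗ[F] V) (x : V) : tau g x = g x + g.symm x := rfl

theorem isom_symm_right {g : V ≃ₗ[F] V} (hg : g ∈ IsomGroup B) (x y : V) :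
    B (g x) y = B x (g.symm y) := by
  have := hg x (g.symm y)
  rwa [g.apply_symm_apply] at this

theorem isom_symm_left {g : V ≃ₗ[F] V} (hg : g ∈ IsomGroup B) (x y : V) :
    B (g.symm x) y = B x (g y) := by
  have := hg (g.symm x) y
  rw [g.apply_symm_apply] at this
  exact this.symm

theorem tau_isHyp (hA : B.IsAlt) {g : V ≃ₗ[F] V} (hg : g ∈ IsomGroup B) : IsHyp B (tau g) := by
  constructor
  · intro x y
    simp only [tau_apply, map_add, LinearMap.add_apply, isom_symm_right hg, isom_symm_left hg]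
    abel
  · intro x
    simp only [tau_apply, map_add, LinearMap.add_apply, isom_symm_left hg]
    rw [alt_swap hA x (g x)]
    abel

theorem commute_tau (g : V ≃ₗ[F] V) : Commute (g : Module.End F V) (tau g) := by
  ext x
  simp [tau, Module.End.mul_apply]

/-- The cyclic subspace `F[f] x`. -/
noncomputable def cyc (f : Module.End F V) (x : V) : Submodule F V where
  carrier := {y | ∃ p : F[X], aeval f p x = y}
  add_mem' := by
    rintro _ _ ⟨p, rfl⟩ ⟨q, rfl⟩
    exact ⟨p + q, by simp⟩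
  zero_mem' := ⟨0, by simp⟩
  smul_mem' := by
    rintro c _ ⟨p, rfl⟩
    exact ⟨c • p, by simp⟩

theorem mem_cyc {f : Module.End F V} {x y : V} : y ∈ cyc f x ↔ ∃ p : F[X], aeval f p x = y := Iff.rfl

theorem self_mem_cyc (f : Module.End F V) (x : V) : x ∈ cyc f x := ⟨1, by simp⟩

/-- The subspace `F[f] x` is isotropic. -/
theorem cyc_isotropic {f : Module.End F V} (h : IsHyp B f) (hA : B.IsAlt) (x : V) :
    ∀ a ∈ cyc f x, ∀ b ∈ cyc f x, B a b = 0 := by
  rintro _ ⟨p, rfl⟩ _ ⟨q, rfl⟩
  exact h.aeval_aeval hA p q x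

/-- Restricting Lagrangian data to a subspace. -/
theorem isA_restrict {W : Submodule F V} {g : V ≃ₗ[F] V} (hst : ∀ x, x ∈ W ↔ g x ∈ W) {κ : F}
    {Λ Λ' : Submodule F V} (hsup : Λ ⊔ Λ' = W) (h1 : ∀ x ∈ Λ, ∀ y ∈ Λ, B x y = 0)
    (h2 : ∀ x ∈ Λ', ∀ y ∈ Λ', B x y = 0) (h3 : ∀ x ∈ Λ, g x - κ • x ∈ Λ') :
    IsA (B.restrict W) κ (restrictEquiv g W hst) := by
  refine ⟨Λ.comap W.subtype, Λ'.comap W.subtype, ?_, ?_, ?_, ?_⟩
  · rw [eq_top_iff]
    rintro ⟨x, hx⟩ -
    have hx' : x ∈ Λ ⊔ Λ' := by rw [hsup]; exact hx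
    obtain ⟨p, hp, q, hq, rfl⟩ := Submodule.mem_sup.mp hx'
    have hpW : p ∈ W := hsup ▸ (Submodule.mem_sup_left hp)
    have hqW : q ∈ W := hsup ▸ (Submodule.mem_sup_right hq)
    refine Submodule.mem_sup.mpr ⟨⟨p, hpW⟩, hp, ⟨q, hqW⟩, hq, rfl⟩
  · intro x hx y hy
    exact h1 _ hx _ hy
  · intro x hx y hy
    exact h2 _ hx _ hy
  · intro x hx
    exact h3 _ hx

section Block

variable (hA : B.IsAlt) {g : V ≃ₗ[F] V} (hg : g ∈ IsomGroup B)

include hA hg

/-- The annihilator argument for cyclic blocks. -/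
theorem dvd_of_forall {p : F[X]} (hp : Irreducible p) {a : ℕ}
    (ha : aeval (tau g) (p ^ (a + 1)) = 0) {v : V} {s : F[X]}
    (hne : B (aeval (tau g) (p ^ a * s) v) (g v) ≠ 0) {r : F[X]}
    (hr : ∀ t : F[X], B (aeval (tau g) (r * t) v) (g v) = 0) : p ^ (a + 1) ∣ r := by
  by_contra hnd
  have hr0 : r ≠ 0 := by
    rintro rfl
    exact hnd (dvd_zero _)
  have hfin : FiniteMultiplicity p r := by
    apply FiniteMultiplicity.of_not_isUnit hp.not_isUnit hr0
  obtain ⟨r', hr1, hr'⟩ := hfin.exists_eq_pow_mul_and_not_dvd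
  generalize multiplicity p r = j at hr1
  subst hr1
  have hj : j ≤ a := by
    by_contra hj
    apply hnd
    exact Dvd.dvd.mul_right (pow_dvd_pow p (by omega)) r'
  have hco : IsCoprime r' (p ^ (a + 1)) :=
    ((hp.coprime_iff_not_dvd).mpr hr').symm.pow_right
  obtain ⟨c, d, hcd⟩ := hco
  apply hne
  have := hr (p ^ (a - j) * c * s)
  have h1 : p ^ j * r' * (p ^ (a - j) * c * s) = p ^ a * s - p ^ (a + 1) * (p ^ a * d * s) := by
    have h2 : p ^ a = p ^ j * p ^ (a - j) := by rw [← pow_add]; congr 1; omega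
    have h3 : c * r' = 1 - d * p ^ (a + 1) := by linear_combination hcd
    rw [h2]
    linear_combination (p ^ j * p ^ (a - j) * s) * h3
  rw [h1, map_sub, map_mul (aeval (tau g)) (p ^ (a + 1)), ha, zero_mul, sub_zero] at this
  exact this

/-- The cyclic block is nondegenerate. -/
theorem cyclic_nondeg {p : F[X]} (hp : Irreducible p) {a : ℕ}
    (ha : aeval (tau g) (p ^ (a + 1)) = 0) {v : V} {s : F[X]}
    (hne : B (aeval (tau g) (p ^ a * s) v) (g v) ≠ 0) :
    ∀ x ∈ cyc (tau g) v ⊔ cyc (tau g) (g v), (∀ y ∈ cyc (tau g) v ⊔ cyc (tau g) (g v), B x y = 0) → x = 0 := by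
  have hH := tau_isHyp hA hg
  intro x hx hrad
  obtain ⟨_, ⟨r₁, rfl⟩, _, ⟨r₂, rfl⟩, rfl⟩ := Submodule.mem_sup.mp hx
  have hms : ∀ (r t : F[X]) (x y : V), B (aeval (tau g) t x) (aeval (tau g) r y) = B (aeval (tau g) (r * t) x) y := by
    intro r t x y
    rw [← hH.aeval_sa, map_mul, Module.End.mul_apply]
  have h2 : p ^ (a + 1) ∣ r₂ := by
    apply dvd_of_forall hA hg hp ha hne
    intro t
    have h3 := hrad (aeval (tau g) t v) (Submodule.mem_sup_left ⟨t, rfl⟩)
    rw [map_add, LinearMap.add_apply, hH.aeval_aeval hA, zero_add, alt_swap hA, hms, neg_eq_zero] at h3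
    exact h3
  have h1 : p ^ (a + 1) ∣ r₁ := by
    apply dvd_of_forall hA hg hp ha hne
    intro t
    have h3 := hrad (aeval (tau g) t (g v)) (Submodule.mem_sup_right ⟨t, rfl⟩)
    rw [map_add, LinearMap.add_apply, hH.aeval_aeval hA, add_zero, hms, mul_comm] at h3
    exact h3
  obtain ⟨c₁, rfl⟩ := h1
  obtain ⟨c₂, rfl⟩ := h2
  simp [ha]

/-- The cyclic block is stable. -/
theorem cyclic_stable (v : V) : ∀ x ∈ cyc (tau g) v ⊔ cyc (tau g) (g v),
    g x ∈ cyc (tau g) v ⊔ cyc (tau g) (g v) := by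
  have hc := commute_tau g
  have hcomm : ∀ (r : F[X]) (x : V), g (aeval (tau g) r x) = aeval (tau g) r (g x) := by
    intro r x
    have := (commute_aeval hc r).eq
    have := congrArg (fun f : Module.End F V => f x) this
    simpa [Module.End.mul_apply] using this
  intro x hx
  obtain ⟨_, ⟨r₁, rfl⟩, _, ⟨r₂, rfl⟩, rfl⟩ := Submodule.mem_sup.mp hx
  rw [map_add]
  refine Submodule.add_mem _ (Submodule.mem_sup_right ⟨r₁, (hcomm r₁ v).symm⟩) ?_
  rw [hcomm]
  have h1 : g (g v) = tau g (g v) - v := by simp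
  rw [h1, map_sub]
  refine Submodule.sub_mem _ (Submodule.mem_sup_right ⟨r₂ * X, ?_⟩) (Submodule.mem_sup_left ⟨r₂, rfl⟩)
  simp [Module.End.mul_apply]

/-- Lagrangian data for a cyclic block. -/
theorem cyclic_lagr (v : V) :
    cyc (tau g) v ⊔ cyc (tau g) (g v - v) = cyc (tau g) v ⊔ cyc (tau g) (g v) ∧
    (∀ x ∈ cyc (tau g) v, g x - (1 : F) • x ∈ cyc (tau g) (g v - v)) := by
  have hc := commute_tau g
  have hcomm : ∀ (r : F[X]) (x : V), g (aeval (tau g) r x) = aeval (tau g) r (g x) := by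
    intro r x
    have := (commute_aeval hc r).eq
    have := congrArg (fun f : Module.End F V => f x) this
    simpa [Module.End.mul_apply] using this
  constructor
  · apply le_antisymm
    · apply sup_le le_sup_left
      rintro _ ⟨r, rfl⟩
      rw [map_sub]
      exact Submodule.sub_mem _ (Submodule.mem_sup_right ⟨r, rfl⟩) (Submodule.mem_sup_left ⟨r, rfl⟩)
    · apply sup_le le_sup_left
      rintro _ ⟨r, rfl⟩
      have : aeval (tau g) r (g v) = aeval (tau g) r (g v - v) + aeval (tau g) r v := by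
        rw [map_sub]; abel
      rw [this]
      exact Submodule.add_mem _ (Submodule.mem_sup_right ⟨r, rfl⟩) (Submodule.mem_sup_left ⟨r, rfl⟩)
  · rintro _ ⟨r, rfl⟩
    refine ⟨r, ?_⟩
    rw [one_smul, hcomm, map_sub]

/-- The result for a cyclic block. -/
theorem cyclic_block {p : F[X]} (hp : Irreducible p) {a : ℕ}
    (ha : aeval (tau g) (p ^ (a + 1)) = 0) {v : V} {s : F[X]}
    (hne : B (aeval (tau g) (p ^ a * s) v) (g v) ≠ 0) [FiniteDimensional F V] :
    ∃ W : Submodule F V, W ≠ ⊥ ∧ IsCompl W (B.orthogonal W) ∧ ∃ hst : ∀ x, x ∈ W ↔ g x ∈ W,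
      IsA (B.restrict W) 1 (restrictEquiv g W hst) := by
  have hH := tau_isHyp hA hg
  refine ⟨cyc (tau g) v ⊔ cyc (tau g) (g v), ?_, isCompl_of_disj hA.isRefl
    (cyclic_nondeg hA hg hp ha hne), stable_iff (cyclic_stable hA hg v), ?_⟩
  · intro h
    apply hne
    have h1 : v ∈ cyc (tau g) v ⊔ cyc (tau g) (g v) := Submodule.mem_sup_left (self_mem_cyc _ _)
    rw [h, Submodule.mem_bot] at h1
    simp [h1]
  · obtain ⟨h1, h2⟩ := cyclic_lagr hA hg v
    exact isA_restrict _ h1 (cyc_isotropic hH hA _) (cyc_isotropic hH hA _) h2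

/-- If Case 1 fails then `r(τ) (τ² - 4) = 0`. -/
theorem case_two {r : F[X]} (hB : B.Nondegenerate)
    (h : ∀ v, B (aeval (tau g) r v) (g v) = 0) : aeval (tau g) (r * (X ^ 2 - 4)) = 0 := by
  have hH := tau_isHyp hA hg
  set c := aeval (tau g) r with hc
  have hcg : ∀ x, g (c x) = c (g x) := by
    intro x
    have := (commute_aeval (commute_tau g) r).eq
    have := congrArg (fun f : Module.End F V => f x) this
    simpa [Module.End.mul_apply] using this
  have hcg' : ∀ x, g.symm (c x) = c (g.symm x) := by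
    intro x
    apply g.injective
    rw [g.apply_symm_apply, hcg, g.apply_symm_apply]
  have h2 : ∀ v, c (g.symm v - g v) = 0 := by
    intro v
    apply hB.1
    intro w
    have h3 := h (v + w)
    simp only [map_add, LinearMap.add_apply, h v, h w, zero_add, add_zero] at h3
    have h4 : B (c v) (g w) = B (c (g.symm v)) w := by
      rw [← hcg', isom_symm_left hg]
    have h5 : B (c w) (g v) = - B (c (g v)) w := by
      rw [alt_swap hA, hH.aeval_sa]
    rw [map_sub, map_sub, LinearMap.sub_apply, ← h4]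
    rw [h5] at h3
    linear_combination h3
  ext v
  rw [map_mul, Module.End.mul_apply, ← hc]
  have h3 : aeval (tau g) (X ^ 2 - 4 : F[X]) v = g.symm (g.symm v - g v) - g (g.symm v - g v) := by
    simp only [map_sub, map_mul, aeval_X, LinearMap.sub_apply, pow_two, Module.End.mul_apply, tau_apply,
      map_add, LinearEquiv.symm_apply_apply, LinearEquiv.apply_symm_apply]
    have : aeval (tau g) (4 : F[X]) v = (4 : F) • v := by
      rw [show (4 : F[X]) = C (4 : F) from (map_ofNat C 4).symm, aeval_C]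
      rfl
    rw [this]
    module
  rw [h3, h2]
  simp

end Block

end Cfsg.Agent.Lib.Classical.Ore.Cyc
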