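import Mathlib
import Cfsg.Agent.Lib.Classical.Ore.Cyc

/-!
# Unipotent blocks in Case 2

`u` an isometry, `N = u - 1`, `N* = u⁻¹ - 1`, `P = u + u⁻¹ - 2`. Then `N² = u P`, `N N* = -P`, `N* = P - N`.
If `P^(a+1) = 0` and `B (P^a v, u v) = 0` for all `v`, we build the block `F[N] v + F[N] w` carrying a
Lagrangian pair `Λ, Λ'` with `N Λ ⊆ Λ'`.
-/

set_option autoImplicit false

namespace Cfsg.Agent.Lib.Classical.Ore.Unip

open Polynomial Cfsg.Agent.Lib.Classical.Symp.AltForm Cfsg.Agent.Lib.Classical.Symp.SympBasis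
open Cfsg.Agent.Lib.Classical.Ore.Lagr Cfsg.Agent.Lib.Classical.Ore.Sum
open Cfsg.Agent.Lib.Classical.Ore.Cyc

variable {F V : Type*} [Field F] [AddCommGroup V] [Module F V] {B : LinearMap.BilinForm F V}

/-- `u - 1`. -/
noncomputable def nn (u : V ≃ₗ[F] V) : Module.End F V := (u : V →ₗ[F] V) - 1
/-- `u⁻¹ - 1`. -/
noncomputable def nns (u : V ≃ₗ[F] V) : Module.End F V := (u.symm : V →ₗ[F] V) - 1
/-- `u + u⁻¹ - 2`. -/
noncomputable def pp (u : V ≃ₗ[F] V) : Module.End F V := tau u - (2 : F) • 1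

@[simp] theorem nn_apply (u : V ≃ₗ[F] V) (x : V) : nn u x = u x - x := rfl
@[simp] theorem nns_apply (u : V ≃ₗ[F] V) (x : V) : nns u x = u.symm x - x := rfl
@[simp] theorem pp_apply (u : V ≃ₗ[F] V) (x : V) : pp u x = u x + u.symm x - (2 : F) • x := rfl

theorem nns_eq (u : V ≃ₗ[F] V) : nns u = pp u - nn u := by
  ext x
  simp
  module

theorem nn_mul_nn (u : V ≃ₗ[F] V) : nn u * nn u = (u : Module.End F V) * pp u := by
  ext x
  simp [Module.End.mul_apply]
  module

theorem nn_mul_nns (u : V ≃ₗ[F] V) : nn u * nns u = - pp u := by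
  ext x
  simp [Module.End.mul_apply]
  module

theorem nns_mul_nn (u : V ≃ₗ[F] V) : nns u * nn u = - pp u := by
  ext x
  simp [Module.End.mul_apply]
  module

theorem commute_nn_pp (u : V ≃ₗ[F] V) : Commute (nn u) (pp u) := by
  ext x
  simp [Module.End.mul_apply]
  module

theorem commute_u_pp (u : V ≃ₗ[F] V) : Commute (u : Module.End F V) (pp u) := by
  ext x
  simp [Module.End.mul_apply]

theorem commute_nns_pp (u : V ≃ₗ[F] V) : Commute (nns u) (pp u) := by
  rw [nns_eq]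
  exact (Commute.refl _).sub_left (commute_nn_pp u)

theorem commute_u_nn (u : V ≃ₗ[F] V) : Commute (u : Module.End F V) (nn u) := by
  ext x
  simp [Module.End.mul_apply]



theorem commute_nn_nns (u : V ≃ₗ[F] V) : Commute (nn u) (nns u) := by
  change nn u * nns u = nns u * nn u
  rw [nn_mul_nns, nns_mul_nn]

/-- Isotropy of a sum. -/
theorem isotropic_sup (hA : B.IsAlt) {A C : Submodule F V} (h1 : ∀ x ∈ A, ∀ y ∈ A, B x y = 0)
    (h2 : ∀ x ∈ C, ∀ y ∈ C, B x y = 0) (h3 : ∀ x ∈ A, ∀ y ∈ C, B x y = 0) :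
    ∀ x ∈ A ⊔ C, ∀ y ∈ A ⊔ C, B x y = 0 := by
  intro x hx y hy
  obtain ⟨a, ha, c, hc, rfl⟩ := Submodule.mem_sup.mp hx
  obtain ⟨a', ha', c', hc', rfl⟩ := Submodule.mem_sup.mp hy
  have h4 : B c a' = 0 := by rw [alt_swap hA, h3 a' ha' c hc, neg_zero]
  simp [h1 a ha a' ha', h2 c hc c' hc', h3 a ha c' hc', h4]

section Iso

variable {u : V ≃ₗ[F] V} (hu : u ∈ IsomGroup B)

include hu

theorem adj_nn (x y : V) : B (nn u x) y = B x (nns u y) := by
  simp [isom_symm_right hu]

theorem adj_nns (x y : V) : B (nns u x) y = B x (nn u y) := by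
  simp [isom_symm_left hu]

theorem pp_isHyp (hA : B.IsAlt) : IsHyp B (pp u) := by
  have h := tau_isHyp hA hu
  constructor
  · intro x y
    have : B (u x) y + B (u.symm x) y = B x (u y) + B x (u.symm y) := by
      simpa using h.sa x y
    simp only [pp_apply, map_sub, map_add, map_smul, LinearMap.sub_apply, LinearMap.add_apply,
      LinearMap.smul_apply]
    rw [this]
  · intro x
    have := h.alt x
    simp only [tau_apply] at this
    simp only [pp_apply, map_sub, map_add, map_smul, LinearMap.sub_apply, LinearMap.add_apply,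
      LinearMap.smul_apply, hA x, smul_eq_mul, mul_zero, sub_zero]
    simpa using this

end Iso

section Comm

variable (u : V ≃ₗ[F] V)

theorem nn_E (s : F[X]) (x : V) : nn u (aeval (pp u) s x) = aeval (pp u) s (nn u x) :=
  LinearMap.congr_fun (commute_aeval (commute_nn_pp u) s).eq x

theorem nns_E (s : F[X]) (x : V) : nns u (aeval (pp u) s x) = aeval (pp u) s (nns u x) :=
  LinearMap.congr_fun (commute_aeval (commute_nns_pp u) s).eq x

theorem u_E (s : F[X]) (x : V) : u (aeval (pp u) s x) = aeval (pp u) s (u x) :=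
  LinearMap.congr_fun (commute_aeval (commute_u_pp u) s).eq x

theorem nn_sq_apply (x : V) : nn u (nn u x) = pp u x + nn u (pp u x) := by
  have := LinearMap.congr_fun (nn_mul_nn u) x
  simp only [Module.End.mul_apply] at this
  rw [this]
  simp

/-- `F[N] = S + N S`. -/
theorem exists_decomp (p : F[X]) : ∃ s₁ s₂ : F[X], ∀ x, aeval (nn u) p x =
    aeval (pp u) s₁ x + nn u (aeval (pp u) s₂ x) := by
  induction p using Polynomial.induction_on with
  | C a =>
    refine ⟨C a, 0, fun x => ?_⟩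
    simp
  | add p q hp hq =>
    obtain ⟨s₁, s₂, h⟩ := hp
    obtain ⟨t₁, t₂, h'⟩ := hq
    refine ⟨s₁ + t₁, s₂ + t₂, fun x => ?_⟩
    simp only [map_add, LinearMap.add_apply, h, h']
    abel
  | monomial n a h =>
    obtain ⟨s₁, s₂, h⟩ := h
    refine ⟨X * s₂, s₁ + X * s₂, fun x => ?_⟩
    rw [pow_succ, ← mul_assoc, map_mul, aeval_X, Module.End.mul_apply, h]
    have h1 : nn u (aeval (pp u) s₂ (nn u x)) = aeval (pp u) (X * s₂) x + nn u (aeval (pp u) (X * s₂) x) := by
      rw [mul_comm X s₂, map_mul, aeval_X, Module.End.mul_apply, nn_E, nn_sq_apply, map_add, nn_E]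
    rw [h1, map_add (aeval (pp u)), LinearMap.add_apply, map_add (nn u), nn_E u s₁ x]
    abel

/-- If `N` is nilpotent then `P` is a polynomial in `N`. -/
theorem exists_poly_pp {K : ℕ} (hK : (nn u) ^ K = 0) : ∃ p : F[X], aeval (nn u) p = pp u := by
  set g : F[X] := ∑ j ∈ Finset.range K, (-X) ^ j with hg
  have h1 : aeval (nn u) g = ∑ j ∈ Finset.range K, (-(nn u)) ^ j := by
    simp [hg, map_sum]
  have h2 : (1 + nn u) * aeval (nn u) g = 1 := by
    rw [h1]
    have := mul_neg_geom_sum (-(nn u)) K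
    rw [sub_neg_eq_add, neg_pow, hK, mul_zero, sub_zero] at this
    exact this
  have h3 : aeval (nn u) g = (u.symm : V →ₗ[F] V) := by
    have h4 : (1 + nn u) = (u : V →ₗ[F] V) := by
      ext x; simp
    rw [h4] at h2
    ext x
    have := LinearMap.congr_fun h2 x
    exact (LinearEquiv.eq_symm_apply u).mpr this
  refine ⟨X + g - 1, ?_⟩
  ext x
  simp only [map_sub, map_add, aeval_X, map_one, h3, LinearMap.sub_apply, LinearMap.add_apply,
    nn_apply, pp_apply, Module.End.one_apply, LinearEquiv.coe_coe]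
  module

end Comm

section Nondeg

variable {u : V ≃ₗ[F] V} (hu : u ∈ IsomGroup B) (hA : B.IsAlt) {k : ℕ}
  (hk : (nn u) ^ (k + 1) = 0)

include hk in
/-- `N^k r(N) = r(0) N^k`. -/
theorem top_mul (r : F[X]) (x : V) : ((nn u) ^ k) (aeval (nn u) r x) = r.coeff 0 • ((nn u) ^ k) x := by
  conv_lhs => rw [← divX_mul_X_add r]
  simp only [map_add, map_mul, aeval_X, aeval_C, LinearMap.add_apply, Module.End.mul_apply,
    Module.algebraMap_end_apply, map_smul]
  have h1 : (nn u ^ k) (aeval (nn u) (divX r) (nn u x)) = (aeval (nn u) (divX r)) ((nn u ^ (k + 1)) x) := by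
    have := LinearMap.congr_fun (commute_aeval ((Commute.refl (nn u)).pow_left k) (divX r)).eq (nn u x)
    simp only [Module.End.mul_apply] at this
    rw [this, pow_succ, Module.End.mul_apply]
  rw [h1, hk]
  simp

include hk in
/-- Reduction to the socle, constant term case. -/
theorem exists_top_aux (v w : V) (p q : F[X]) (l : ℕ) (h0 : p.coeff 0 ≠ 0 ∨ q.coeff 0 ≠ 0)
    (hne : ((nn u) ^ l) (aeval (nn u) p v + aeval (nn u) q w) ≠ 0) :
    ∃ l' : ℕ, ∃ α β : F, (α ≠ 0 ∨ β ≠ 0) ∧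
      ((nn u) ^ l') (((nn u) ^ l) (aeval (nn u) p v + aeval (nn u) q w)) = ((nn u) ^ k) (α • v + β • w) := by
  have hl : l ≤ k := by
    by_contra hl
    apply hne
    have : (nn u) ^ l = 0 := by
      obtain ⟨c, rfl⟩ : ∃ c, l = (k + 1) + c := ⟨l - (k + 1), by omega⟩
      rw [pow_add, hk, zero_mul]
    rw [this]
    simp
  refine ⟨k - l, p.coeff 0, q.coeff 0, h0, ?_⟩
  rw [← Module.End.mul_apply, ← pow_add, show k - l + l = k by omega, map_add, top_mul hk, top_mul hk,
    map_add, map_smul, map_smul]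

include hk in
/-- Reduction to the socle. -/
theorem exists_top (v w : V) (d : ℕ) : ∀ (p q : F[X]) (l : ℕ), p.natDegree + q.natDegree ≤ d →
    ((nn u) ^ l) (aeval (nn u) p v + aeval (nn u) q w) ≠ 0 →
    ∃ l' : ℕ, ∃ α β : F, (α ≠ 0 ∨ β ≠ 0) ∧
      ((nn u) ^ l') (((nn u) ^ l) (aeval (nn u) p v + aeval (nn u) q w)) = ((nn u) ^ k) (α • v + β • w) := by
  induction d with
  | zero =>
    intro p q l hd hne
    by_cases h0 : p.coeff 0 ≠ 0 ∨ q.coeff 0 ≠ 0
    · exact exists_top_aux hk v w p q l h0 hne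
    · push Not at h0
      exfalso
      apply hne
      have h1 := eq_C_of_natDegree_eq_zero (show p.natDegree = 0 by omega)
      have h2 := eq_C_of_natDegree_eq_zero (show q.natDegree = 0 by omega)
      rw [h0.1] at h1
      rw [h0.2] at h2
      rw [h1, h2]
      simp
  | succ d ih =>
    intro p q l hd hne
    by_cases h0 : p.coeff 0 ≠ 0 ∨ q.coeff 0 ≠ 0
    · exact exists_top_aux hk v w p q l h0 hne
    · push Not at h0
      have hp : p = divX p * X := by
        conv_lhs => rw [← divX_mul_X_add p, h0.1]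
        simp
      have hq : q = divX q * X := by
        conv_lhs => rw [← divX_mul_X_add q, h0.2]
        simp
      have hx : ∀ (r : F[X]) (y : V), r.coeff 0 = 0 → aeval (nn u) r y = nn u (aeval (nn u) (divX r) y) := by
        intro r y hr
        have h3 : r = X * divX r := by
          conv_lhs => rw [← divX_mul_X_add r, hr]
          simp [mul_comm]
        conv_lhs => rw [h3]
        simp [Module.End.mul_apply]
      have h4 : aeval (nn u) p v + aeval (nn u) q w =
          nn u (aeval (nn u) (divX p) v + aeval (nn u) (divX q) w) := by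
        rw [map_add, ← hx _ _ h0.1, ← hx _ _ h0.2]
      have h5 : ((nn u) ^ l) (aeval (nn u) p v + aeval (nn u) q w) =
          ((nn u) ^ (l + 1)) (aeval (nn u) (divX p) v + aeval (nn u) (divX q) w) := by
        rw [h4, pow_succ, Module.End.mul_apply]
      rw [h5] at hne ⊢
      refine ih _ _ _ ?_ hne
      rw [natDegree_divX_eq_natDegree_tsub_one, natDegree_divX_eq_natDegree_tsub_one]
      omega

variable [FiniteDimensional F V]

/-- The module `F[N] v + F[N] w` is `u`-stable. -/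
theorem two_gen_stable (v w : V) : ∀ x ∈ cyc (nn u) v ⊔ cyc (nn u) w, u x ∈ cyc (nn u) v ⊔ cyc (nn u) w := by
  have h1 : ∀ (a : V) (x : V), x ∈ cyc (nn u) a → u x ∈ cyc (nn u) a := by
    rintro a _ ⟨p, rfl⟩
    refine ⟨(X + 1) * p, ?_⟩
    simp [Module.End.mul_apply]
  intro x hx
  obtain ⟨p, hp, q, hq, rfl⟩ := Submodule.mem_sup.mp hx
  rw [map_add]
  exact Submodule.add_mem _ (Submodule.mem_sup_left (h1 _ _ hp)) (Submodule.mem_sup_right (h1 _ _ hq))

include hu hA hk in
/-- The module `F[N] v + F[N] w` is nondegenerate. -/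
theorem two_gen_nondeg {v w : V} (hz : ∀ x, B (((nn u) ^ k) x) x = 0) (hvw : B (((nn u) ^ k) v) w ≠ 0) :
    ∀ x ∈ cyc (nn u) v ⊔ cyc (nn u) w, (∀ y ∈ cyc (nn u) v ⊔ cyc (nn u) w, B x y = 0) → x = 0 := by
  intro x hx hrad
  by_contra hne
  obtain ⟨_, ⟨p, rfl⟩, _, ⟨q, rfl⟩, rfl⟩ := Submodule.mem_sup.mp hx
  obtain ⟨l', α, β, hαβ, hl'⟩ := exists_top hk v w (p.natDegree + q.natDegree) p q 0 le_rfl (by simpa using hne)
  simp only [pow_zero, Module.End.one_apply] at hl'
  set x := aeval (nn u) p v + aeval (nn u) q w with hxd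
  set W := cyc (nn u) v ⊔ cyc (nn u) w with hW
  have hst := stable_iff (two_gen_stable (u := u) v w)
  have hsymm : ∀ t ∈ W, nns u t ∈ W := by
    intro t ht
    have h3 : u.symm t ∈ W := by
      rw [hst]
      simpa using ht
    simpa using Submodule.sub_mem _ h3 ht
  have hradl : ∀ (l : ℕ) (t : V), t ∈ W → B (((nn u) ^ l) x) t = 0 := by
    intro l
    induction l with
    | zero => intro t ht; simpa using hrad t ht
    | succ l ih =>
      intro t ht
      rw [pow_succ', Module.End.mul_apply, adj_nn hu]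
      exact ih _ (hsymm t ht)
  have hvW : v ∈ W := Submodule.mem_sup_left (self_mem_cyc _ _)
  have hwW : w ∈ W := Submodule.mem_sup_right (self_mem_cyc _ _)
  have h1 := hradl l' w hwW
  have h2 := hradl l' v hvW
  rw [hl', map_add, map_smul, map_smul, map_add, LinearMap.add_apply, map_smul, map_smul,
    LinearMap.smul_apply, LinearMap.smul_apply, hz w, smul_zero, add_zero, smul_eq_mul] at h1
  have hpol : B (((nn u) ^ k) w) v = - B (((nn u) ^ k) v) w := by
    have := hz (v + w)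
    simp only [map_add, LinearMap.add_apply, hz v, hz w, zero_add, add_zero] at this
    linear_combination this
  rw [hl', map_add, map_smul, map_smul, map_add, LinearMap.add_apply, map_smul, map_smul,
    LinearMap.smul_apply, LinearMap.smul_apply, hz v, smul_zero, zero_add, hpol, smul_eq_mul] at h2
  have hα : α = 0 := (mul_eq_zero.mp h1).resolve_right hvw
  have hβ : β = 0 := by
    rcases mul_eq_zero.mp h2 with h | h
    · exact h
    · exact absurd (neg_eq_zero.mp h) hvw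
  rcases hαβ with h | h
  · exact h hα
  · exact h hβ

end Nondeg

section Lagr

variable {u : V ≃ₗ[F] V} (hu : u ∈ IsomGroup B) (hA : B.IsAlt)

include hu hA

/-- Lagrangian data in the odd case. -/
theorem lagr_odd {K : ℕ} (hK : (nn u) ^ K = 0) {v w : V}
    (hl : ∀ s : F[X], B (nn u (aeval (pp u) s v)) w = 0) :
    ∃ Λ Λ' : Submodule F V, Λ ⊔ Λ' = cyc (nn u) v ⊔ cyc (nn u) w ∧ (∀ x ∈ Λ, ∀ y ∈ Λ, B x y = 0) ∧
      (∀ x ∈ Λ', ∀ y ∈ Λ', B x y = 0) ∧ ∀ x ∈ Λ, nn u x ∈ Λ' := by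
  have hH := pp_isHyp hu hA
  have hms : ∀ (r t : F[X]) (x y : V), B (aeval (pp u) t x) (aeval (pp u) r y) = B (aeval (pp u) (r * t) x) y := by
    intro r t x y
    rw [← hH.aeval_sa, map_mul, Module.End.mul_apply]
  refine ⟨cyc (pp u) v ⊔ cyc (pp u) (nns u w), cyc (pp u) (nn u v) ⊔ cyc (pp u) w, ?_, ?_, ?_, ?_⟩
  · obtain ⟨p₀, hp₀⟩ := exists_poly_pp u hK
    have hE : ∀ (s : F[X]) (y : V), aeval (pp u) s y ∈ cyc (nn u) y := by
      intro s y
      refine ⟨s.comp p₀, ?_⟩
      rw [aeval_comp, hp₀]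
    have hNc : ∀ y, nn u y ∈ cyc (nn u) y := fun y => ⟨X, by simp⟩
    have hNcm : ∀ y z, z ∈ cyc (nn u) y → nn u z ∈ cyc (nn u) y := by
      rintro y _ ⟨p, rfl⟩
      exact ⟨X * p, by simp [Module.End.mul_apply]⟩
    have hNsw : nns u w ∈ cyc (nn u) w := by
      rw [nns_eq]
      refine Submodule.sub_mem _ ?_ (hNc w)
      rw [← hp₀]
      exact ⟨p₀, rfl⟩
    have hEcm : ∀ y z (s : F[X]), z ∈ cyc (nn u) y → aeval (pp u) s z ∈ cyc (nn u) y := by
      rintro y _ s ⟨p, rfl⟩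
      refine ⟨s.comp p₀ * p, ?_⟩
      rw [map_mul, aeval_comp, hp₀, Module.End.mul_apply]
    apply le_antisymm
    · refine sup_le (sup_le ?_ ?_) (sup_le ?_ ?_)
      · rintro _ ⟨s, rfl⟩
        exact Submodule.mem_sup_left (hE s v)
      · rintro _ ⟨s, rfl⟩
        exact Submodule.mem_sup_right (hEcm _ _ s hNsw)
      · rintro _ ⟨s, rfl⟩
        exact Submodule.mem_sup_left (hEcm _ _ s (hNc v))
      · rintro _ ⟨s, rfl⟩
        exact Submodule.mem_sup_right (hE s w)
    · refine sup_le ?_ ?_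
      · rintro _ ⟨p, rfl⟩
        obtain ⟨s₁, s₂, h⟩ := exists_decomp u p
        rw [h, nn_E]
        exact Submodule.add_mem _
          (Submodule.mem_sup_left (Submodule.mem_sup_left ⟨s₁, rfl⟩))
          (Submodule.mem_sup_right (Submodule.mem_sup_left ⟨s₂, rfl⟩))
      · rintro _ ⟨p, rfl⟩
        obtain ⟨s₁, s₂, h⟩ := exists_decomp u p
        have h1 : nn u (aeval (pp u) s₂ w) = aeval (pp u) (X * s₂) w - aeval (pp u) s₂ (nns u w) := by
          have h2 : aeval (pp u) (X * s₂) w = aeval (pp u) s₂ (pp u w) := by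
            rw [mul_comm, map_mul, aeval_X, Module.End.mul_apply]
          have h3 : nns u w = pp u w - nn u w := by rw [nns_eq]; rfl
          rw [h2, h3, map_sub, nn_E]
          abel
        rw [h, h1]
        exact Submodule.add_mem _
          (Submodule.mem_sup_right (Submodule.mem_sup_right ⟨s₁, rfl⟩))
          (Submodule.sub_mem _ (Submodule.mem_sup_right (Submodule.mem_sup_right ⟨_, rfl⟩))
            (Submodule.mem_sup_left (Submodule.mem_sup_right ⟨s₂, rfl⟩)))
  · apply isotropic_sup hA (cyc_isotropic hH hA _) (cyc_isotropic hH hA _)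
    rintro _ ⟨s, rfl⟩ _ ⟨t, rfl⟩
    rw [hms, ← adj_nn hu]
    exact hl _
  · apply isotropic_sup hA (cyc_isotropic hH hA _) (cyc_isotropic hH hA _)
    rintro _ ⟨s, rfl⟩ _ ⟨t, rfl⟩
    rw [hms, ← nn_E]
    exact hl _
  · intro x hx
    obtain ⟨_, ⟨s, rfl⟩, _, ⟨t, rfl⟩, rfl⟩ := Submodule.mem_sup.mp hx
    rw [map_add, nn_E, nn_E]
    refine Submodule.add_mem _ (Submodule.mem_sup_left ⟨s, rfl⟩) (Submodule.mem_sup_right ⟨-(t * X), ?_⟩)
    have : nn u (nns u w) = - pp u w := LinearMap.congr_fun (nn_mul_nns u) w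
    rw [this]
    simp [Module.End.mul_apply]

/-- Lagrangian data in the even case. -/
theorem lagr_even {K : ℕ} (hK : (nn u) ^ K = 0) {v w : V}
    (hl : ∀ s : F[X], B (aeval (pp u) s v) w = 0) :
    ∃ Λ Λ' : Submodule F V, Λ ⊔ Λ' = cyc (nn u) v ⊔ cyc (nn u) w ∧ (∀ x ∈ Λ, ∀ y ∈ Λ, B x y = 0) ∧
      (∀ x ∈ Λ', ∀ y ∈ Λ', B x y = 0) ∧ ∀ x ∈ Λ, nn u x ∈ Λ' := by
  have hH := pp_isHyp hu hA
  have hms : ∀ (r t : F[X]) (x y : V), B (aeval (pp u) t x) (aeval (pp u) r y) = B (aeval (pp u) (r * t) x) y := by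
    intro r t x y
    rw [← hH.aeval_sa, map_mul, Module.End.mul_apply]
  refine ⟨cyc (pp u) v ⊔ cyc (pp u) w, cyc (pp u) (nn u v) ⊔ cyc (pp u) (nn u w), ?_, ?_, ?_, ?_⟩
  · obtain ⟨p₀, hp₀⟩ := exists_poly_pp u hK
    have hE : ∀ (s : F[X]) (y : V), aeval (pp u) s y ∈ cyc (nn u) y := by
      intro s y
      refine ⟨s.comp p₀, ?_⟩
      rw [aeval_comp, hp₀]
    have hNc : ∀ y, nn u y ∈ cyc (nn u) y := fun y => ⟨X, by simp⟩
    have hEcm : ∀ y z (s : F[X]), z ∈ cyc (nn u) y → aeval (pp u) s z ∈ cyc (nn u) y := by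
      rintro y _ s ⟨p, rfl⟩
      refine ⟨s.comp p₀ * p, ?_⟩
      rw [map_mul, aeval_comp, hp₀, Module.End.mul_apply]
    apply le_antisymm
    · refine sup_le (sup_le ?_ ?_) (sup_le ?_ ?_)
      · rintro _ ⟨s, rfl⟩
        exact Submodule.mem_sup_left (hE s v)
      · rintro _ ⟨s, rfl⟩
        exact Submodule.mem_sup_right (hE s w)
      · rintro _ ⟨s, rfl⟩
        exact Submodule.mem_sup_left (hEcm _ _ s (hNc v))
      · rintro _ ⟨s, rfl⟩
        exact Submodule.mem_sup_right (hEcm _ _ s (hNc w))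
    · refine sup_le ?_ ?_
      · rintro _ ⟨p, rfl⟩
        obtain ⟨s₁, s₂, h⟩ := exists_decomp u p
        rw [h, nn_E]
        exact Submodule.add_mem _
          (Submodule.mem_sup_left (Submodule.mem_sup_left ⟨s₁, rfl⟩))
          (Submodule.mem_sup_right (Submodule.mem_sup_left ⟨s₂, rfl⟩))
      · rintro _ ⟨p, rfl⟩
        obtain ⟨s₁, s₂, h⟩ := exists_decomp u p
        rw [h, nn_E]
        exact Submodule.add_mem _
          (Submodule.mem_sup_left (Submodule.mem_sup_right ⟨s₁, rfl⟩))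
          (Submodule.mem_sup_right (Submodule.mem_sup_right ⟨s₂, rfl⟩))
  · apply isotropic_sup hA (cyc_isotropic hH hA _) (cyc_isotropic hH hA _)
    rintro _ ⟨s, rfl⟩ _ ⟨t, rfl⟩
    rw [hms]
    exact hl _
  · apply isotropic_sup hA (cyc_isotropic hH hA _) (cyc_isotropic hH hA _)
    rintro _ ⟨s, rfl⟩ _ ⟨t, rfl⟩
    have h4 : nns u (nn u v) = - pp u v := LinearMap.congr_fun (nns_mul_nn u) v
    have h5 : ∀ r : F[X], aeval (pp u) r (pp u v) = aeval (pp u) (r * X) v := by
      intro r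
      rw [map_mul, aeval_X, Module.End.mul_apply]
    rw [hms, ← adj_nns hu, nns_E, h4, map_neg, map_neg, LinearMap.neg_apply, neg_eq_zero, h5]
    exact hl _
  · intro x hx
    obtain ⟨_, ⟨s, rfl⟩, _, ⟨t, rfl⟩, rfl⟩ := Submodule.mem_sup.mp hx
    rw [map_add, nn_E, nn_E]
    exact Submodule.add_mem _ (Submodule.mem_sup_left ⟨s, rfl⟩) (Submodule.mem_sup_right ⟨t, rfl⟩)

end Lagr

section Top

variable (u : V ≃ₗ[F] V)

theorem u_pow_mul {y : Module.End F V} (h : nn u * y = 0) (a : ℕ) : (u : Module.End F V) ^ a * y = y := by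
  have h1 : (u : Module.End F V) * y = y := by
    have : (u : Module.End F V) = nn u + 1 := by ext x; simp
    rw [this, add_mul, h, zero_add, one_mul]
  induction a with
  | zero => simp
  | succ a ih => rw [pow_succ, mul_assoc, h1, ih]

/-- `N^(2a) = u^a P^a`. -/
theorem nn_pow_two_mul (a : ℕ) : (nn u) ^ (2 * a) = (u : Module.End F V) ^ a * (pp u) ^ a := by
  rw [pow_mul, pow_two, nn_mul_nn, (commute_u_pp u).mul_pow]

/-- Top element in the odd case. -/
theorem top_odd {a : ℕ} (h : nn u * (pp u) ^ a = 0) : (nn u) ^ (2 * a) = (pp u) ^ a := by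
  rw [nn_pow_two_mul, u_pow_mul u h]

/-- Top element in the even case. -/
theorem top_even {a : ℕ} (h : (pp u) ^ (a + 1) = 0) : (nn u) ^ (2 * a + 1) = nn u * (pp u) ^ a := by
  have h1 : nn u * (nn u * (pp u) ^ a) = 0 := by
    rw [← mul_assoc, nn_mul_nn, mul_assoc, ← pow_succ', h, mul_zero]
  rw [pow_succ', nn_pow_two_mul, ← mul_assoc, ((commute_u_nn u).pow_left a).symm.eq, mul_assoc,
    u_pow_mul u h1]

/-- A polynomial with nonzero constant term in a nilpotent is injective. -/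
theorem aeval_injective {a : ℕ} (h : (pp u) ^ (a + 1) = 0) {s : F[X]} (hs : s.coeff 0 ≠ 0) :
    Function.Injective (aeval (pp u) s) := by
  have hnil : IsNilpotent (pp u * aeval (pp u) (divX s)) := by
    apply Commute.isNilpotent_mul_right
    · exact (commute_aeval (Commute.refl _) _)
    · exact ⟨_, h⟩
  have hunit : IsUnit (algebraMap F (Module.End F V) (s.coeff 0)) :=
    (IsUnit.mk0 _ hs).map _
  have h1 : aeval (pp u) s = pp u * aeval (pp u) (divX s) + algebraMap F (Module.End F V) (s.coeff 0) := by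
    conv_lhs => rw [← divX_mul_X_add s]
    rw [map_add, map_mul, aeval_X, aeval_C, (commute_aeval (Commute.refl (pp u)) (divX s)).eq]
  have h2 : IsUnit (aeval (pp u) s) := by
    rw [h1, add_comm]
    exact hnil.isUnit_add_left_of_commute hunit (Algebra.commute_algebraMap_right _ _)
  exact ((Module.End.isUnit_iff _).mp h2).1

/-- Factoring a polynomial at `0`. -/
theorem exists_X_pow_mul {s : F[X]} (hs : s ≠ 0) : ∃ (j : ℕ) (s' : F[X]), s = X ^ j * s' ∧ s'.coeff 0 ≠ 0 := by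
  have hfin : FiniteMultiplicity (X : F[X]) s :=
    FiniteMultiplicity.of_not_isUnit (prime_X.irreducible.not_isUnit) hs
  obtain ⟨c, h1, h2⟩ := hfin.exists_eq_pow_mul_and_not_dvd
  exact ⟨_, c, h1, fun h => h2 (X_dvd_iff.mpr h)⟩

/-- In the odd case the top element is not in `N F[P] v`. -/
theorem not_mem_odd {a : ℕ} (hN : nn u * (pp u) ^ a = 0) (h : (pp u) ^ (a + 1) = 0) {v : V}
    (hv : ((pp u) ^ a) v ≠ 0) : ((pp u) ^ a) v ∉ cyc (pp u) (nn u v) := by
  rintro ⟨s, hs⟩
  have hs0 : s ≠ 0 := by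
    rintro rfl
    apply hv
    rw [← hs]
    simp
  obtain ⟨j, s', rfl, hs'⟩ := exists_X_pow_mul hs0
  have hinj := aeval_injective u h hs'
  set t := aeval (pp u) s' v with ht
  have hs2 : nn u (((pp u) ^ j) t) = ((pp u) ^ a) v := by
    rw [← hs, map_mul, aeval_X_pow, Module.End.mul_apply, ← nn_E, ← ht]
    exact (LinearMap.congr_fun ((commute_nn_pp u).pow_right j).eq t)
  have h1 : nn u (((pp u) ^ a) v) = 0 := LinearMap.congr_fun hN v
  rw [← hs2, nn_sq_apply] at h1
  have h2 : u (pp u (((pp u) ^ j) t)) = 0 := by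
    rw [← h1]
    simp
  have h3 : ((pp u) ^ (j + 1)) t = 0 := by
    rw [pow_succ', Module.End.mul_apply]
    exact u.map_eq_zero_iff.mp h2
  have h4 : ((pp u) ^ (j + 1)) v = 0 := by
    apply hinj
    rw [map_zero, ← h3, ht]
    exact (LinearMap.congr_fun (commute_aeval ((Commute.refl (pp u)).pow_left (j + 1)) s').eq v).symm
  by_cases hja : j + 1 ≤ a
  · apply hv
    obtain ⟨c, rfl⟩ := Nat.exists_eq_add_of_le hja
    rw [add_comm, pow_add, Module.End.mul_apply, h4, map_zero]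
  · apply hv
    obtain ⟨c, rfl⟩ : ∃ c, j = a + c := ⟨j - a, by omega⟩
    rw [← hs2, pow_add, Module.End.mul_apply]
    exact LinearMap.congr_fun hN _

/-- In the even case the top element is not in `F[P] v`. -/
theorem not_mem_even {a : ℕ} (h : (pp u) ^ (a + 1) = 0) {v : V}
    (hv : nn u (((pp u) ^ a) v) ≠ 0) : nn u (((pp u) ^ a) v) ∉ cyc (pp u) v := by
  rintro ⟨s, hs⟩
  have hs0 : s ≠ 0 := by
    rintro rfl
    apply hv
    rw [← hs]
    simp
  have hs1 := hs
  obtain ⟨j, s', rfl, hs'⟩ := exists_X_pow_mul hs0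
  have hinj := aeval_injective u h hs'
  have h1 : nn u (nn u (((pp u) ^ a) v)) = 0 := by
    rw [nn_sq_apply, ← Module.End.mul_apply (pp u), ← pow_succ', h]
    simp
  have h2 : nn u (((pp u) ^ j) v) = 0 := by
    apply hinj
    rw [map_zero]
    have e2 := LinearMap.congr_fun (commute_aeval ((Commute.refl (pp u)).pow_left j) s').eq v
    simp only [Module.End.mul_apply] at e2
    calc aeval (pp u) s' (nn u (((pp u) ^ j) v)) = nn u (aeval (pp u) s' (((pp u) ^ j) v)) :=
          (nn_E u s' _).symm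
      _ = nn u (((pp u) ^ j) (aeval (pp u) s' v)) := by rw [e2]
      _ = nn u (aeval (pp u) (X ^ j * s') v) := by rw [map_mul, aeval_X_pow]; rfl
      _ = 0 := by rw [hs, h1]
  by_cases hja : j ≤ a
  · apply hv
    obtain ⟨c, rfl⟩ := Nat.exists_eq_add_of_le hja
    rw [add_comm, pow_add, Module.End.mul_apply]
    have e1 := LinearMap.congr_fun ((commute_nn_pp u).pow_right c).eq (((pp u) ^ j) v)
    simp only [Module.End.mul_apply] at e1
    rw [e1, h2, map_zero]
  · apply hv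
    rw [← hs, map_mul, aeval_X_pow, Module.End.mul_apply]
    obtain ⟨c, rfl⟩ : ∃ c, j = (a + 1) + c := ⟨j - (a + 1), by omega⟩
    rw [pow_add, h]
    simp

end Top

section Choose

variable [FiniteDimensional F V]

/-- Prescribing the pairing. -/
theorem exists_w (hA : B.IsAlt) (hB : B.Nondegenerate) {T : Submodule F V} {x : V} (hx : x ∉ T) :
    ∃ w : V, B x w = 1 ∧ ∀ y ∈ T, B y w = 0 := by
  obtain ⟨f, hf, hT⟩ := Submodule.exists_le_ker_of_notMem hx
  let w₀ := (B.toDual hB).symm f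
  have hw₀ : ∀ y, B w₀ y = f y := fun y => LinearMap.BilinForm.apply_toDual_symm_apply f y
  refine ⟨(-(f x)⁻¹) • w₀, ?_, ?_⟩
  · rw [map_smul, smul_eq_mul, alt_swap hA, hw₀]
    field_simp
  · intro y hy
    have h1 : f y = 0 := hT hy
    rw [map_smul, smul_eq_mul, alt_swap hA, hw₀, h1]
    simp

variable {u : V ≃ₗ[F] V} (hu : u ∈ IsomGroup B) (hA : B.IsAlt) (hB : B.Nondegenerate)

include hu hA hB

/-- Block, odd case, from a given `v`. -/
theorem block_odd {a : ℕ} (h : (pp u) ^ (a + 1) = 0) (hN : nn u * (pp u) ^ a = 0) {v w : V}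
    (hw : B (((pp u) ^ a) v) w = 1) (hl : ∀ s : F[X], B (nn u (aeval (pp u) s v)) w = 0) :
    (∀ x ∈ cyc (nn u) v ⊔ cyc (nn u) w, (∀ y ∈ cyc (nn u) v ⊔ cyc (nn u) w, B x y = 0) → x = 0) ∧
    ∃ Λ Λ' : Submodule F V, Λ ⊔ Λ' = cyc (nn u) v ⊔ cyc (nn u) w ∧ (∀ x ∈ Λ, ∀ y ∈ Λ, B x y = 0) ∧
      (∀ x ∈ Λ', ∀ y ∈ Λ', B x y = 0) ∧ ∀ x ∈ Λ, nn u x ∈ Λ' := by
  have ht := top_odd u hN
  have hk : (nn u) ^ (2 * a + 1) = 0 := by rw [pow_succ', ht, hN]
  refine ⟨?_, lagr_odd hu hA hk hl⟩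
  apply two_gen_nondeg hu hA hk
  · intro x
    rw [ht]
    rw [← aeval_X_pow (R := F) (pp u)]
    exact (pp_isHyp hu hA).aeval_alt hA _ _
  · rw [ht, hw]
    exact one_ne_zero

/-- Block, even case, from a given `v`. -/
theorem block_even {a : ℕ} (h : (pp u) ^ (a + 1) = 0) {v w : V}
    (hz : ∀ x, B (nn u (((pp u) ^ a) x)) x = 0)
    (hw : B (nn u (((pp u) ^ a) v)) w = 1) (hl : ∀ s : F[X], B (aeval (pp u) s v) w = 0) :
    (∀ x ∈ cyc (nn u) v ⊔ cyc (nn u) w, (∀ y ∈ cyc (nn u) v ⊔ cyc (nn u) w, B x y = 0) → x = 0) ∧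
    ∃ Λ Λ' : Submodule F V, Λ ⊔ Λ' = cyc (nn u) v ⊔ cyc (nn u) w ∧ (∀ x ∈ Λ, ∀ y ∈ Λ, B x y = 0) ∧
      (∀ x ∈ Λ', ∀ y ∈ Λ', B x y = 0) ∧ ∀ x ∈ Λ, nn u x ∈ Λ' := by
  have ht := top_even u h
  have hk : (nn u) ^ (2 * a + 1 + 1) = 0 := by
    rw [pow_succ', ht, ← mul_assoc, nn_mul_nn, mul_assoc, ← pow_succ', h, mul_zero]
  refine ⟨?_, lagr_even hu hA hk hl⟩
  apply two_gen_nondeg hu hA hk
  · intro x
    rw [ht]
    exact hz x
  · rw [ht]
    change B (nn u (((pp u) ^ a) v)) w ≠ 0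
    rw [hw]
    exact one_ne_zero

/-- The even-case alternating property from Case 2. -/
theorem even_alt {a : ℕ} (hc : ∀ v, B (((pp u) ^ a) v) (u v) = 0) (x : V) :
    B (nn u (((pp u) ^ a) x)) x = 0 := by
  have hH := pp_isHyp hu hA
  have h1 : ∀ y, B (((pp u) ^ a) y) y = 0 := by
    intro y
    rw [← aeval_X_pow (R := F) (pp u)]
    exact hH.aeval_alt hA _ _
  have h2 : nn u (((pp u) ^ a) x) = ((pp u) ^ a) (u x) - ((pp u) ^ a) x := by
    have := LinearMap.congr_fun ((commute_u_pp u).pow_right a).eq x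
    simp only [Module.End.mul_apply] at this
    rw [nn_apply]
    congr 1
  rw [h2, map_sub, LinearMap.sub_apply, h1, sub_zero]
  have h3 : ∀ y z, B (((pp u) ^ a) y) z = B y (((pp u) ^ a) z) := by
    intro y z
    rw [← aeval_X_pow (R := F) (pp u)]
    exact hH.aeval_sa _ _ _
  rw [h3, alt_swap hA, hc, neg_zero]

end Choose

end Cfsg.Agent.Lib.Classical.Ore.Unip
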