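import Mathlib
import Cfsg.Agent.Lib.Classical.Ore.Unip

/-!
# Hyperbolic generators and the `SL₂(R)` model

`R` a local commutative `F`-algebra, with maximal ideal generated by a nilpotent `n`, acting on `V` with
involution `σ` given by the adjoint. In odd characteristic, the top level being alternating, we can
choose isotropic generators `v, w`; then `R v + R w` is a copy of `R²` with the form `λ (ad - bc)`
and `diag (y, y⁻¹)` is a commutator whenever `y⁻¹` is a sum of two squares.
-/

set_option autoImplicit false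

namespace Cfsg.Agent.Lib.Classical.Ore.Model

open Polynomial Cfsg.Agent.Lib.Classical.Symp.AltForm Cfsg.Agent.Lib.Classical.Symp.SympBasis
open Cfsg.Agent.Lib.Classical.Ore.Lagr Cfsg.Agent.Lib.Classical.Ore.Sum

variable {F V R : Type*} [Field F] [AddCommGroup V] [Module F V] {B : LinearMap.BilinForm F V}
  [CommRing R] [Algebra F R]

/-- A functional is "nondegenerate" if `λ(b r) = 0` for all `b` implies `r = 0`. -/
def FrobForm (lam : R →ₗ[F] F) : Prop := ∀ r : R, r ≠ 0 → ∃ b, lam (b * r) ≠ 0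

/-- Every functional is represented by a nondegenerate one. -/
theorem exists_rep [Module.Finite F R] {lam : R →ₗ[F] F} (h : FrobForm lam) (f : R →ₗ[F] F) :
    ∃ a, ∀ b, lam (a * b) = f b := by
  let M : R →ₗ[F] Module.Dual F R :=
    { toFun := fun a => lam ∘ₗ LinearMap.mulLeft F a
      map_add' := fun a b => by ext x; simp [add_mul]
      map_smul' := fun c a => by ext x; simp }
  have hinj : Function.Injective M := by
    rw [injective_iff_map_eq_zero]
    intro r hr
    by_contra hne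
    obtain ⟨b, hb⟩ := h r hne
    apply hb
    have := LinearMap.congr_fun hr b
    simpa [M, mul_comm] using this
  have hr : Module.finrank F R = Module.finrank F (Module.Dual F R) := by
    rw [Subspace.dual_finrank_eq]
  obtain ⟨a, ha⟩ := (LinearMap.linearEquivOfInjective M hinj hr).surjective f
  refine ⟨a, fun b => ?_⟩
  have h1 : M a = f := ha
  have := LinearMap.congr_fun h1 b
  simpa [M] using this

section Local

variable {n : R} {k : ℕ} (hnk : n ^ (k + 1) = 0) (hnk' : n ^ k ≠ 0)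
  (hres : ∀ r : R, ∃ (c : F) (r' : R), r = algebraMap F R c + n * r')

include hnk hres

/-- Valuation in the local ring. -/
theorem exists_val (r : R) (hr : r ≠ 0) : ∃ j, j ≤ k ∧ ∃ e : Rˣ, r = n ^ j * e := by
  have key : ∀ m : ℕ, (∃ j, j < m ∧ ∃ e : Rˣ, r = n ^ j * e) ∨ ∃ r'' : R, r = n ^ m * r'' := by
    intro m
    induction m with
    | zero => exact Or.inr ⟨r, by simp⟩
    | succ m ih =>
      rcases ih with ⟨j, hj, h⟩ | ⟨r'', h⟩
      · exact Or.inl ⟨j, by omega, h⟩
      · obtain ⟨c, r', hc⟩ := hres r''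
        by_cases hc0 : c = 0
        · right
          refine ⟨r', ?_⟩
          rw [h, hc, hc0, map_zero, zero_add, pow_succ, mul_assoc]
        · left
          have hnil : IsNilpotent (n * r') := by
            apply Commute.isNilpotent_mul_right (Commute.all _ _)
            exact ⟨_, hnk⟩
          have hunit : IsUnit (algebraMap F R c) := (IsUnit.mk0 c hc0).map _
          have h2 : IsUnit r'' := by
            rw [hc]
            exact hnil.isUnit_add_left_of_commute hunit (Commute.all _ _)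
          obtain ⟨e, he⟩ := h2
          exact ⟨m, by omega, e, by rw [h, he]⟩
  rcases key (k + 1) with ⟨j, hj, h⟩ | ⟨r'', h⟩
  · exact ⟨j, by omega, h⟩
  · rw [hnk, zero_mul] at h
    exact absurd h hr

include hnk'

/-- Annihilators in the local ring. -/
theorem exists_ann {r : R} {s : ℕ} (hs : s ≤ k + 1) (h : r * n ^ s = 0) : ∃ r₁, r = n ^ (k + 1 - s) * r₁ := by
  by_cases hr : r = 0
  · exact ⟨0, by simp [hr]⟩
  obtain ⟨j, hj, e, rfl⟩ := exists_val hnk hres r hr
  have h1 : n ^ (j + s) = 0 := by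
    have h2 : n ^ (j + s) * e = 0 := by
      rw [pow_add, ← h]
      ring
    exact (Units.mul_left_eq_zero e).mp h2
  have h3 : k + 1 ≤ j + s := by
    by_contra hlt
    apply hnk'
    obtain ⟨c, hc⟩ : ∃ c, k = (j + s) + c := ⟨k - (j + s), by omega⟩
    rw [hc, pow_add, h1, zero_mul]
  refine ⟨n ^ (j - (k + 1 - s)) * e, ?_⟩
  rw [← mul_assoc, ← pow_add]
  congr 2
  omega

/-- A functional not vanishing on the socle is nondegenerate. -/
theorem frob_of_top {lam : R →ₗ[F] F} (h : lam (n ^ k) ≠ 0) : FrobForm lam := by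
  intro r hr
  obtain ⟨j, hj, e, rfl⟩ := exists_val hnk hres r hr
  refine ⟨n ^ (k - j) * ↑e⁻¹, ?_⟩
  have : n ^ (k - j) * ↑e⁻¹ * (n ^ j * ↑e) = n ^ k := by
    have h1 : n ^ k = n ^ (k - j) * n ^ j := by
      rw [← pow_add]
      congr 1
      omega
    rw [h1]
    calc _ = n ^ (k - j) * n ^ j * (↑e⁻¹ * ↑e) := by ring
      _ = _ := by rw [Units.inv_mul, mul_one]
  rwa [this]

end Local

section Hyp

variable {ρ : R →ₐ[F] Module.End F V} {σ : R →ₐ[F] R}

theorem rho_mul (r s : R) (x : V) : ρ r (ρ s x) = ρ (r * s) x := by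
  rw [map_mul]; rfl

/-- One step of the Hensel process: correct `v` by a multiple of `w`. -/
theorem refine_step (hA : B.IsAlt) (hσ : ∀ r x y, B (ρ r x) y = B x (ρ (σ r) y)) (hσσ : ∀ r, σ (σ r) = r)
    (h2 : (2 : F) ≠ 0) {v w : V} {a' : R}
    (ha' : ∀ b, B (ρ (a' * b) v) w = -(2⁻¹ : F) * B (ρ b v) v) (b : R) :
    B (ρ b (v + ρ (σ a') w)) (v + ρ (σ a') w) = B (ρ (a' * σ a' * b) w) w := by
  have h1 : B (ρ b v) (ρ (σ a') w) = -(2⁻¹ : F) * B (ρ b v) v := by
    have e1 := hσ a' (ρ b v) w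
    rw [rho_mul] at e1
    rw [← e1, ha']
  have hskew : ∀ c : R, B (ρ (σ c) v) v = - B (ρ c v) v := by
    intro c
    rw [hσ, hσσ, alt_swap hA]
  have h3 : B (ρ b (ρ (σ a') w)) v = -(2⁻¹ : F) * B (ρ b v) v := by
    rw [rho_mul, alt_swap hA]
    have e1 := hσ (σ b * a') v w
    have e0 : σ (σ b * a') = b * σ a' := by rw [map_mul, hσσ]
    rw [e0] at e1
    rw [← e1, mul_comm (σ b) a', ha', hskew]
    ring
  have h4 : B (ρ b (ρ (σ a') w)) (ρ (σ a') w) = B (ρ (a' * σ a' * b) w) w := by
    have e1 := hσ a' (ρ b (ρ (σ a') w)) w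
    rw [rho_mul, rho_mul] at e1
    rw [← e1]
    congr 3
    ring
  have h5 : (2⁻¹ : F) + 2⁻¹ = 1 := by
    field_simp
    norm_num
  simp only [map_add, LinearMap.add_apply]
  rw [h1, h3, h4]
  have : B (ρ b v) v + -(2⁻¹ : F) * B (ρ b v) v + (-(2⁻¹ : F) * B (ρ b v) v) =
      B (ρ b v) v * (1 - (2⁻¹ + 2⁻¹)) := by ring
  rw [← add_assoc, this, h5]
  simp

/-- Correct `w` by a multiple of an isotropic generator `v`. -/
theorem isotropic_second (hA : B.IsAlt) (hσ : ∀ r x y, B (ρ r x) y = B x (ρ (σ r) y))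
    (hσσ : ∀ r, σ (σ r) = r) (h2 : (2 : F) ≠ 0) {v w : V} (hv : ∀ b, B (ρ b v) v = 0) {c : R}
    (hc : ∀ b, B (ρ (c * b) v) w = -(2⁻¹ : F) * B (ρ b w) w) (b : R) :
    B (ρ b (w + ρ c v)) (w + ρ c v) = 0 := by
  have hskew : ∀ r : R, B (ρ (σ r) w) w = - B (ρ r w) w := by
    intro r
    rw [hσ, hσσ, alt_swap hA]
  have h1 : B (ρ b w) (ρ c v) = -(2⁻¹ : F) * B (ρ b w) w := by
    have e1 := hσ (σ c) (ρ b w) v
    rw [hσσ, rho_mul] at e1
    have e2 := hσ (c * σ b) v w
    have e0 : σ (c * σ b) = σ c * b := by rw [map_mul, hσσ]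
    rw [e0, hc, hskew] at e2
    rw [← e1, alt_swap hA, ← e2]
    ring
  have h3 : B (ρ b (ρ c v)) w = -(2⁻¹ : F) * B (ρ b w) w := by
    rw [rho_mul, mul_comm, hc]
  have h4 : B (ρ b (ρ c v)) (ρ c v) = 0 := by
    have e1 := hσ (σ c) (ρ b (ρ c v)) v
    rw [hσσ, rho_mul, rho_mul] at e1
    rw [← e1, hv]
  have h5 : (2⁻¹ : F) + 2⁻¹ = 1 := by
    field_simp
    norm_num
  simp only [map_add, LinearMap.add_apply]
  rw [h1, h3, h4]
  have : B (ρ b w) w + -(2⁻¹ : F) * B (ρ b w) w + (-(2⁻¹ : F) * B (ρ b w) w) =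
      B (ρ b w) w * (1 - (2⁻¹ + 2⁻¹)) := by ring
  rw [← add_assoc, add_zero, this, h5]
  simp

theorem isotropic_second_val (hσ : ∀ r x y, B (ρ r x) y = B x (ρ (σ r) y))
    (hσσ : ∀ r, σ (σ r) = r) {v w : V} (hv : ∀ b, B (ρ b v) v = 0) (c b : R) :
    B (ρ b v) (w + ρ c v) = B (ρ b v) w := by
  have e1 := hσ (σ c) (ρ b v) v
  rw [hσσ, rho_mul] at e1
  rw [map_add, ← e1, hv, add_zero]

end Hyp

section IsoGen

variable {ρ : R →ₐ[F] Module.End F V} {σ : R →ₐ[F] R} {n e : R} {k : ℕ}

/-- The functional `b ↦ B (ρ b v) w`. -/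
noncomputable def lamOf (ρ : R →ₐ[F] Module.End F V) (B : LinearMap.BilinForm F V) (v w : V) : R →ₗ[F] F :=
  { toFun := fun b => B (ρ b v) w
    map_add' := fun a b => by simp
    map_smul' := fun c a => by simp }

@[simp] theorem lamOf_apply (v w : V) (b : R) : lamOf ρ B v w b = B (ρ b v) w := rfl

/-- The isotropic generator `v` (odd characteristic). -/
theorem iso_gen [Module.Finite F R] (hA : B.IsAlt) (hσ : ∀ r x y, B (ρ r x) y = B x (ρ (σ r) y))
    (hσσ : ∀ r, σ (σ r) = r) (h2 : (2 : F) ≠ 0) (hnk : n ^ (k + 1) = 0) (hnk' : n ^ k ≠ 0)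
    (hres : ∀ r : R, ∃ (c : F) (r' : R), r = algebraMap F R c + n * r') (hσn : σ n = n * e) {w v₀ : V}
    (hz : ∀ x, B (ρ (n ^ k) x) x = 0) (h₀ : B (ρ (n ^ k) v₀) w = 1) :
    ∃ v, B (ρ (n ^ k) v) w = 1 ∧ ∀ b, B (ρ b v) v = 0 := by
  have key : ∀ d, d ≤ k → ∃ v, B (ρ (n ^ k) v) w = 1 ∧ ∀ b, B (ρ (n ^ (k - d) * b) v) v = 0 := by
    intro d
    induction d with
    | zero =>
      intro _
      refine ⟨v₀, h₀, fun b => ?_⟩
      obtain ⟨c, r', rfl⟩ := hres b
      have : n ^ (k - 0) * (algebraMap F R c + n * r') = c • n ^ k := by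
        have e1 : n ^ (k - 0) * (n * r') = 0 := by
          rw [Nat.sub_zero, ← mul_assoc, ← pow_succ, hnk, zero_mul]
        rw [mul_add, e1, add_zero, Nat.sub_zero, Algebra.smul_def, mul_comm]
      simp only [this, map_smul, LinearMap.smul_apply, hz, smul_zero]
    | succ d ih =>
      intro hd
      obtain ⟨v, hv1, hv2⟩ := ih (by omega)
      obtain ⟨t, ht⟩ : ∃ t, k = t + (d + 1) := ⟨k - (d + 1), by omega⟩
      have ht1 : k - d = t + 1 := by omega
      have ht2 : k - (d + 1) = t := by omega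
      rw [ht1] at hv2
      rw [ht2]
      have hfrob : FrobForm (lamOf ρ B v w) :=
        frob_of_top hnk hnk' hres (by rw [lamOf_apply, hv1]; exact one_ne_zero)
      obtain ⟨a', ha'⟩ := exists_rep hfrob (-(2⁻¹ : F) • lamOf ρ B v v)
      have ha'' : ∀ b, B (ρ (a' * b) v) w = -(2⁻¹ : F) * B (ρ b v) v := by
        intro b
        simpa using ha' b
      have h0 : a' * n ^ (t + 1) = 0 := by
        by_contra hne
        obtain ⟨b, hb⟩ := hfrob _ hne
        apply hb
        rw [lamOf_apply, mul_comm b, mul_assoc, ha'', hv2, mul_zero]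
      obtain ⟨a₁, ha₁⟩ := exists_ann hnk hnk' hres (s := t + 1) (by omega) h0
      have hs : k + 1 - (t + 1) = d + 1 := by omega
      rw [hs] at ha₁
      obtain ⟨a₂, ha₂⟩ : ∃ a₂, σ a' = n ^ (d + 1) * a₂ := by
        refine ⟨e ^ (d + 1) * σ a₁, ?_⟩
        rw [ha₁, map_mul, map_pow, hσn, mul_pow]
        ring
      have hpow : ∀ j, k + 1 ≤ j → n ^ j = 0 := by
        intro j hj
        obtain ⟨c, rfl⟩ := Nat.exists_eq_add_of_le hj
        rw [pow_add, hnk, zero_mul]
      refine ⟨v + ρ (σ a') w, ?_, fun b => ?_⟩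
      · rw [map_add, rho_mul, map_add, LinearMap.add_apply, hv1]
        have : n ^ k * σ a' = 0 := by
          rw [ha₂, ← mul_assoc, ← pow_add, hpow _ (by omega), zero_mul]
        rw [this]
        simp
      · rw [refine_step hA hσ hσσ h2 ha'']
        have : a' * σ a' * (n ^ t * b) = 0 := by
          have e1 : a' * σ a' * (n ^ t * b) = n ^ (d + 1 + (d + 1) + t) * (a₁ * a₂ * b) := by
            rw [ha₂, ha₁]
            ring
          rw [e1, hpow _ (by omega), zero_mul]
        rw [this]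
        simp
  obtain ⟨v, hv1, hv2⟩ := key k le_rfl
  refine ⟨v, hv1, fun b => ?_⟩
  have := hv2 b
  rwa [Nat.sub_self, pow_zero, one_mul] at this

end IsoGen

section ModelForm

/-- The model form on `R²`. -/
noncomputable def modelForm (lam : R →ₗ[F] F) : LinearMap.BilinForm F (R × R) :=
  LinearMap.mk₂ F (fun x y => lam (x.1 * y.2 - x.2 * y.1))
    (fun a b c => by
      simp only [Prod.fst_add, Prod.snd_add, ← map_add]
      congr 1
      ring)
    (fun c a b => by
      simp only [Prod.smul_fst, Prod.smul_snd, smul_mul_assoc, ← smul_sub, map_smul, smul_eq_mul])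
    (fun a b c => by
      simp only [Prod.fst_add, Prod.snd_add, ← map_add]
      congr 1
      ring)
    (fun c a b => by
      simp only [Prod.smul_fst, Prod.smul_snd, mul_smul_comm, ← smul_sub, map_smul, smul_eq_mul])

@[simp] theorem modelForm_apply (lam : R →ₗ[F] F) (x y : R × R) :
    modelForm lam x y = lam (x.1 * y.2 - x.2 * y.1) := rfl

/-- A `2 × 2` matrix over `R` as a linear map. -/
noncomputable def matL (p q r s : R) : (R × R) →ₗ[F] (R × R) :=
  { toFun := fun x => (p * x.1 + q * x.2, r * x.1 + s * x.2)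
    map_add' := fun x y => by
      ext <;> simp <;> ring
    map_smul' := fun c x => by
      ext <;> simp [mul_add, smul_add] }

@[simp] theorem matL_apply (p q r s : R) (x : R × R) :
    (matL p q r s : (R × R) →ₗ[F] (R × R)) x = (p * x.1 + q * x.2, r * x.1 + s * x.2) := rfl

/-- An element of `SL₂(R)` as a linear equivalence. -/
noncomputable def matE (p q r s : R) (h : p * s - q * r = 1) : (R × R) ≃ₗ[F] (R × R) :=
  LinearEquiv.ofLinearMap (matL p q r s) (matL s (-q) (-r) p)
    (by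
      refine LinearMap.ext fun x => Prod.ext ?_ ?_
      · simp only [LinearMap.comp_apply, matL_apply, LinearMap.id_apply]
        linear_combination x.1 * h
      · simp only [LinearMap.comp_apply, matL_apply, LinearMap.id_apply]
        linear_combination x.2 * h)
    (by
      refine LinearMap.ext fun x => Prod.ext ?_ ?_
      · simp only [LinearMap.comp_apply, matL_apply, LinearMap.id_apply]
        linear_combination x.1 * h
      · simp only [LinearMap.comp_apply, matL_apply, LinearMap.id_apply]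
        linear_combination x.2 * h)

@[simp] theorem matE_apply (p q r s : R) (h : p * s - q * r = 1) (x : R × R) :
    (matE p q r s h : (R × R) ≃ₗ[F] (R × R)) x = (p * x.1 + q * x.2, r * x.1 + s * x.2) := rfl

theorem matE_mem (lam : R →ₗ[F] F) (p q r s : R) (h : p * s - q * r = 1) :
    (matE p q r s h : (R × R) ≃ₗ[F] (R × R)) ∈ IsomGroup (modelForm lam) := by
  intro x y
  simp only [matE_apply, modelForm_apply]
  congr 1
  linear_combination (x.1 * y.2 - x.2 * y.1) * h

/-- `diag (y, y')` is a commutator if `y'` is a sum of two squares. -/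
theorem model_comm (lam : R →ₗ[F] F) {y y' α β : R} (hy : y * y' = 1) (hαβ : α * α + β * β = y')
    (h : y * y' - 0 * 0 = 1) :
    IsComm (modelForm lam) (matE (F := F) y 0 0 y' h) := by
  have h1 : y * α * α - y * β * (-β) = 1 := by
    linear_combination y * hαβ + hy
  have h2 : (0 : R) * 0 - 1 * (-1) = 1 := by ring
  let a : IsomGroup (modelForm lam) := ⟨matE (y * α) (y * β) (-β) α h1, matE_mem lam _ _ _ _ h1⟩
  let b : IsomGroup (modelForm lam) := ⟨matE 0 1 (-1) 0 h2, matE_mem lam _ _ _ _ h2⟩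
  let g : IsomGroup (modelForm lam) := ⟨matE y 0 0 y' h, matE_mem lam _ _ _ _ h⟩
  refine ⟨a, b, ?_⟩
  have hg : g = a * b * a⁻¹ * b⁻¹ := by
    rw [eq_mul_inv_iff_mul_eq, eq_mul_inv_iff_mul_eq]
    apply Subtype.ext
    apply LinearEquiv.ext
    rintro ⟨x₁, x₂⟩
    change (matE (F := F) y 0 0 y' h) ((matE (F := F) 0 1 (-1) 0 h2) ((matE (F := F) (y * α) (y * β) (-β) α h1) (x₁, x₂))) =
      (matE (F := F) (y * α) (y * β) (-β) α h1) ((matE (F := F) 0 1 (-1) 0 h2) (x₁, x₂))
    simp only [matE_apply]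
    ext
    · simp only
      ring
    · simp only
      linear_combination (-α * x₁ - β * x₂) * hy
  exact congrArg Subtype.val hg

end ModelForm

section Gens

variable {ρ : R →ₐ[F] Module.End F V} {σ : R →ₐ[F] R}

/-- Hyperbolic generators give a copy of the model. -/
theorem gens_model [Module.Finite F R] (hσ : ∀ r x y, B (ρ r x) y = B x (ρ (σ r) y))
    (hA : B.IsAlt) (hσσ : ∀ r, σ (σ r) = r) {v w : V} (hvv : ∀ b, B (ρ b v) v = 0) (hww : ∀ b, B (ρ b w) w = 0)
    (hfrob : FrobForm (lamOf ρ B v w)) {W : Submodule F V} (hW : ∀ x, x ∈ W ↔ ∃ a b, x = ρ a v + ρ b w)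
    {g : V ≃ₗ[F] V} {y y' α β : R} (hy : y * y' = 1) (hσy : σ y = y') (hαβ : α * α + β * β = y')
    (hg : ∀ x, g x = ρ y x) (hst : ∀ x, x ∈ W ↔ g x ∈ W) :
    IsComm (B.restrict W) (restrictEquiv g W hst) ∧ Module.finrank F W = 2 * Module.finrank F R := by
  let T0 : (R × R) →ₗ[F] V :=
    { toFun := fun x => ρ x.1 v + ρ (σ x.2) w
      map_add' := fun a b => by
        simp only [Prod.fst_add, Prod.snd_add, map_add, LinearMap.add_apply]
        abel
      map_smul' := fun c a => by
        simp [smul_add] }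
  have hT0 : ∀ x, T0 x = ρ x.1 v + ρ (σ x.2) w := fun _ => rfl
  have hmem : ∀ x, T0 x ∈ W := fun x => (hW _).mpr ⟨_, _, hT0 x⟩
  have hform : ∀ x y, B (T0 x) (T0 y) = modelForm (lamOf ρ B v w) x y := by
    rintro ⟨a, b⟩ ⟨c, d⟩
    simp only [hT0, modelForm_apply, map_sub, lamOf_apply, map_add, LinearMap.add_apply, LinearMap.sub_apply]
    have h1 : B (ρ a v) (ρ c v) = 0 := by
      have e1 := hσ (σ c) (ρ a v) v
      rw [hσσ, rho_mul] at e1
      rw [← e1, hvv]
    have h2 : B (ρ a v) (ρ (σ d) w) = B (ρ a (ρ d v)) w := by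
      have e1 := hσ d (ρ a v) w
      rw [rho_mul] at e1
      rw [← e1, rho_mul, mul_comm]
    have h3 : B (ρ (σ b) w) (ρ c v) = - B (ρ b (ρ c v)) w := by
      have e1 := hσ b (ρ c v) w
      rw [e1, alt_swap hA]
    have h4 : B (ρ (σ b) w) (ρ (σ d) w) = 0 := by
      have e1 := hσ d (ρ (σ b) w) w
      rw [rho_mul] at e1
      rw [← e1, hww]
    rw [h1, h2, h3, h4, rho_mul, rho_mul, zero_add, add_zero, sub_eq_add_neg, add_comm]
  have hinj : Function.Injective (T0.codRestrict W hmem) := by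
    rw [injective_iff_map_eq_zero]
    intro x hx
    have hx0 : T0 x = 0 := congrArg Subtype.val hx
    have h1 : ∀ y, modelForm (lamOf ρ B v w) x y = 0 := by
      intro y
      rw [← hform, hx0]
      simp
    apply Prod.ext
    · by_contra hne
      obtain ⟨b, hb⟩ := hfrob x.1 hne
      apply hb
      have := h1 (0, b)
      simpa [mul_comm] using this
    · by_contra hne
      obtain ⟨b, hb⟩ := hfrob x.2 hne
      apply hb
      have := h1 (b, 0)
      simpa [mul_comm] using this
  have hsurj : Function.Surjective (T0.codRestrict W hmem) := by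
    rintro ⟨x, hx⟩
    obtain ⟨a, b, rfl⟩ := (hW x).mp hx
    refine ⟨(a, σ b), Subtype.ext ?_⟩
    change T0 (a, σ b) = _
    rw [hT0]
    simp only [hσσ]
  let E : (R × R) ≃ₗ[F] W := LinearEquiv.ofBijective (T0.codRestrict W hmem) ⟨hinj, hsurj⟩
  have hE : ∀ x, ((E x : W) : V) = T0 x := fun _ => rfl
  have hE' : ∀ x : W, T0 (E.symm x) = x := by
    intro x
    rw [← hE, E.apply_symm_apply]
  have h0 : y * y' - 0 * 0 = 1 := by simpa using hy
  constructor
  · refine IsComm.congr E.symm (fun x y => ?_) (fun x => ?_) (model_comm (lamOf ρ B v w) hy hαβ h0)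
    · rw [← hform, hE', hE']
      rfl
    · apply E.injective
      rw [E.apply_symm_apply]
      apply Subtype.ext
      rw [hE, restrictEquiv_coe, matE_apply, hT0]
      conv_lhs => rw [← hE' x]
      rw [hT0, hg]
      obtain ⟨z₁, z₂⟩ := E.symm x
      simp only [map_add, LinearMap.add_apply, rho_mul, map_mul, zero_mul, add_zero, zero_add, ← hσy, hσσ]
  · rw [← E.finrank_eq, Module.finrank_prod, two_mul]

end Gens

end Cfsg.Agent.Lib.Classical.Ore.Model
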