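import Mathlib
import Cfsg.Agent.Lib.Classical.Ore.Model

/-!
# The block `-u`, `u` with top level `N^{2a}`, in odd characteristic

Instantiates the model with `R = F[N]`.
-/

set_option autoImplicit false

namespace Cfsg.Agent.Lib.Classical.Ore.NegBlock

open Polynomial Cfsg.Agent.Lib.Classical.Symp.AltForm Cfsg.Agent.Lib.Classical.Symp.SympBasis
open Cfsg.Agent.Lib.Classical.Ore.Lagr Cfsg.Agent.Lib.Classical.Ore.Sum
open Cfsg.Agent.Lib.Classical.Ore.Cyc Cfsg.Agent.Lib.Classical.Ore.Unip
open Cfsg.Agent.Lib.Classical.Ore.Model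

section Sq

variable {F R : Type*} [Field F] [CommRing R] [Algebra F R]

/-- Unipotents have square roots, and `-1` is a sum of two squares in `F`. -/
theorem exists_two_squares [Finite F] [Nontrivial R] (h2 : (2 : F) ≠ 0) {m : R} (hm : IsNilpotent m) :
    ∃ α β : R, α * α + β * β = -(1 + m) := by
  classical
  obtain ⟨p, hp⟩ := CharP.exists F
  haveI : Fact p.Prime := ⟨CharP.char_is_prime F p⟩
  haveI : CharP R p := charP_of_injective_algebraMap (algebraMap F R).injective p
  obtain ⟨K, hK⟩ := hm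
  have hp2 : p ≠ 2 := by
    rintro rfl
    apply h2
    exact_mod_cast CharP.cast_eq_zero F 2
  have hodd : Odd (p ^ K) := ((Fact.out : p.Prime).odd_of_ne_two hp2).pow
  obtain ⟨j, hj⟩ := hodd
  have h1 : (1 + m) ^ (p ^ K) = 1 := by
    rw [add_pow_char_pow]
    have h3 : K ≤ p ^ K := (Nat.lt_pow_self (Fact.out : p.Prime).one_lt).le
    obtain ⟨c, hc⟩ := Nat.exists_eq_add_of_le h3
    rw [one_pow, hc, pow_add, hK, zero_mul, add_zero]
  let s := (1 + m) ^ (j + 1)
  have hs : s * s = 1 + m := by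
    have e1 : (j + 1) + (j + 1) = p ^ K + 1 := by omega
    change (1 + m) ^ (j + 1) * (1 + m) ^ (j + 1) = 1 + m
    rw [← pow_add, e1, pow_succ, h1, one_mul]
  haveI := Fintype.ofFinite F
  have hchar : ringChar F ≠ 2 := by
    rw [ringChar.eq F p]
    exact hp2
  obtain ⟨a, b, hab⟩ := FiniteField.exists_root_sum_quadratic (R := F) (f := X ^ 2) (g := X ^ 2 + 1)
    (by simp) (by rw [degree_add_eq_left_of_degree_lt] <;> simp) (FiniteField.odd_card_of_char_ne_two hchar)
  simp only [eval_pow, eval_X, eval_add, eval_one] at hab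
  refine ⟨a • s, b • s, ?_⟩
  have e2 : a * a + b * b = -1 := by linear_combination hab
  calc a • s * a • s + b • s * b • s = (a * a + b * b) • (s * s) := by
        simp only [smul_mul_assoc, mul_smul_comm, add_smul, smul_smul]
    _ = -(1 + m) := by rw [e2, hs, neg_one_smul]

/-- Dimension of a local algebra with residue field `F`, principal maximal ideal. -/
theorem finrank_local {n : R} {k : ℕ} (hnk : n ^ (k + 1) = 0) (hnk' : n ^ k ≠ 0)
    (hsurj : ∀ r : R, ∃ p : F[X], r = aeval n p) : Module.finrank F R = k + 1 := by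
  have hs : Function.Surjective (aeval n : F[X] →ₐ[F] R) := by
    intro r
    obtain ⟨p, hp⟩ := hsurj r
    exact ⟨p, hp.symm⟩
  have hker : RingHom.ker (aeval n : F[X] →ₐ[F] R) = Ideal.span {(X : F[X]) ^ (k + 1)} := by
    ext p
    rw [RingHom.mem_ker, Ideal.mem_span_singleton]
    constructor
    · intro hp
      by_cases hp0 : p = 0
      · simp [hp0]
      obtain ⟨j, s, rfl, hs⟩ := exists_X_pow_mul hp0
      have hu : IsUnit (aeval n s) := by
        have e1 : aeval n s = algebraMap F R (s.coeff 0) + n * aeval n s.divX := by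
          conv_lhs => rw [← divX_mul_X_add s]
          simp only [map_add, map_mul, aeval_X, aeval_C]
          ring
        rw [e1]
        have hnil : IsNilpotent (n * aeval n s.divX) := by
          apply Commute.isNilpotent_mul_right (Commute.all _ _)
          exact ⟨_, hnk⟩
        exact hnil.isUnit_add_left_of_commute ((IsUnit.mk0 _ hs).map _) (Commute.all _ _)
      have h1 : n ^ j * aeval n s = 0 := by
        have : aeval n (X ^ j * s) = 0 := hp
        simpa using this
      have h2 : n ^ j = 0 := by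
        obtain ⟨e, he⟩ := hu
        rw [← he] at h1
        exact (Units.mul_left_eq_zero e).mp h1
      have h3 : k + 1 ≤ j := by
        by_contra hlt
        apply hnk'
        obtain ⟨c, hc⟩ : ∃ c, k = j + c := ⟨k - j, by omega⟩
        rw [hc, pow_add, h2, zero_mul]
      exact Dvd.dvd.mul_right (pow_dvd_pow _ h3) _
    · rintro ⟨q, rfl⟩
      simp [hnk]
  let e := Ideal.quotientKerAlgEquivOfSurjective hs
  let e2 := Ideal.quotientEquivAlgOfEq F hker
  rw [← e.toLinearEquiv.finrank_eq, e2.toLinearEquiv.finrank_eq, finrank_quotient_span_eq_natDegree,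
    natDegree_X_pow]

end Sq

section Generic

variable {F V R : Type*} [Field F] [AddCommGroup V] [Module F V] {B : LinearMap.BilinForm F V}
  [CommRing R] [Algebra F R]

theorem neg_block_generic [Finite F] [FiniteDimensional F V] [Module.Finite F R]
    {u : V ≃ₗ[F] V} (hu : u ∈ IsomGroup B) (hA : B.IsAlt) (hB : B.Nondegenerate) (h2 : (2 : F) ≠ 0)
    {a : ℕ} (h : (pp u) ^ (a + 1) = 0) (hN : nn u * (pp u) ^ a = 0) (hne : (pp u) ^ a ≠ 0)
    (hc : ∀ v, B (((pp u) ^ a) v) (u v) = 0)
    {ρ : R →ₐ[F] Module.End F V} {σ : R →ₐ[F] R} {n : R}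
    (hσ : ∀ r x y, B (ρ r x) y = B x (ρ (σ r) y)) (hσσ : ∀ r, σ (σ r) = r)
    (hρn : ρ n = nn u) (hinv : (1 + n) * (1 + σ n) = 1) (hnk : n ^ (2 * a + 1) = 0) (hnk' : n ^ (2 * a) ≠ 0)
    (hsurj : ∀ r : R, ∃ p : F[X], r = aeval n p) {g : V ≃ₗ[F] V} (hg : ∀ x, g x = - u x) :
    ∃ W : Submodule F V, W ≠ ⊥ ∧ IsCompl W (B.orthogonal W) ∧ ∃ hst : ∀ x, x ∈ W ↔ g x ∈ W,
      IsA (B.restrict W) (-1) (restrictEquiv g W hst) ∧ IsComm (B.restrict W) (restrictEquiv g W hst) ∧
      Module.finrank F W = 2 * Module.finrank F R := by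
  haveI : Nontrivial R := by
    by_contra hn
    rw [not_nontrivial_iff_subsingleton] at hn
    exact hnk' (Subsingleton.elim _ _)
  have hres : ∀ r : R, ∃ (c : F) (r' : R), r = algebraMap F R c + n * r' := by
    intro r
    obtain ⟨p, rfl⟩ := hsurj r
    refine ⟨p.coeff 0, aeval n p.divX, ?_⟩
    conv_lhs => rw [← divX_mul_X_add p]
    simp only [map_add, map_mul, aeval_X, aeval_C]
    ring
  have htop : ρ (n ^ (2 * a)) = (pp u) ^ a := by rw [map_pow, hρn, top_odd u hN]
  have hfix : ∀ x, u (((pp u) ^ a) x) = ((pp u) ^ a) x := by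
    intro x
    have e1 : nn u (((pp u) ^ a) x) = 0 := by
      have := LinearMap.congr_fun hN x
      simpa using this
    have e2 : nn u (((pp u) ^ a) x) = u (((pp u) ^ a) x) - ((pp u) ^ a) x := rfl
    rw [e2, sub_eq_zero] at e1
    exact e1
  have hz : ∀ x, B (ρ (n ^ (2 * a)) x) x = 0 := by
    intro x
    rw [htop, ← hu (((pp u) ^ a) x) x, hfix]
    exact hc x
  obtain ⟨v₀, hv₀⟩ : ∃ v₀, ((pp u) ^ a) v₀ ≠ 0 := by
    by_contra hcon
    push Not at hcon
    exact hne (LinearMap.ext hcon)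
  obtain ⟨w₁, hw₁, -⟩ := exists_w hA hB (T := ⊥) (x := ((pp u) ^ a) v₀) (by simpa using hv₀)
  have hσ' : σ n = n * (-(1 + σ n)) := by
    linear_combination hinv
  obtain ⟨v, hv1, hvv⟩ := iso_gen hA hσ hσσ h2 hnk hnk' hres hσ' hz (v₀ := v₀) (w := w₁)
    (by rw [htop]; exact hw₁)
  rw [htop] at hv1
  have hvne : ((pp u) ^ a) v ≠ 0 := by
    intro h0
    rw [h0] at hv1
    simp at hv1
  obtain ⟨w, hw1, hw2⟩ := exists_w hA hB (not_mem_odd u hN h hvne)
  have hfrob : FrobForm (lamOf ρ B v w) :=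
    frob_of_top hnk hnk' hres (by rw [lamOf_apply, htop, hw1]; exact one_ne_zero)
  obtain ⟨c, hc'⟩ := exists_rep hfrob (-(2⁻¹ : F) • lamOf ρ B w w)
  have hc'' : ∀ b, B (ρ (c * b) v) w = -(2⁻¹ : F) * B (ρ b w) w := by
    intro b
    simpa using hc' b
  set w' := w + ρ c v with hw'
  have hww : ∀ b, B (ρ b w') w' = 0 := fun b => isotropic_second hA hσ hσσ h2 hvv hc'' b
  have hval : ∀ b, B (ρ b v) w' = B (ρ b v) w := fun b => isotropic_second_val hσ hσσ hvv c b
  have hu1 : ∀ x, ρ (1 + n) x = u x := by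
    intro x
    rw [map_add, map_one, hρn]
    simp [nn_apply]
  have hρσ : ρ (σ n) = nns u := by
    have e1 : ρ (1 + n) * ρ (1 + σ n) = 1 := by rw [← map_mul, hinv, map_one]
    apply LinearMap.ext
    intro x
    have e2 := LinearMap.congr_fun e1 x
    simp only [Module.End.mul_apply, Module.End.one_apply, hu1] at e2
    have e3 : ρ (1 + σ n) x = u.symm x := by
      rw [LinearEquiv.eq_symm_apply]
      exact e2
    rw [map_add, map_one] at e3
    simp only [LinearMap.add_apply, Module.End.one_apply] at e3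
    rw [nns_apply, ← e3]
    abel
  let π : R := n + σ n
  have hπ : ρ π = pp u := by
    rw [map_add, hρn, hρσ, nns_eq]
    abel
  have hs : ∀ s : F[X], ρ (aeval π s) = aeval (pp u) s := by
    intro s
    rw [← hπ, aeval_algHom_apply]
  have hw'1 : B (((pp u) ^ a) v) w' = 1 := by
    rw [← htop, hval, htop, hw1]
  have hl : ∀ s : F[X], B (nn u (aeval (pp u) s v)) w' = 0 := by
    intro s
    have e1 := hval (n * aeval π s)
    rw [map_mul, hρn, hs] at e1
    rw [show nn u (aeval (pp u) s v) = (nn u * aeval (pp u) s) v from rfl, e1]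
    rw [show (nn u * aeval (pp u) s) v = nn u (aeval (pp u) s v) from rfl, nn_E]
    exact hw2 _ ⟨s, rfl⟩
  obtain ⟨nd, Λ, Λ', hsup, hi, hi', hmap⟩ := block_odd hu hA hB h hN hw'1 hl
  set W := cyc (nn u) v ⊔ cyc (nn u) w' with hW
  have hstab : ∀ x ∈ W, g x ∈ W := by
    intro x hx
    rw [hg]
    exact W.neg_mem (two_gen_stable _ _ x hx)
  have hst : ∀ x, x ∈ W ↔ g x ∈ W := stable_iff hstab
  have hWmem : ∀ x, x ∈ W ↔ ∃ a b, x = ρ a v + ρ b w' := by
    intro x
    have hcv : ∀ (p : F[X]) (y : V), aeval (nn u) p y = ρ (aeval n p) y := by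
      intro p y
      rw [← hρn, aeval_algHom_apply]
    constructor
    · intro hx
      obtain ⟨y, ⟨p, hp⟩, z, ⟨q, hq⟩, rfl⟩ := Submodule.mem_sup.mp hx
      refine ⟨aeval n p, aeval n q, ?_⟩
      rw [← hp, ← hq, hcv, hcv]
    · rintro ⟨a, b, rfl⟩
      obtain ⟨p, rfl⟩ := hsurj a
      obtain ⟨q, rfl⟩ := hsurj b
      exact Submodule.add_mem_sup ⟨p, hcv p v⟩ ⟨q, hcv q w'⟩
  have hnil : IsNilpotent (σ n) := by
    rw [hσ']
    exact Commute.isNilpotent_mul_right (Commute.all _ _) ⟨_, hnk⟩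
  obtain ⟨α, β, hαβ⟩ := exists_two_squares h2 hnil
  have hy : (-(1 + n)) * (-(1 + σ n)) = 1 := by
    rw [neg_mul_neg, hinv]
  have hσy : σ (-(1 + n)) = -(1 + σ n) := by
    simp
  have hgy : ∀ x, g x = ρ (-(1 + n)) x := by
    intro x
    rw [map_neg, LinearMap.neg_apply, hu1, hg]
  obtain ⟨hcomm, hfin⟩ := gens_model hσ hA hσσ hvv hww (by
    refine frob_of_top hnk hnk' hres ?_
    rw [lamOf_apply, hval, htop, hw1]
    exact one_ne_zero) hWmem hy hσy hαβ hgy hst
  refine ⟨W, ?_, isCompl_of_disj hA.isRefl nd, hst, ?_, hcomm, hfin⟩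
  · intro h0
    have hvW : v ∈ W := Submodule.mem_sup_left (self_mem_cyc _ _)
    rw [h0, Submodule.mem_bot] at hvW
    apply hvne
    rw [hvW, map_zero]
  · refine isA_restrict hst hsup hi hi' (fun x hx => ?_)
    have e1 : g x - (-1 : F) • x = - nn u x := by
      rw [hg, nn_apply]
      simp
      abel
    rw [e1]
    exact Λ'.neg_mem (hmap x hx)

end Generic

section Concrete

variable {F V : Type*} [Field F] [AddCommGroup V] [Module F V] {B : LinearMap.BilinForm F V}
  [FiniteDimensional F V]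

/-- The adjoint. -/
noncomputable def adjf (hB : B.Nondegenerate) (φ : Module.End F V) : Module.End F V :=
  B.leftAdjointOfNondegenerate hB φ

theorem adjf_left (hB : B.Nondegenerate) (φ : Module.End F V) (x y : V) :
    B (adjf hB φ x) y = B x (φ y) :=
  LinearMap.BilinForm.isAdjointPairLeftAdjointOfNondegenerate B hB φ x y

theorem adjf_right (hA : B.IsAlt) (hB : B.Nondegenerate) (φ : Module.End F V) (x y : V) :
    B (φ x) y = B x (adjf hB φ y) := by
  rw [alt_swap hA, ← adjf_left hB, alt_swap hA, neg_neg]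

theorem adjf_unique (hB : B.Nondegenerate) {φ ψ : Module.End F V} (h : ∀ x y, B (ψ x) y = B x (φ y)) :
    adjf hB φ = ψ := by
  apply LinearMap.ext
  intro x
  have h1 : adjf hB φ x - ψ x = 0 := by
    apply hB.1
    intro y
    rw [map_sub, LinearMap.sub_apply, adjf_left, h, sub_self]
  exact sub_eq_zero.mp h1

theorem adjf_add (hB : B.Nondegenerate) (φ ψ : Module.End F V) :
    adjf hB (φ + ψ) = adjf hB φ + adjf hB ψ :=
  adjf_unique hB fun x y => by
    simp only [LinearMap.add_apply, map_add, adjf_left]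

theorem adjf_mul (hB : B.Nondegenerate) (φ ψ : Module.End F V) :
    adjf hB (φ * ψ) = adjf hB ψ * adjf hB φ :=
  adjf_unique hB fun x y => by
    simp only [Module.End.mul_apply, adjf_left]

theorem adjf_algebraMap (hB : B.Nondegenerate) (c : F) :
    adjf hB (algebraMap F (Module.End F V) c) = algebraMap F (Module.End F V) c :=
  adjf_unique hB fun x y => by
    simp [Module.algebraMap_end_apply]

theorem adjf_adjf (hA : B.IsAlt) (hB : B.Nondegenerate) (φ : Module.End F V) :
    adjf hB (adjf hB φ) = φ :=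
  adjf_unique hB fun x y => adjf_right hA hB φ x y

/-- The adjoint preserves `F[N]`. -/
theorem adjf_mem (hB : B.Nondegenerate) {u : V ≃ₗ[F] V} (hu : u ∈ IsomGroup B)
    {K : ℕ} (hK : (nn u) ^ K = 0) {φ : Module.End F V} (hφ : φ ∈ Algebra.adjoin F {nn u}) :
    adjf hB φ ∈ Algebra.adjoin F {nn u} := by
  have hN : nn u ∈ Algebra.adjoin F {nn u} := Algebra.self_mem_adjoin_singleton F _
  induction hφ using Algebra.adjoin_induction with
  | mem x hx =>
    rw [Set.mem_singleton_iff] at hx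
    subst hx
    have e1 : adjf hB (nn u) = nns u := adjf_unique hB fun x y => adj_nns hu x y
    rw [e1, nns_eq]
    obtain ⟨p, hp⟩ := exists_poly_pp u hK
    refine Subalgebra.sub_mem _ ?_ hN
    rw [← hp]
    exact aeval_mem_adjoin_singleton F (nn u)
  | algebraMap c =>
    rw [adjf_algebraMap]
    exact Subalgebra.algebraMap_mem _ c
  | add x y _ _ h1 h2 =>
    rw [adjf_add]
    exact Subalgebra.add_mem _ h1 h2
  | mul x y _ _ h1 h2 =>
    rw [adjf_mul]
    exact Subalgebra.mul_mem _ h2 h1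

/-- The block for `g = - u`. -/
theorem neg_block [Finite F] {u : V ≃ₗ[F] V} (hu : u ∈ IsomGroup B) (hA : B.IsAlt) (hB : B.Nondegenerate)
    (h2 : (2 : F) ≠ 0) {a : ℕ} (h : (pp u) ^ (a + 1) = 0) (hN : nn u * (pp u) ^ a = 0) (hne : (pp u) ^ a ≠ 0)
    (hc : ∀ v, B (((pp u) ^ a) v) (u v) = 0) {g : V ≃ₗ[F] V} (hg : ∀ x, g x = - u x) :
    ∃ W : Submodule F V, W ≠ ⊥ ∧ IsCompl W (B.orthogonal W) ∧ ∃ hst : ∀ x, x ∈ W ↔ g x ∈ W,
      IsA (B.restrict W) (-1) (restrictEquiv g W hst) ∧ IsComm (B.restrict W) (restrictEquiv g W hst) ∧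
      Odd (Module.finrank F W / 2) := by
  have htop := top_odd u hN
  have hK : (nn u) ^ (2 * a + 1) = 0 := by
    rw [pow_succ', htop, hN]
  let S := Algebra.adjoin F {nn u}
  haveI : IsMulCommutative S := Algebra.isMulCommutative_adjoin F (by simp)
  let ρ : S →ₐ[F] Module.End F V := S.val
  let σ : S →ₐ[F] S :=
    { toFun := fun r => ⟨adjf hB r, adjf_mem hB hu hK r.2⟩
      map_one' := by
        apply Subtype.ext
        exact adjf_unique hB fun x y => by simp
      map_mul' := fun r s => by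
        apply Subtype.ext
        change adjf hB (r.1 * s.1) = adjf hB r * adjf hB s
        rw [adjf_mul]
        have := congrArg Subtype.val (mul_comm (⟨adjf hB r, adjf_mem hB hu hK r.2⟩ : S) ⟨adjf hB s, adjf_mem hB hu hK s.2⟩)
        exact this.symm
      map_zero' := by
        apply Subtype.ext
        exact adjf_unique hB fun x y => by simp
      map_add' := fun r s => by
        apply Subtype.ext
        exact adjf_add hB _ _
      commutes' := fun c => by
        apply Subtype.ext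
        exact adjf_algebraMap hB c }
  let n : S := ⟨nn u, Algebra.self_mem_adjoin_singleton F _⟩
  have hσn : ((σ n : S) : Module.End F V) = nns u := adjf_unique hB fun x y => adj_nns hu x y
  have hcoe : ∀ (j : ℕ), ((n ^ j : S) : Module.End F V) = (nn u) ^ j := fun j => rfl
  have hnk : n ^ (2 * a + 1) = 0 := by
    apply Subtype.ext
    rw [hcoe, hK]
    rfl
  have hnk' : n ^ (2 * a) ≠ 0 := by
    intro h0
    apply hne
    rw [← htop, ← hcoe, h0]
    rfl
  have hsurj : ∀ r : S, ∃ p : F[X], r = aeval n p := by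
    rintro ⟨r, hr⟩
    have hr' : r ∈ Algebra.adjoin F {nn u} := hr
    rw [Algebra.adjoin_singleton_eq_range_aeval] at hr'
    obtain ⟨p, rfl⟩ := hr'
    refine ⟨p, Subtype.ext ?_⟩
    change aeval (nn u) p = ((aeval n p : S) : Module.End F V)
    exact aeval_algHom_apply ρ n p
  have hinv : (1 + n) * (1 + σ n) = 1 := by
    apply Subtype.ext
    change (1 + nn u) * (1 + ((σ n : S) : Module.End F V)) = 1
    rw [hσn, add_mul, one_mul, mul_add, mul_one, nn_mul_nns, nns_eq]
    abel
  haveI : Module.Finite F S := inferInstanceAs (Module.Finite F (Subalgebra.toSubmodule S))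
  obtain ⟨W, h1, h3, hst, h4, h5, h6⟩ := neg_block_generic hu hA hB h2 h hN hne hc (ρ := ρ) (σ := σ) (n := n)
    (fun r x y => adjf_right hA hB r x y)
    (fun r => Subtype.ext (adjf_adjf hA hB r))
    rfl hinv hnk hnk' hsurj hg
  refine ⟨W, h1, h3, hst, h4, h5, ?_⟩
  rw [h6, finrank_local hnk hnk' hsurj, Nat.mul_div_cancel_left _ (by norm_num)]
  exact odd_two_mul_add_one a

end Concrete

end Cfsg.Agent.Lib.Classical.Ore.NegBlock
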