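import Mathlib
import Cfsg.Agent.Lib.Classical.Ore.NegBlock

/-!
# Block decomposition of an isometry
-/

set_option autoImplicit false

namespace Cfsg.Agent.Lib.Classical.Ore.Decomp

open Polynomial Cfsg.Agent.Lib.Classical.Symp.AltForm Cfsg.Agent.Lib.Classical.Symp.SympBasis
open Cfsg.Agent.Lib.Classical.Ore.Lagr Cfsg.Agent.Lib.Classical.Ore.Sum
open Cfsg.Agent.Lib.Classical.Ore.Cyc Cfsg.Agent.Lib.Classical.Ore.Unip
open Cfsg.Agent.Lib.Classical.Ore.NegBlock

section Unipotent

variable {F V : Type*} [Field F] [AddCommGroup V] [Module F V] {B : LinearMap.BilinForm F V}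
  [FiniteDimensional F V]

/-- The block of a "unipotent" isometry with `B (P^a v, u v) = 0`. -/
theorem block_of_case_two {u : V ≃ₗ[F] V} (hu : u ∈ IsomGroup B) (hA : B.IsAlt) (hB : B.Nondegenerate)
    {a : ℕ} (h : (pp u) ^ (a + 1) = 0) (hne : (pp u) ^ a ≠ 0) (hc : ∀ v, B (((pp u) ^ a) v) (u v) = 0) :
    ∃ W : Submodule F V, W ≠ ⊥ ∧ IsCompl W (B.orthogonal W) ∧ ∃ hst : ∀ x, x ∈ W ↔ u x ∈ W,
      IsA (B.restrict W) 1 (restrictEquiv u W hst) := by
  have hfin : ∀ {v w : V}
      (_ : v ≠ 0)
      (_ : ∀ x ∈ cyc (nn u) v ⊔ cyc (nn u) w, (∀ y ∈ cyc (nn u) v ⊔ cyc (nn u) w, B x y = 0) → x = 0)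
      (_ : ∃ Λ Λ' : Submodule F V, Λ ⊔ Λ' = cyc (nn u) v ⊔ cyc (nn u) w ∧ (∀ x ∈ Λ, ∀ y ∈ Λ, B x y = 0) ∧
        (∀ x ∈ Λ', ∀ y ∈ Λ', B x y = 0) ∧ ∀ x ∈ Λ, nn u x ∈ Λ'),
      ∃ W : Submodule F V, W ≠ ⊥ ∧ IsCompl W (B.orthogonal W) ∧ ∃ hst : ∀ x, x ∈ W ↔ u x ∈ W,
        IsA (B.restrict W) 1 (restrictEquiv u W hst) := by
    rintro v w hv nd ⟨Λ, Λ', hsup, hi, hi', hmap⟩
    have hst := stable_iff (two_gen_stable (u := u) v w)
    refine ⟨cyc (nn u) v ⊔ cyc (nn u) w, ?_, isCompl_of_disj hA.isRefl nd, hst,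
      isA_restrict hst hsup hi hi' (fun x hx => ?_)⟩
    · intro h0
      have hvW : v ∈ cyc (nn u) v ⊔ cyc (nn u) w := Submodule.mem_sup_left (self_mem_cyc _ _)
      rw [h0, Submodule.mem_bot] at hvW
      exact hv hvW
    · have : u x - (1 : F) • x = nn u x := by simp
      rw [this]
      exact hmap x hx
  by_cases hN : nn u * (pp u) ^ a = 0
  · obtain ⟨v, hv⟩ : ∃ v, ((pp u) ^ a) v ≠ 0 := by
      by_contra hcon
      push Not at hcon
      exact hne (LinearMap.ext hcon)
    obtain ⟨w, hw1, hw2⟩ := exists_w hA hB (not_mem_odd u hN h hv)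
    have hvne : v ≠ 0 := by
      rintro rfl
      simp at hv
    exact hfin hvne (block_odd hu hA hB h hN hw1 (fun s => by
      rw [nn_E]
      exact hw2 _ ⟨s, rfl⟩)).1 (block_odd hu hA hB h hN hw1 (fun s => by
      rw [nn_E]
      exact hw2 _ ⟨s, rfl⟩)).2
  · obtain ⟨v, hv⟩ : ∃ v, nn u (((pp u) ^ a) v) ≠ 0 := by
      by_contra hcon
      push Not at hcon
      exact hN (LinearMap.ext hcon)
    obtain ⟨w, hw1, hw2⟩ := exists_w hA hB (not_mem_even u h hv)
    have hvne : v ≠ 0 := by
      rintro rfl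
      simp at hv
    have hb := block_even hu hA hB h (even_alt hu hA hB hc) hw1 (fun s => hw2 _ ⟨s, rfl⟩)
    exact hfin hvne hb.1 hb.2

/-- In odd characteristic the even case does not occur. -/
theorem even_impossible {u : V ≃ₗ[F] V} (hu : u ∈ IsomGroup B) (hA : B.IsAlt) (hB : B.Nondegenerate)
    (h2 : (2 : F) ≠ 0) {a : ℕ} (h : (pp u) ^ (a + 1) = 0) (hc : ∀ v, B (((pp u) ^ a) v) (u v) = 0) :
    nn u * (pp u) ^ a = 0 := by
  have hal := even_alt hu hA hB hc
  have hH := pp_isHyp hu hA
  apply LinearMap.ext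
  intro y
  apply hB.2
  intro x
  have hpol : B (nn u (((pp u) ^ a) x)) y + B (nn u (((pp u) ^ a) y)) x = 0 := by
    have e1 := hal (x + y)
    simp only [map_add, LinearMap.add_apply, hal x, hal y, zero_add, add_zero] at e1
    rw [add_comm]
    exact e1
  have hadj : B (nn u (((pp u) ^ a) x)) y = - B x (nn u (((pp u) ^ a) y)) := by
    rw [adj_nn hu, hH.pow_sa, nns_eq]
    have e2 : ((pp u) ^ a) ((pp u - nn u) y) = - nn u (((pp u) ^ a) y) := by
      have e3 : ((pp u) ^ a) (pp u y) = 0 := by
        have := LinearMap.congr_fun h y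
        rwa [pow_succ] at this
      have e4 : ((pp u) ^ a) (nn u y) = nn u (((pp u) ^ a) y) := by
        have := LinearMap.congr_fun ((commute_nn_pp u).pow_right a).eq y
        exact this.symm
      rw [LinearMap.sub_apply, map_sub, e3, e4, zero_sub]
    rw [e2, map_neg]
  rw [hadj, alt_swap hA (nn u (((pp u) ^ a) y)) x] at hpol
  have h3 : (2 : F) * B x (nn u (((pp u) ^ a) y)) = 0 := by
    linear_combination -hpol
  exact (mul_eq_zero.mp h3).resolve_left h2

end Unipotent

section Block

variable {F V : Type*} [Field F] [AddCommGroup V] [Module F V] {B : LinearMap.BilinForm F V}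
  [FiniteDimensional F V]

/-- The main block theorem. -/
theorem exists_block [Finite F] [Nontrivial V] (hA : B.IsAlt) (hB : B.Nondegenerate) {g : V ≃ₗ[F] V}
    (hg : g ∈ IsomGroup B) :
    ∃ W : Submodule F V, W ≠ ⊥ ∧ IsCompl W (B.orthogonal W) ∧ ∃ hst : ∀ x, x ∈ W ↔ g x ∈ W,
      W ≠ ⊤ ∨ IsA (B.restrict W) 1 (restrictEquiv g W hst) ∨
      ((2 : F) ≠ 0 ∧ IsA (B.restrict W) (-1) (restrictEquiv g W hst) ∧
        IsComm (B.restrict W) (restrictEquiv g W hst) ∧ Odd (Module.finrank F W / 2)) := by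
  classical
  set τ := tau g with hτ
  have hH := tau_isHyp hA hg
  have hint : IsIntegral F τ := Algebra.IsIntegral.isIntegral τ
  set h := minpoly F τ with hh
  have hh0 : h ≠ 0 := minpoly.ne_zero hint
  have hhu : ¬ IsUnit h := minpoly.not_isUnit F τ
  obtain ⟨p, hp, hdvd⟩ := WfDvdMonoid.exists_irreducible_factor hhu hh0
  have hfin : FiniteMultiplicity p h := FiniteMultiplicity.of_not_isUnit hp.not_isUnit hh0
  obtain ⟨h', hfac, hnd⟩ := hfin.exists_eq_pow_mul_and_not_dvd
  generalize multiplicity p h = j at hfac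
  have hp0 : p ≠ 0 := hp.ne_zero
  obtain ⟨a, rfl⟩ : ∃ a, j = a + 1 := by
    cases j with
    | zero =>
      exfalso
      apply hnd
      rw [pow_zero, one_mul] at hfac
      rwa [← hfac]
    | succ a => exact ⟨a, rfl⟩
  have h0 : aeval τ h = 0 := minpoly.aeval F τ
  have hdm : ∀ r : F[X], aeval τ r = 0 → h ∣ r := fun r hr => minpoly.dvd F τ hr
  by_cases hu' : IsUnit h'
  · -- primary case
    have hp1 : aeval τ (p ^ (a + 1)) = 0 := by
      obtain ⟨w, hw⟩ := hu'
      have e1 : p ^ (a + 1) = h * ↑w⁻¹ := by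
        rw [hfac, ← hw, mul_assoc, Units.mul_inv, mul_one]
      rw [e1, map_mul, h0, zero_mul]
    have hp2 : aeval τ (p ^ a) ≠ 0 := by
      intro h3
      have e1 := hdm _ h3
      rw [hfac] at e1
      have e2 : p ^ (a + 1) ∣ p ^ a := (Dvd.intro _ rfl).trans e1
      have := (pow_dvd_pow_iff hp0 hp.not_isUnit).mp e2
      omega
    by_cases hex : ∃ v s, B (aeval τ (p ^ a * s) v) (g v) ≠ 0
    · obtain ⟨v, s, hvs⟩ := hex
      obtain ⟨W, h1, h3, hst, h4⟩ := cyclic_block hA hg hp hp1 hvs
      exact ⟨W, h1, h3, hst, Or.inr (Or.inl h4)⟩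
    · push Not at hex
      have hc2 := case_two hA hg hB (r := p ^ a) (fun v => by
        have := hex v 1
        rwa [mul_one] at this)
      have hd := hdm _ hc2
      rw [hfac, pow_succ, mul_assoc] at hd
      have hd1 : p * h' ∣ X ^ 2 - 4 := (mul_dvd_mul_iff_left (pow_ne_zero _ hp0)).mp hd
      have hd2 : p ∣ X ^ 2 - 4 := (Dvd.intro _ rfl).trans hd1
      have hfactor : (X ^ 2 - 4 : F[X]) = (X - C 2) * (X + C 2) := by
        have e : (C (2 : F) : F[X]) = 2 := map_ofNat C 2
        rw [e]
        ring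
      rw [hfactor] at hd2
      have hmain : ∀ c : F, p ∣ X - C c → ∃ w : F[X], IsUnit w ∧ X - C c = p * w := by
        intro c hc
        have hass := hp.associated_of_dvd (irreducible_X_sub_C c) hc
        obtain ⟨w, hw⟩ := hass
        exact ⟨w, w.isUnit, hw.symm⟩
      have hkill : ∀ (w : F[X]), IsUnit w → ∀ b : ℕ, aeval τ (p ^ b * w ^ b) = 0 → aeval τ (p ^ b) = 0 := by
        intro w hw b h6
        obtain ⟨w', rfl⟩ := hw
        have e1 : p ^ b = p ^ b * (w' : F[X]) ^ b * ((↑w'⁻¹ : F[X]) ^ b) := by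
          rw [mul_assoc, ← mul_pow, Units.mul_inv, one_pow, mul_one]
        rw [e1, map_mul, h6, zero_mul]
      have hcaseA : p ∣ X - C 2 → ∃ W : Submodule F V, W ≠ ⊥ ∧ IsCompl W (B.orthogonal W) ∧
          ∃ hst : ∀ x, x ∈ W ↔ g x ∈ W, W ≠ ⊤ ∨ IsA (B.restrict W) 1 (restrictEquiv g W hst) ∨
          ((2 : F) ≠ 0 ∧ IsA (B.restrict W) (-1) (restrictEquiv g W hst) ∧
            IsComm (B.restrict W) (restrictEquiv g W hst) ∧ Odd (Module.finrank F W / 2)) := by
        intro hc
        obtain ⟨w, hw, hw2⟩ := hmain 2 hc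
        have hpp : pp g = aeval τ (X - C (2 : F) : F[X]) := by
          apply LinearMap.ext
          intro x
          simp [hτ]
        have h5 : ∀ b, (pp g) ^ b = aeval τ (p ^ b * w ^ b) := by
          intro b
          rw [hpp, ← map_pow, hw2, mul_pow]
        have hA1 : (pp g) ^ (a + 1) = 0 := by
          rw [h5, map_mul, hp1, zero_mul]
        have hA2 : (pp g) ^ a ≠ 0 := by
          intro h6
          rw [h5] at h6
          exact hp2 (hkill w hw a h6)
        have hc3 : ∀ v, B (((pp g) ^ a) v) (g v) = 0 := by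
          intro v
          rw [h5]
          exact hex v _
        obtain ⟨W, h1, h3, hst, h4⟩ := block_of_case_two hg hA hB hA1 hA2 hc3
        exact ⟨W, h1, h3, hst, Or.inr (Or.inl h4)⟩
      rcases hp.prime.dvd_or_dvd hd2 with hc | hc
      · exact hcaseA hc
      · by_cases h2 : (2 : F) = 0
        · apply hcaseA
          simpa [h2] using hc
        · have hc' : p ∣ X - C (-2) := by simpa using hc
          obtain ⟨w, hw, hw2⟩ := hmain (-2) hc'
          let u : V ≃ₗ[F] V := LinearEquiv.neg F * g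
          have hux : ∀ x, u x = - g x := fun x => rfl
          have huy : ∀ x, u.symm x = - g.symm x := by
            intro x
            rw [LinearEquiv.symm_apply_eq, hux, map_neg, neg_neg, g.apply_symm_apply]
          have huI : u ∈ IsomGroup B := by
            intro x y
            simp only [hux, map_neg, LinearMap.neg_apply, neg_neg]
            exact hg x y
          have hpp : pp u = - aeval τ (X - C (-2 : F) : F[X]) := by
            apply LinearMap.ext
            intro x
            simp only [pp_apply, hux, huy, map_sub, aeval_X, aeval_C, LinearMap.neg_apply,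
              LinearMap.sub_apply, Module.algebraMap_end_apply, hτ, tau_apply]
            module
          have h5 : ∀ b, (pp u) ^ b = (-1) ^ b * aeval τ (p ^ b * w ^ b) := by
            intro b
            rw [hpp, neg_pow, ← map_pow, hw2, mul_pow]
          have hA1 : (pp u) ^ (a + 1) = 0 := by
            rw [h5, map_mul, hp1, zero_mul, mul_zero]
          have hA2 : (pp u) ^ a ≠ 0 := by
            intro h6
            rw [h5] at h6
            rcases neg_one_pow_eq_or (Module.End F V) a with e | e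
            · rw [e, one_mul] at h6
              exact hp2 (hkill w hw a h6)
            · rw [e, neg_one_mul, neg_eq_zero] at h6
              exact hp2 (hkill w hw a h6)
          have hc3 : ∀ v, B (((pp u) ^ a) v) (u v) = 0 := by
            intro v
            rw [h5, hux]
            rcases neg_one_pow_eq_or (Module.End F V) a with e | e
            · rw [e, one_mul, map_neg, hex v _, neg_zero]
            · have hz := hex v (w ^ a)
              rw [e, neg_one_mul]
              simp only [LinearMap.neg_apply, map_neg, hz, neg_zero]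
          obtain ⟨W, h1, h3, hst, h4, h6, h7⟩ := neg_block huI hA hB h2 hA1
            (even_impossible huI hA hB h2 hA1 hc3) hA2 hc3 (g := g) (fun x => by rw [hux, neg_neg])
          exact ⟨W, h1, h3, hst, Or.inr (Or.inr ⟨h2, h4, h6, h7⟩)⟩
  · -- splitting
    have hcop : IsCoprime (p ^ (a + 1)) h' := ((hp.coprime_iff_not_dvd).mpr hnd).pow_left
    obtain ⟨x₁, x₂, hxy⟩ := hcop
    set r₁ := p ^ (a + 1) with hr₁
    have hmul : ∀ (r s : F[X]) (x : V), aeval τ (r * s) x = aeval τ r (aeval τ s x) := by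
      intro r s x
      rw [map_mul]
      rfl
    have hone : ∀ y, aeval τ (x₁ * r₁) y + aeval τ (x₂ * h') y = y := by
      intro y
      have : aeval τ (x₁ * r₁ + x₂ * h') y = y := by
        rw [hxy]
        simp
      rw [map_add] at this
      exact this
    have hh0' : ∀ y, aeval τ r₁ (aeval τ h' y) = 0 := by
      intro y
      rw [← hmul, ← hfac, h0]
      rfl
    have hh0'' : ∀ y, aeval τ h' (aeval τ r₁ y) = 0 := by
      intro y
      rw [← hmul, mul_comm, ← hfac, h0]
      rfl
    set W₁ := LinearMap.ker (aeval τ r₁) with hW₁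
    have hW₁m : ∀ x, x ∈ W₁ ↔ aeval τ r₁ x = 0 := fun x => LinearMap.mem_ker
    have horth : ∀ x ∈ W₁, ∀ y, aeval τ h' y = 0 → B x y = 0 := by
      intro x hx y hy
      have e1 := hone y
      rw [hmul x₂, hy, map_zero, add_zero] at e1
      rw [← e1, ← hH.aeval_sa, hmul, (hW₁m x).mp hx, map_zero]
      simp
    have hnd' : ∀ x ∈ W₁, (∀ y ∈ W₁, B x y = 0) → x = 0 := by
      intro x hx hy
      apply hB.1
      intro y
      rw [← hone y, map_add, hmul x₂, hmul x₁]
      have hz1 : ∀ y, aeval τ (r₁ * h') y = 0 := by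
        intro y
        rw [← hfac, h0]
        rfl
      have e1 : B x (aeval τ x₁ (aeval τ r₁ y)) = 0 := by
        apply horth x hx
        rw [← hmul, ← hmul, show h' * x₁ * r₁ = x₁ * (r₁ * h') by ring, hmul, hz1, map_zero]
      have e2 : B x (aeval τ x₂ (aeval τ h' y)) = 0 := by
        apply hy
        rw [hW₁m, ← hmul, ← hmul, show r₁ * x₂ * h' = x₂ * (r₁ * h') by ring, hmul, hz1, map_zero]
      rw [e1, e2, add_zero]
    have hc := isCompl_of_disj hA.isRefl hnd'
    have hbot : W₁ ≠ ⊥ := by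
      intro h5
      have h6 : aeval τ h' = 0 := by
        apply LinearMap.ext
        intro y
        have : aeval τ h' y ∈ W₁ := (hW₁m _).mpr (hh0' y)
        rw [h5, Submodule.mem_bot] at this
        exact this
      exact hnd (hdvd.trans (hdm _ h6))
    have htop : W₁ ≠ ⊤ := by
      intro h5
      have h6 : aeval τ r₁ = 0 := LinearMap.ker_eq_top.mp h5
      have h7 := hdm _ h6
      rw [hfac] at h7
      have hr0 : r₁ ≠ 0 := pow_ne_zero _ hp0
      have h8 : r₁ * h' ∣ r₁ * 1 := by rwa [mul_one]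
      exact hu' (isUnit_of_dvd_one ((mul_dvd_mul_iff_left hr0).mp h8))
    have hstab : ∀ x ∈ W₁, g x ∈ W₁ := by
      intro x hx
      rw [hW₁m] at hx ⊢
      have e : g (aeval τ r₁ x) = aeval τ r₁ (g x) :=
        LinearMap.congr_fun (commute_aeval (commute_tau g) r₁).eq x
      rw [← e, hx, map_zero]
    exact ⟨W₁, hbot, hc, stable_iff hstab, Or.inl htop⟩

end Block

section Induct

universe w v

/-- The induction principle along the block decomposition. -/
theorem induct {F : Type w} [Field F] [Finite F]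
    (P : ∀ (V : Type v) [AddCommGroup V] [Module F V], LinearMap.BilinForm F V → (V ≃ₗ[F] V) → Prop)
    (hcongr : ∀ {V V' : Type v} [AddCommGroup V] [Module F V] [AddCommGroup V'] [Module F V']
      {B : LinearMap.BilinForm F V} {B' : LinearMap.BilinForm F V'} {g : V ≃ₗ[F] V} {g' : V' ≃ₗ[F] V'}
      (e : V ≃ₗ[F] V'), (∀ x y, B' (e x) (e y) = B x y) → (∀ x, e (g x) = g' (e x)) → P V' B' g' → P V B g)
    (hprod : ∀ {V₁ V₂ : Type v} [AddCommGroup V₁] [Module F V₁] [FiniteDimensional F V₁] [Nontrivial V₁]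
      [AddCommGroup V₂] [Module F V₂] [FiniteDimensional F V₂] [Nontrivial V₂]
      {B₁ : LinearMap.BilinForm F V₁} {B₂ : LinearMap.BilinForm F V₂} {g₁ : V₁ ≃ₗ[F] V₁} {g₂ : V₂ ≃ₗ[F] V₂},
      B₁.IsAlt → B₁.Nondegenerate → g₁ ∈ IsomGroup B₁ → B₂.IsAlt → B₂.Nondegenerate → g₂ ∈ IsomGroup B₂ →
      P V₁ B₁ g₁ → P V₂ B₂ g₂ → P (V₁ × V₂) (prodForm B₁ B₂) (g₁.prodCongr g₂))
    (hA : ∀ {V : Type v} [AddCommGroup V] [Module F V] [FiniteDimensional F V] [Nontrivial V]
      {B : LinearMap.BilinForm F V} {g : V ≃ₗ[F] V}, B.IsAlt → B.Nondegenerate → g ∈ IsomGroup B →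
      IsA B 1 g → P V B g)
    (hN : ∀ {V : Type v} [AddCommGroup V] [Module F V] [FiniteDimensional F V] [Nontrivial V]
      {B : LinearMap.BilinForm F V} {g : V ≃ₗ[F] V}, B.IsAlt → B.Nondegenerate → g ∈ IsomGroup B →
      (2 : F) ≠ 0 → IsA B (-1) g → IsComm B g → Odd (Module.finrank F V / 2) → P V B g)
    (V : Type v) [AddCommGroup V] [Module F V] [FiniteDimensional F V] [Nontrivial V]
    (B : LinearMap.BilinForm F V) (g : V ≃ₗ[F] V) (hAl : B.IsAlt) (hBn : B.Nondegenerate)
    (hg : g ∈ IsomGroup B) : P V B g := by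
  have key : ∀ n : ℕ, ∀ (V : Type v) [AddCommGroup V] [Module F V] [FiniteDimensional F V] [Nontrivial V]
      (B : LinearMap.BilinForm F V) (g : V ≃ₗ[F] V), B.IsAlt → B.Nondegenerate → g ∈ IsomGroup B →
      Module.finrank F V = n → P V B g := by
    intro n
    induction n using Nat.strong_induction_on with
    | _ n ih =>
      intro V _ _ _ _ B g hAl hBn hg hn
      obtain ⟨W, hbot, hc, hst, hcase⟩ := exists_block hAl hBn hg
      by_cases htop : W = ⊤
      · subst htop
        let e₀ : V ≃ₗ[F] (⊤ : Submodule F V) := Submodule.topEquiv.symm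
        have he1 : ∀ x y, (B.restrict (⊤ : Submodule F V)) (e₀ x) (e₀ y) = B x y := fun _ _ => rfl
        have he2 : ∀ x, e₀ (g x) = restrictEquiv g ⊤ hst (e₀ x) := fun _ => rfl
        rcases hcase with h | h | ⟨h2, h3, h4, h5⟩
        · exact absurd rfl h
        · exact hA hAl hBn hg (IsA.congr e₀ he1 he2 h)
        · refine hN hAl hBn hg h2 (IsA.congr e₀ he1 he2 h3) (IsComm.congr e₀ he1 he2 h4) ?_
          rwa [finrank_top] at h5
      · have hr := hAl.isRefl
        have hst' : ∀ x, x ∈ B.orthogonal W ↔ g x ∈ B.orthogonal W := by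
          intro x
          simp only [LinearMap.BilinForm.mem_orthogonal_iff, LinearMap.BilinForm.isOrtho_def]
          constructor
          · intro h y hy
            have e1 := hg (g.symm y) x
            rw [g.apply_symm_apply] at e1
            rw [e1]
            exact h _ ((hst _).mpr (by simpa using hy))
          · intro h y hy
            rw [← hg y x]
            exact h _ ((hst y).mp hy)
        obtain ⟨e, he1, he2⟩ := split_equiv hr hc
        have hdim1 : Module.finrank F W < n := hn ▸ Submodule.finrank_lt htop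
        have hortop : B.orthogonal W ≠ ⊤ := by
          intro h
          rw [h] at hc
          exact hbot (disjoint_top.mp hc.disjoint)
        have horbot : B.orthogonal W ≠ ⊥ := by
          intro h
          rw [h] at hc
          apply htop
          have := hc.sup_eq_top
          rwa [sup_bot_eq] at this
        have hdim2 : Module.finrank F (B.orthogonal W) < n := hn ▸ Submodule.finrank_lt hortop
        haveI : Nontrivial W := (Submodule.nontrivial_iff_ne_bot).mpr hbot
        haveI : Nontrivial (B.orthogonal W) := (Submodule.nontrivial_iff_ne_bot).mpr horbot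
        have hal1 := Cfsg.Agent.Lib.Classical.Symp.Hyperbolic.restrict_isAlt hAl W
        have hal2 := Cfsg.Agent.Lib.Classical.Symp.Hyperbolic.restrict_isAlt hAl (B.orthogonal W)
        have hn1 := restrict_nondeg_left hr hc
        have hn2 := restrict_nondeg_right hr hBn hc
        have hg1 : restrictEquiv g W hst ∈ IsomGroup (B.restrict W) := fun x y => hg x y
        have hg2 : restrictEquiv g (B.orthogonal W) hst' ∈ IsomGroup (B.restrict (B.orthogonal W)) :=
          fun x y => hg x y
        have P1 := ih _ hdim1 W (B.restrict W) (restrictEquiv g W hst) hal1 hn1 hg1 rfl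
        have P2 := ih _ hdim2 (B.orthogonal W) (B.restrict (B.orthogonal W)) (restrictEquiv g _ hst') hal2 hn2 hg2 rfl
        exact hcongr e he1 (he2 g hst hst') (hprod hal1 hn1 hg1 hal2 hn2 hg2 P1 P2)
  exact key _ V B g hAl hBn hg rfl

end Induct

end Cfsg.Agent.Lib.Classical.Ore.Decomp
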