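import Mathlib

/-!
# A table of commutators in `Sp₄(3)`

Every `g₀ × (-1)`, `g₀ ∈ SL₂(3)`, is a commutator in `Sp₄(3)`: explicit witnesses checked by the kernel.
-/

set_option autoImplicit false

namespace Cfsg.Agent.Lib.Classical.Ore.Table

open Matrix

/-- The index type of `4 × 4` matrices. -/
abbrev Ix := Fin 2 ⊕ Fin 2

/-- The matrix of `g₀ × (-1)`. -/
def big {R : Type*} [CommRing R] (a b c d : R) : Matrix Ix Ix R :=
  fromBlocks !![a, 0; 0, -1] !![b, 0; 0, 0] !![c, 0; 0, 0] !![d, 0; 0, -1]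

/-- Position of an index. -/
def idx : Ix → ℕ
  | .inl i => i.val
  | .inr i => 2 + i.val

/-- Decode a matrix from its base-3 digits. -/
def dec (n : ℕ) : Matrix Ix Ix (ZMod 3) :=
  Matrix.of fun i j => ((n / 3 ^ (4 * idx i + idx j) % 3 : ℕ) : ZMod 3)

/-- The key of a matrix in `SL₂(3)`. -/
def key (a b c d : ZMod 3) : ℕ := 27 * a.val + 9 * b.val + 3 * c.val + d.val

/-- The witnesses. -/
def wit : ℕ → ℕ × ℕ
  | 15 => (5354700, 1260606)
  | 16 => (5600434, 40297547)
  | 17 => (12604928, 13707636)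
  | 21 => (16203724, 16640150)
  | 22 => (34109768, 23010933)
  | 23 => (35984103, 1462190)
  | 28 => (22413793, 15410912)
  | 31 => (19537461, 4250681)
  | 34 => (31083771, 28354607)
  | 37 => (11139636, 5777848)
  | 41 => (10846122, 18384296)
  | 42 => (13060539, 40185970)
  | 46 => (27167470, 25572361)
  | 48 => (18049184, 11641364)
  | 53 => (35291761, 19956237)
  | 56 => (19652657, 39749864)
  | 59 => (40732995, 3264809)
  | 62 => (32417424, 29687528)
  | 65 => (42083763, 35675425)
  | 67 => (41191683, 30366758)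
  | 69 => (31604978, 41501873)
  | 74 => (13838177, 40281885)
  | 75 => (20832015, 13727363)
  | 79 => (32654701, 15706847)
  | _ => (0, 0)

/-- The witnesses are correct. -/
theorem table_ok : ∀ a b c d : ZMod 3, a * d - b * c = 1 →
    (dec (wit (key a b c d)).1 * J (Fin 2) (ZMod 3) * (dec (wit (key a b c d)).1)ᵀ = J (Fin 2) (ZMod 3) ∧
     dec (wit (key a b c d)).2 * J (Fin 2) (ZMod 3) * (dec (wit (key a b c d)).2)ᵀ = J (Fin 2) (ZMod 3) ∧
     big a b c d * J (Fin 2) (ZMod 3) * (big a b c d)ᵀ = J (Fin 2) (ZMod 3) ∧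
     big a b c d * dec (wit (key a b c d)).2 * dec (wit (key a b c d)).1 =
       dec (wit (key a b c d)).1 * dec (wit (key a b c d)).2) := by
  decide +kernel

end Cfsg.Agent.Lib.Classical.Ore.Table
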