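import Mathlib
import Cfsg.Agent.Lib.Classical.Ore.Decomp
import Cfsg.Agent.Lib.Classical.Ore.Table
import Cfsg.Agent.Lib.Classical.Symp.DecompMax

/-!
# Commutators from `IsA`; planes; rearrangements
-/

set_option autoImplicit false

namespace Cfsg.Agent.Lib.Classical.Ore.Comm

open Polynomial Cfsg.Agent.Lib.Classical.Symp.AltForm Cfsg.Agent.Lib.Classical.Symp.SympBasis
open Cfsg.Agent.Lib.Classical.Symp.Basic
open Cfsg.Agent.Lib.Classical.Ore.Lagr Cfsg.Agent.Lib.Classical.Ore.Sum
open Cfsg.Agent.Lib.Classical.Ore.Cyc Cfsg.Agent.Lib.Classical.Ore.Unip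
open Cfsg.Agent.Lib.Classical.Ore.NegBlock Cfsg.Agent.Lib.Classical.Ore.Primitive

section General

variable {F V : Type*} [Field F] [AddCommGroup V] [Module F V] {B : LinearMap.BilinForm F V}
  [FiniteDimensional F V]

theorem isComm_of_isA_one [Fintype F] (hA : B.IsAlt) (hB : B.Nondegenerate) {g : V ≃ₗ[F] V}
    (hg : g ∈ IsomGroup B) {m : ℕ} (hdim : Module.finrank F V = 2 * m) (hm : 1 ≤ m)
    (hq : 5 ≤ Fintype.card F ^ m ∨ (m = 1 ∧ 4 ≤ Fintype.card F)) (h : IsA B 1 g) : IsComm B g := by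
  obtain ⟨θ, hθ⟩ := exists_noInv hm hq
  obtain ⟨Λ, Λ', hs, hi, hi', hgl⟩ := h
  exact comm_of_lagr hA hB hs hi hi' hdim θ 1 hθ one_ne_zero (by simp) hg hgl

theorem isComm_of_isA_neg [Fintype F] (hA : B.IsAlt) (hB : B.Nondegenerate) {g : V ≃ₗ[F] V}
    (hg : g ∈ IsomGroup B) {n : ℕ} (hdim : Module.finrank F V = 2 * (2 * n)) (hn : 1 ≤ n)
    (hq : 5 ≤ Fintype.card F ^ n ∨ (n = 1 ∧ 4 ≤ Fintype.card F)) (h : IsA B (-1) g) : IsComm B g := by
  obtain ⟨D, P, hD, hP⟩ := exists_noInv_neg hn hq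
  obtain ⟨Λ, Λ', hs, hi, hi', hgl⟩ := h
  refine comm_of_lagr hA hB hs hi hi' hdim D P hD (neg_ne_zero.mpr one_ne_zero) ?_ hg hgl
  rw [hP]
  simp

/-- A line is isotropic. -/
theorem line_isotropic (hA : B.IsAlt) (e : V) : ∀ x ∈ Submodule.span F {e}, ∀ y ∈ Submodule.span F {e}, B x y = 0 := by
  intro x hx y hy
  obtain ⟨a, rfl⟩ := Submodule.mem_span_singleton.mp hx
  obtain ⟨b, rfl⟩ := Submodule.mem_span_singleton.mp hy
  simp [hA e]

/-- The plane lemma: `g ≠ -1` has a Lagrangian pair with `(g - 1) Λ ⊆ Λ'`. -/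
theorem plane_isA (hA : B.IsAlt) (hB : B.Nondegenerate) (hdim : Module.finrank F V = 2) {g : V ≃ₗ[F] V}
    (hg : g ∈ IsomGroup B) (hne : g ≠ LinearEquiv.neg F) : IsA B 1 g := by
  by_cases hind : ∃ e, LinearIndependent F ![e, (g : V →ₗ[F] V) e]
  · obtain ⟨e, he⟩ := hind
    refine ⟨Submodule.span F {e}, Submodule.span F {g e - e}, ?_, line_isotropic hA _, line_isotropic hA _, ?_⟩
    · have h1 : Submodule.span F (Set.range ![e, (g : V →ₗ[F] V) e]) = ⊤ := by
        apply Submodule.eq_top_of_finrank_eq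
        rw [finrank_span_eq_card he, hdim]
        simp
      rw [eq_top_iff, ← h1, Submodule.span_le]
      rintro _ ⟨i, rfl⟩
      fin_cases i
      · exact Submodule.mem_sup_left (Submodule.mem_span_singleton_self _)
      · have e1 : (g : V →ₗ[F] V) e = e + (g e - e) := by simp
        change (g : V →ₗ[F] V) e ∈ _
        rw [e1]
        exact Submodule.add_mem_sup (Submodule.mem_span_singleton_self _) (Submodule.mem_span_singleton_self _)
    · intro x hx
      obtain ⟨a, rfl⟩ := Submodule.mem_span_singleton.mp hx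
      have e1 : g (a • e) - (1 : F) • (a • e) = a • (g e - e) := by
        simp [smul_sub]
      rw [e1]
      exact Submodule.smul_mem _ _ (Submodule.mem_span_singleton_self _)
  · push Not at hind
    obtain ⟨c, hc⟩ := LinearMap.exists_eq_smul_id_of_forall_notLinearIndependent hind
    have hcx : ∀ x, g x = c • x := by
      intro x
      have := LinearMap.congr_fun hc x
      simpa using this
    haveI : Nontrivial V := Module.nontrivial_of_finrank_pos (R := F) (by omega)
    have hc2 : c * c = 1 := by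
      obtain ⟨x, hx⟩ := exists_ne (0 : V)
      obtain ⟨y, hy⟩ : ∃ y, B x y ≠ 0 := by
        by_contra hcon
        push Not at hcon
        exact hx (hB.1 x hcon)
      have e1 := hg x y
      rw [hcx, hcx] at e1
      simp only [map_smul, LinearMap.smul_apply, smul_eq_mul] at e1
      have e2 : (c * c - 1) * B x y = 0 := by linear_combination e1
      have := (mul_eq_zero.mp e2).resolve_right hy
      exact sub_eq_zero.mp this
    have hc3 : (c - 1) * (c + 1) = 0 := by linear_combination hc2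
    rcases mul_eq_zero.mp hc3 with h1 | h1
    · -- `g = 1`
      have hc1 : c = 1 := sub_eq_zero.mp h1
      let b := Module.finBasisOfFinrankEq F V hdim
      refine ⟨Submodule.span F {b 0}, Submodule.span F {b 1}, ?_, line_isotropic hA _, line_isotropic hA _, ?_⟩
      · rw [eq_top_iff, ← b.span_eq, Submodule.span_le]
        rintro _ ⟨i, rfl⟩
        fin_cases i
        · exact Submodule.mem_sup_left (Submodule.mem_span_singleton_self _)
        · exact Submodule.mem_sup_right (Submodule.mem_span_singleton_self _)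
      · intro x _
        rw [hcx, hc1, sub_self]
        exact Submodule.zero_mem _
    · exfalso
      apply hne
      have hc1 : c = -1 := eq_neg_of_add_eq_zero_left h1
      ext x
      rw [hcx, hc1]
      simp

/-- `-1` on a plane is a commutator, in odd characteristic. -/
theorem plane_neg [Finite F] (hA : B.IsAlt) (hB : B.Nondegenerate) (hdim : Module.finrank F V = 2)
    (h2 : (2 : F) ≠ 0) : IsComm B (LinearEquiv.neg F : V ≃ₗ[F] V) := by
  haveI : Nontrivial V := Module.nontrivial_of_finrank_pos (R := F) (by omega)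
  have hpp : pp (1 : V ≃ₗ[F] V) = 0 := by
    apply LinearMap.ext
    intro x
    change (x + x - (2 : F) • x) = (0 : V)
    rw [two_smul, sub_self]
  have hnn : nn (1 : V ≃ₗ[F] V) = 0 := by
    apply LinearMap.ext
    intro x
    simp
  obtain ⟨W, h1, h3, hst, h4, h5, h6⟩ := neg_block (u := (1 : V ≃ₗ[F] V)) (B := B) (a := 0) (fun x y => rfl) hA hB h2
    (by rw [zero_add, pow_one, hpp]) (by rw [hnn, zero_mul]) (by simp)
    (by
      intro v
      simp [hA v]) (g := LinearEquiv.neg F) (fun x => rfl)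
  have hW : W = ⊤ := by
    apply Submodule.eq_top_of_finrank_eq
    have := Submodule.finrank_le W
    rw [hdim] at this ⊢
    obtain ⟨k, hk⟩ := h6
    omega
  subst hW
  exact IsComm.congr (Submodule.topEquiv.symm) (fun _ _ => rfl) (fun _ => rfl) h5

end General

section Rearrange

variable {F V₁ V₂ V₃ : Type*} [Field F] [AddCommGroup V₁] [Module F V₁] [AddCommGroup V₂] [Module F V₂]
  [AddCommGroup V₃] [Module F V₃] {B₁ : LinearMap.BilinForm F V₁} {B₂ : LinearMap.BilinForm F V₂}
  {B₃ : LinearMap.BilinForm F V₃} {g₁ : V₁ ≃ₗ[F] V₁} {g₂ : V₂ ≃ₗ[F] V₂} {g₃ : V₃ ≃ₗ[F] V₃}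

theorem IsComm.swap (h : IsComm (prodForm B₁ B₂) (g₁.prodCongr g₂)) :
    IsComm (prodForm B₂ B₁) (g₂.prodCongr g₁) :=
  IsComm.congr (LinearEquiv.prodComm F V₂ V₁) (fun x y => by simp [add_comm]) (fun _ => rfl) h

theorem IsComm.assoc (h : IsComm (prodForm (prodForm B₁ B₂) B₃) ((g₁.prodCongr g₂).prodCongr g₃)) :
    IsComm (prodForm B₁ (prodForm B₂ B₃)) (g₁.prodCongr (g₂.prodCongr g₃)) :=
  IsComm.congr (LinearEquiv.prodAssoc F V₁ V₂ V₃).symm (fun x y => by
    change (B₁ x.1 y.1 + B₂ x.2.1 y.2.1) + B₃ x.2.2 y.2.2 = B₁ x.1 y.1 + (B₂ x.2.1 y.2.1 + B₃ x.2.2 y.2.2)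
    rw [add_assoc]) (fun _ => rfl) h

/-- Transport in the second factor. -/
theorem IsComm.congr_right {V₂' : Type*} [AddCommGroup V₂'] [Module F V₂'] {B₂' : LinearMap.BilinForm F V₂'}
    {g₂' : V₂' ≃ₗ[F] V₂'} (e : V₂ ≃ₗ[F] V₂') (he : ∀ x y, B₂' (e x) (e y) = B₂ x y) (hg : ∀ x, e (g₂ x) = g₂' (e x))
    (h : IsComm (prodForm B₁ B₂') (g₁.prodCongr g₂')) : IsComm (prodForm B₁ B₂) (g₁.prodCongr g₂) :=
  IsComm.congr ((LinearEquiv.refl F V₁).prodCongr e) (fun x y => by simp [he])
    (fun x => by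
      apply Prod.ext
      · rfl
      · exact hg x.2) h

end Rearrange

end Cfsg.Agent.Lib.Classical.Ore.Comm
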