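import Mathlib
import Cfsg.Agent.Lib.Classical.Ore.Comm

/-!
# The prime field of three elements

For `q = 3` the plane `Sp₂(3)` has non-commutators, but everything of dimension `≥ 4` is fine: the
induction carries the property `QQ`: after adding an extra plane with an arbitrary isometry we get a
commutator.
-/

set_option autoImplicit false

namespace Cfsg.Agent.Lib.Classical.Ore.Three

open Matrix Cfsg.Agent.Lib.Classical.Symp.AltForm Cfsg.Agent.Lib.Classical.Symp.SympBasis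
open Cfsg.Agent.Lib.Classical.Symp.Basic
open Cfsg.Agent.Lib.Classical.Ore.Lagr Cfsg.Agent.Lib.Classical.Ore.Sum
open Cfsg.Agent.Lib.Classical.Ore.Comm Cfsg.Agent.Lib.Classical.Ore.Table

/-- The standard plane. -/
abbrev Pl (F : Type*) [Field F] := Fin 1 ⊕ Fin 1 → F

/-- The form on the standard plane. -/
noncomputable abbrev P0 (F : Type*) [Field F] : LinearMap.BilinForm F (Pl F) := sympBilin 1 F

section Table

variable {F : Type*} [Field F]

/-- Coordinates on the sum of two planes. -/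
noncomputable def coord (F : Type*) [Field F] : (Pl F × Pl F) ≃ₗ[F] (Fin 2 ⊕ Fin 2 → F) where
  toFun z := Sum.elim ![z.1 (.inl 0), z.2 (.inl 0)] ![z.1 (.inr 0), z.2 (.inr 0)]
  map_add' x y := by
    ext i
    rcases i with i | i <;> fin_cases i <;> simp
  map_smul' c x := by
    ext i
    rcases i with i | i <;> fin_cases i <;> simp
  invFun u := (Sum.elim (fun _ => u (.inl 0)) (fun _ => u (.inr 0)), Sum.elim (fun _ => u (.inl 1)) (fun _ => u (.inr 1)))
  left_inv z := by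
    apply Prod.ext <;> ext i <;> rcases i with i | i <;> fin_cases i <;> simp
  right_inv u := by
    ext i
    rcases i with i | i <;> fin_cases i <;> simp

theorem coord_form (x y : Pl F × Pl F) :
    sympBilin 2 F (coord F x) (coord F y) = prodForm (P0 F) (P0 F) x y := by
  simp [sympForm_apply, coord, Fin.sum_univ_two]
  ring

theorem J_map {R S : Type*} [CommRing R] [CommRing S] (φ : R →+* S) :
    (J (Fin 2) R).map φ = J (Fin 2) S := by
  ext i j
  rcases i with i | i <;> rcases j with j | j <;> fin_cases i <;> fin_cases j <;> simp [J]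

theorem big_map {R S : Type*} [CommRing R] [CommRing S] (φ : R →+* S) (a b c d : R) :
    (big a b c d).map φ = big (φ a) (φ b) (φ c) (φ d) := by
  ext i j
  rcases i with i | i <;> rcases j with j | j <;> fin_cases i <;> fin_cases j <;> simp [big]

/-- The element of `Sp₄(F)` is a commutator. -/
theorem big_comm [Fintype F] (hq : Fintype.card F = 3) {a b c d : F} (hdet : a * d - b * c = 1) :
    ∃ (hA : big a b c d ∈ symplecticGroup (Fin 2) F) (X Y : symplecticGroup (Fin 2) F),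
      (⟨big a b c d, hA⟩ : symplecticGroup (Fin 2) F) = X * Y * X⁻¹ * Y⁻¹ := by
  have h3 : (3 : F) = 0 := by
    have := FiniteField.cast_card_eq_zero F
    rw [hq] at this
    exact_mod_cast this
  obtain ⟨p, hp⟩ := CharP.exists F
  have hpp : p.Prime := CharP.char_is_prime F p
  have hd : p ∣ 3 := (CharP.cast_eq_zero_iff F p 3).mp (by exact_mod_cast h3)
  have hp3 : p = 3 := (Nat.prime_dvd_prime_iff_eq hpp (by norm_num)).mp hd
  subst hp3
  let φ : ZMod 3 →+* F := ZMod.castHom (dvd_refl 3) F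
  have hinj : Function.Injective φ := φ.injective
  have hbij : Function.Bijective φ := by
    rw [Fintype.bijective_iff_injective_and_card]
    refine ⟨hinj, ?_⟩
    rw [hq, ZMod.card]
  obtain ⟨a', rfl⟩ := hbij.2 a
  obtain ⟨b', rfl⟩ := hbij.2 b
  obtain ⟨c', rfl⟩ := hbij.2 c
  obtain ⟨d', rfl⟩ := hbij.2 d
  have hdet' : a' * d' - b' * c' = 1 := by
    apply hinj
    simpa using hdet
  obtain ⟨h1, h2, h4, h5⟩ := table_ok a' b' c' d' hdet'
  set x := dec (wit (key a' b' c' d')).1 with hx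
  set y := dec (wit (key a' b' c' d')).2 with hy
  have hmap : ∀ M : Matrix Ix Ix (ZMod 3), M * J (Fin 2) (ZMod 3) * Mᵀ = J (Fin 2) (ZMod 3) →
      M.map φ ∈ symplecticGroup (Fin 2) F := by
    intro M hM
    rw [SymplecticGroup.mem_iff]
    have := congrArg (fun N => N.map φ) hM
    simp only [Matrix.map_mul, J_map, transpose_map] at this
    exact this
  have hA := hmap _ h4
  rw [big_map] at hA
  refine ⟨hA, ⟨x.map φ, hmap _ h1⟩, ⟨y.map φ, hmap _ h2⟩, ?_⟩
  have hc : (⟨big (φ a') (φ b') (φ c') (φ d'), hA⟩ : symplecticGroup (Fin 2) F) * ⟨y.map φ, hmap _ h2⟩ * ⟨x.map φ, hmap _ h1⟩ =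
      ⟨x.map φ, hmap _ h1⟩ * ⟨y.map φ, hmap _ h2⟩ := by
    apply Subtype.ext
    have := congrArg (fun N => N.map φ) h5
    simp only [Matrix.map_mul, big_map] at this
    exact this
  rw [eq_mul_inv_iff_mul_eq, eq_mul_inv_iff_mul_eq]
  exact hc

/-- The table, at the level of forms. -/
theorem table_F [Fintype F] (hq : Fintype.card F = 3) {g₀ : Pl F ≃ₗ[F] Pl F} (hg₀ : g₀ ∈ IsomGroup (P0 F)) :
    IsComm (prodForm (P0 F) (P0 F)) (g₀.prodCongr (LinearEquiv.neg F)) := by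
  let A₀ := spEquivIsom.symm (⟨g₀, hg₀⟩ : IsomGroup (sympBilin 1 F))
  have hA₀ : ∀ x, g₀ x = (A₀ : Matrix (Fin 1 ⊕ Fin 1) (Fin 1 ⊕ Fin 1) F) *ᵥ x := by
    intro x
    rw [← spEquivIsom_apply, MulEquiv.apply_symm_apply]
  set a := (A₀ : Matrix (Fin 1 ⊕ Fin 1) (Fin 1 ⊕ Fin 1) F) (.inl 0) (.inl 0) with ha
  set b := (A₀ : Matrix (Fin 1 ⊕ Fin 1) (Fin 1 ⊕ Fin 1) F) (.inl 0) (.inr 0) with hb
  set c := (A₀ : Matrix (Fin 1 ⊕ Fin 1) (Fin 1 ⊕ Fin 1) F) (.inr 0) (.inl 0) with hc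
  set d := (A₀ : Matrix (Fin 1 ⊕ Fin 1) (Fin 1 ⊕ Fin 1) F) (.inr 0) (.inr 0) with hd
  have hdet : a * d - b * c = 1 := by
    have e1 := congrFun (congrFun (SymplecticGroup.mem_iff.mp A₀.2) (.inr 0)) (.inl 0)
    simp [Matrix.mul_apply, Fintype.sum_sum_type, J] at e1
    linear_combination e1
  obtain ⟨hA, X, Y, hXY⟩ := big_comm hq hdet
  have hcomm := isComm_of_equiv (spEquivIsom (m := 2) (F := F)) ⟨X, Y, hXY⟩
  refine IsComm.congr (coord F) coord_form (fun x => ?_) hcomm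
  rw [spEquivIsom_apply]
  ext i
  rcases i with i | i <;> fin_cases i <;>
    simp [coord, big, hA₀, Matrix.mulVec, dotProduct, Fintype.sum_sum_type, Fin.sum_univ_two, ← ha, ← hb, ← hc, ← hd]

end Table

section Q

universe v

variable {F : Type*} [Field F] [Fintype F]

theorem two_ne_zero_of_card (hq : Fintype.card F = 3) : (2 : F) ≠ 0 := by
  intro h2
  have h3 : (3 : F) = 0 := by
    have := FiniteField.cast_card_eq_zero F
    rw [hq] at this
    exact_mod_cast this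
  have : (1 : F) = 0 := by linear_combination h3 - h2
  exact one_ne_zero this

theorem finrank_Pl : Module.finrank F (Pl F) = 2 := by
  simp [Module.finrank_fintype_fun_eq_card]

/-- Two planes. -/
theorem comm2 (hq : Fintype.card F = 3) {g₀ g₁ : Pl F ≃ₗ[F] Pl F} (h₀ : g₀ ∈ IsomGroup (P0 F))
    (h₁ : g₁ ∈ IsomGroup (P0 F)) : IsComm (prodForm (P0 F) (P0 F)) (g₀.prodCongr g₁) := by
  by_cases hg₁ : g₁ = LinearEquiv.neg F
  · rw [hg₁]
    exact table_F hq h₀
  by_cases hg₀ : g₀ = LinearEquiv.neg F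
  · rw [hg₀]
    exact IsComm.swap (table_F hq h₁)
  have hA := sympBilin_isAlt (m := 1) (F := F)
  have hB := sympBilin_nondegenerate (m := 1) (F := F)
  have e₀ := plane_isA hA hB finrank_Pl h₀ hg₀
  have e₁ := plane_isA hA hB finrank_Pl h₁ hg₁
  refine isComm_of_isA_one (prodForm_isAlt hA hA) (prodForm_nondeg hB hB) (prod_mem h₀ h₁) (m := 2) ?_ (by norm_num)
    (Or.inl (by rw [hq]; norm_num)) (IsA.prod e₀ e₁)
  rw [Module.finrank_prod, finrank_Pl]

/-- After adding a plane we get a commutator. -/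
def QQ {V : Type v} [AddCommGroup V] [Module F V] (B : LinearMap.BilinForm F V) (g : V ≃ₗ[F] V) : Prop :=
  ∀ g₀ : Pl F ≃ₗ[F] Pl F, g₀ ∈ IsomGroup (P0 F) → IsComm (prodForm (P0 F) B) (g₀.prodCongr g)

variable {V : Type v} [AddCommGroup V] [Module F V] {B : LinearMap.BilinForm F V} [FiniteDimensional F V]

/-- A plane is a copy of the standard plane. -/
theorem plane_transport (hA : B.IsAlt) (hB : B.Nondegenerate) (hdim : Module.finrank F V = 2) {g : V ≃ₗ[F] V}
    (hg : g ∈ IsomGroup B) : ∃ (e : V ≃ₗ[F] Pl F) (g' : Pl F ≃ₗ[F] Pl F), g' ∈ IsomGroup (P0 F) ∧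
      (∀ x y, P0 F (e x) (e y) = B x y) ∧ ∀ x, e (g x) = g' (e x) := by
  obtain ⟨e, he⟩ := exists_sympEquiv B hA hB (k := 1) (by rw [hdim])
  have he' : ∀ u v, P0 F (e u) (e v) = B u v := he
  refine ⟨e, e.symm.trans (g.trans e), ?_, he', fun x => by simp⟩
  intro x y
  simp only [LinearEquiv.trans_apply]
  have e2 := he' (e.symm x) (e.symm y)
  rw [e.apply_symm_apply, e.apply_symm_apply] at e2
  rw [he', hg, e2]

theorem plane_QQ (hq : Fintype.card F = 3) (hA : B.IsAlt) (hB : B.Nondegenerate) (hdim : Module.finrank F V = 2)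
    {g : V ≃ₗ[F] V} (hg : g ∈ IsomGroup B) : QQ B g := by
  intro g₀ h₀
  obtain ⟨e, g', hg', he, hge⟩ := plane_transport hA hB hdim hg
  exact IsComm.congr_right e he hge (comm2 hq h₀ hg')

theorem isA_of_QQ_one (hq : Fintype.card F = 3) (hA : B.IsAlt) (hB : B.Nondegenerate) {g : V ≃ₗ[F] V}
    (hg : g ∈ IsomGroup B) (h : IsA B 1 g) {m : ℕ} (hm : Module.finrank F V = 2 * m) (hm2 : 2 ≤ m) :
    IsComm B g ∧ QQ B g := by
  have hq' : 5 ≤ Fintype.card F ^ m := by
    rw [hq]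
    calc 5 ≤ 3 ^ 2 := by norm_num
      _ ≤ 3 ^ m := Nat.pow_le_pow_right (by norm_num) hm2
  have hI : IsComm B g := isComm_of_isA_one hA hB hg hm (by omega) (Or.inl hq') h
  refine ⟨hI, fun g₀ h₀ => ?_⟩
  have hA0 := sympBilin_isAlt (m := 1) (F := F)
  have hB0 := sympBilin_nondegenerate (m := 1) (F := F)
  by_cases hg₀ : g₀ = LinearEquiv.neg F
  · rw [hg₀]
    exact IsComm.prod (plane_neg hA0 hB0 finrank_Pl (two_ne_zero_of_card hq)) hI
  · have e₀ := plane_isA hA0 hB0 finrank_Pl h₀ hg₀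
    refine isComm_of_isA_one (prodForm_isAlt hA0 hA) (prodForm_nondeg hB0 hB) (prod_mem h₀ hg) (m := 1 + m) ?_ (by omega)
      (Or.inl ?_) (IsA.prod e₀ h)
    · rw [Module.finrank_prod, finrank_Pl, hm]
      ring
    · rw [hq]
      calc 5 ≤ 3 ^ 2 := by norm_num
        _ ≤ 3 ^ (1 + m) := Nat.pow_le_pow_right (by norm_num) (by omega)

theorem isA_of_QQ_neg (hq : Fintype.card F = 3) (hA : B.IsAlt) (hB : B.Nondegenerate) {g : V ≃ₗ[F] V}
    (hg : g ∈ IsomGroup B) (h : IsA B (-1) g) (hI : IsComm B g) {n : ℕ} (hm : Module.finrank F V = 2 * (2 * n + 1))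
    (hn : 1 ≤ n) : QQ B g := by
  intro g₀ h₀
  have hA0 := sympBilin_isAlt (m := 1) (F := F)
  have hB0 := sympBilin_nondegenerate (m := 1) (F := F)
  by_cases hg₀ : g₀ = 1
  · rw [hg₀]
    exact IsComm.prod isComm_one hI
  · have hne : (LinearEquiv.neg F * g₀ : Pl F ≃ₗ[F] Pl F) ≠ LinearEquiv.neg F := by
      intro h1
      apply hg₀
      ext1 x
      have := LinearEquiv.congr_fun h1 x
      have e1 : (LinearEquiv.neg F * g₀ : Pl F ≃ₗ[F] Pl F) x = - g₀ x := rfl
      have e2 : (LinearEquiv.neg F : Pl F ≃ₗ[F] Pl F) x = - x := rfl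
      rw [e1, e2, neg_inj] at this
      exact this
    have hmem : (LinearEquiv.neg F * g₀ : Pl F ≃ₗ[F] Pl F) ∈ IsomGroup (P0 F) := by
      intro x y
      have e1 : ∀ z, (LinearEquiv.neg F * g₀ : Pl F ≃ₗ[F] Pl F) z = - g₀ z := fun _ => rfl
      simp only [e1, map_neg, LinearMap.neg_apply, neg_neg]
      exact h₀ x y
    have e₀ := isA_neg_iff.mpr (plane_isA hA0 hB0 finrank_Pl hmem hne)
    refine isComm_of_isA_neg (prodForm_isAlt hA0 hA) (prodForm_nondeg hB0 hB) (prod_mem h₀ hg) (n := n + 1) ?_ (by omega)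
      (Or.inl ?_) (IsA.prod e₀ h)
    · rw [Module.finrank_prod, finrank_Pl, hm]
      ring
    · rw [hq]
      calc 5 ≤ 3 ^ 2 := by norm_num
        _ ≤ 3 ^ (n + 1) := Nat.pow_le_pow_right (by norm_num) (by omega)

/-- The main property in the case `q = 3`. -/
theorem three_all (hq : Fintype.card F = 3) (V : Type v) [AddCommGroup V] [Module F V] [FiniteDimensional F V] [Nontrivial V]
    (B : LinearMap.BilinForm F V) (g : V ≃ₗ[F] V) (hA : B.IsAlt) (hB : B.Nondegenerate) (hg : g ∈ IsomGroup B) :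
    QQ B g ∧ (IsComm B g ∨ Module.finrank F V = 2) := by
  have hA0 := sympBilin_isAlt (m := 1) (F := F)
  have hB0 := sympBilin_nondegenerate (m := 1) (F := F)
  refine Cfsg.Agent.Lib.Classical.Ore.Decomp.induct (fun V _ _ B g => QQ B g ∧ (IsComm B g ∨ Module.finrank F V = 2))
    ?_ ?_ ?_ ?_ V B g hA hB hg
  · -- congruence
    intro V V' _ _ _ _ B B' g g' e he hge ⟨hQ, hR⟩
    refine ⟨fun g₀ h₀ => IsComm.congr_right e he hge (hQ g₀ h₀), ?_⟩
    rcases hR with h | h
    · exact Or.inl (IsComm.congr e he hge h)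
    · right
      rw [e.finrank_eq, h]
  · -- products
    intro V₁ V₂ _ _ _ _ _ _ _ _ B₁ B₂ g₁ g₂ hA₁ hB₁ hg₁ hA₂ hB₂ hg₂ ⟨hQ₁, hR₁⟩ ⟨hQ₂, hR₂⟩
    have hR : IsComm (prodForm B₁ B₂) (g₁.prodCongr g₂) := by
      by_cases hI₂ : IsComm B₂ g₂
      · by_cases hI₁ : IsComm B₁ g₁
        · exact IsComm.prod hI₁ hI₂
        · have hd := hR₁.resolve_left hI₁
          obtain ⟨e, g', hg', he, hge⟩ := plane_transport hA₁ hB₁ hd hg₁
          exact IsComm.swap (IsComm.congr_right e he hge (IsComm.swap (hQ₂ g' hg')))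
      · have hd := hR₂.resolve_left hI₂
        obtain ⟨e, g', hg', he, hge⟩ := plane_transport hA₂ hB₂ hd hg₂
        exact IsComm.congr_right e he hge (IsComm.swap (hQ₁ g' hg'))
    refine ⟨fun g₀ h₀ => ?_, Or.inl hR⟩
    by_cases hI₂ : IsComm B₂ g₂
    · exact IsComm.assoc (IsComm.prod (hQ₁ g₀ h₀) hI₂)
    by_cases hI₁ : IsComm B₁ g₁
    · refine IsComm.congr_right (B₂' := prodForm B₂ B₁) (g₂' := g₂.prodCongr g₁) (LinearEquiv.prodComm F V₁ V₂)
        (fun x y => by simp [add_comm]) (fun _ => rfl) ?_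
      exact IsComm.assoc (IsComm.prod (hQ₂ g₀ h₀) hI₁)
    have hd₁ := hR₁.resolve_left hI₁
    have hd₂ := hR₂.resolve_left hI₂
    have h2 := two_ne_zero_of_card hq
    by_cases hg₀ : g₀ = LinearEquiv.neg F
    · rw [hg₀]
      exact IsComm.prod (plane_neg hA0 hB0 finrank_Pl h2) hR
    have hne₁ : g₁ ≠ LinearEquiv.neg F := by
      rintro rfl
      exact hI₁ (plane_neg hA₁ hB₁ hd₁ h2)
    have hne₂ : g₂ ≠ LinearEquiv.neg F := by
      rintro rfl
      exact hI₂ (plane_neg hA₂ hB₂ hd₂ h2)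
    refine isComm_of_isA_one (prodForm_isAlt hA0 (prodForm_isAlt hA₁ hA₂)) (prodForm_nondeg hB0 (prodForm_nondeg hB₁ hB₂))
      (prod_mem h₀ (prod_mem hg₁ hg₂)) (m := 3) ?_ (by norm_num) (Or.inl (by rw [hq]; norm_num))
      (IsA.prod (plane_isA hA0 hB0 finrank_Pl h₀ hg₀)
        (IsA.prod (plane_isA hA₁ hB₁ hd₁ hg₁ hne₁) (plane_isA hA₂ hB₂ hd₂ hg₂ hne₂)))
    rw [Module.finrank_prod, Module.finrank_prod, finrank_Pl, hd₁, hd₂]
  · -- the blocks with `κ = 1`
    intro V _ _ _ _ B g hA hB hg h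
    obtain ⟨m, hm⟩ := Cfsg.Agent.Lib.Classical.Symp.DecompMax.even_finrank _ B hA hB rfl
    have hpos : 0 < Module.finrank F V := Module.finrank_pos
    by_cases hm1 : m = 1
    · subst hm1
      exact ⟨plane_QQ hq hA hB hm hg, Or.inr hm⟩
    · obtain ⟨h1, h2⟩ := isA_of_QQ_one hq hA hB hg h hm (by omega)
      exact ⟨h2, Or.inl h1⟩
  · -- the blocks with `κ = -1`
    intro V _ _ _ _ B g hA hB hg h2 h hI hodd
    refine ⟨?_, Or.inl hI⟩
    obtain ⟨m, hm⟩ := Cfsg.Agent.Lib.Classical.Symp.DecompMax.even_finrank _ B hA hB rfl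
    rw [hm, Nat.mul_div_cancel_left _ (by norm_num)] at hodd
    obtain ⟨n, rfl⟩ := hodd
    by_cases hn : n = 0
    · subst hn
      exact plane_QQ hq hA hB hm hg
    · exact isA_of_QQ_neg hq hA hB hg h hI hm (by omega)

end Q

end Cfsg.Agent.Lib.Classical.Ore.Three
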